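import Cfsg.Agent.Lib.Chev.Sub.High
import Cfsg.Agent.Lib.Chev.Levi
import Cfsg.Agent.Lib.Chev.TorusGen

/-! A generic computation of centralizers of unipotent elements in characteristic two. -/

set_option autoImplicit false
set_option linter.unusedSimpArgs false
set_option linter.unusedVariables false
set_option linter.unusedSectionVars false

namespace Cfsg.Agent.Lib.Chev

open Cfsg Cfsg.Lie Matrix
open Good2 (NN Ut)

variable {D : ChevalleyDatum} {F : Type*} [Field F]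

/-- A set of basis vectors indexed by roots. -/
def OmA (D : ChevalleyDatum) (A : List ℕ) : D.Idx → Prop
  | Sum.inl _ => False
  | Sum.inr v => v.val ∈ A

/-- The list `A` of roots spans a subspace preserved by the root elements of `T`, in characteristic two. -/
def ReachOK (D : ChevalleyDatum) (T : ℕ → Prop) (A : List ℕ) : Prop :=
  ∀ τ ∈ A, τ < D.nroots ∧ ∀ a, T a → τ ≠ D.neg a ∧ ∀ q ∈ D.chainEntry a τ, q.2 % 2 ≠ 0 → q.1 ∈ A

theorem cast_even_two [CharP F 2] {z : ℤ} (h : z % 2 = 0) : ((z : ℤ) : F) = 0 :=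
  (CharP.intCast_eq_zero_iff F 2 z).2 (by omega)

theorem cast_odd_two [CharP F 2] {z : ℤ} (h : z % 2 ≠ 0) : ((z : ℤ) : F) = 1 := by
  have h1 : z = 2 * (z / 2) + 1 := by omega
  rw [h1]
  push_cast
  rw [CharTwo.two_eq_zero (R := F)]
  ring

/-- Sums of basis vectors in characteristic two. -/
theorem sum_vE_odd_zero [CharP F 2] (l0 : ℕ) (t : F) (L : List ((ℕ × ℤ) × ℕ)) (row : D.Idx)
    (h : ∀ q ∈ L, q.1.2 % 2 ≠ 0 → cd D row ≠ l0 + q.1.1) :
    ((L.map fun q => (((q.1.2 : ℤ) : F) * t ^ (q.2 + 1)) • vE D F (l0 + q.1.1)).sum) row = 0 := by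
  induction L with
  | nil => simp
  | cons a L ih =>
    simp only [List.map_cons, List.sum_cons, Pi.add_apply, Pi.smul_apply]
    rw [ih (fun q hq => h q (List.mem_cons_of_mem _ hq))]
    by_cases h0 : a.1.2 % 2 = 0
    · rw [cast_even_two h0]
      simp
    · have : vE D F (l0 + a.1.1) row = 0 := by
        simp only [vE]
        rw [if_neg (h a List.mem_cons_self h0)]
      simp [this]

namespace Good2

variable (G : Good2 D)
include G

theorem nG_eq_xgC (i : ℕ) (hi : i < D.rank) : (G.nG ⟨i, hi⟩ : GL D.Idx F) =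
    G.xg (G.simple_lt hi) 1 * G.xg (G.neg_lt (G.simple_lt hi)) (-1) * G.xg (G.simple_lt hi) 1 := by
  apply Units.ext
  show D.nMat F (D.simple i) 1 = _
  simp [ChevalleyDatum.nMat, ChevalleyDatum.nWord, ChevalleyDatum.wordMat, mul_assoc]

theorem comm_of_evenC {r s : ℕ} (hr : r < D.nroots) (hs : s < D.nroots) (h1 : s ≠ r) (h2 : s ≠ D.neg r)
    (h : ∀ e ∈ D.commTerms r s, ((e.2.1 : ℤ) : F) = 0) (c d : F) :
    G.xg hs d * G.xg hr c = G.xg hr c * G.xg hs d := by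
  have hP := G.Phi_all (F := F) hr hs h1 h2 c d
  have e0 : D.wordMat F (D.commWord F r s c d) = 1 := by
    unfold ChevalleyDatum.commWord ChevalleyDatum.wordMat
    apply List.prod_eq_one
    intro x hx
    obtain ⟨y, hy, rfl⟩ := List.mem_map.mp hx
    obtain ⟨e, he, rfl⟩ := List.mem_map.mp hy
    simp only
    rw [h e he]
    simp only [zero_mul]
    exact G.x_zero (G.commTerms_lt hr hs _ he)
  rw [e0, mul_one] at hP
  exact Units.ext hP

theorem word_mem_KC {K : Subgroup (GL D.Idx F)} (w : List (ℕ × F))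
    (h : ∀ a ∈ w, ∃ ha : a.1 < D.nroots, G.xg ha a.2 ∈ K) :
    ∃ y ∈ K, (y : Matrix D.Idx D.Idx F) = D.wordMat F w := by
  induction w with
  | nil => exact ⟨1, Subgroup.one_mem _, by simp [ChevalleyDatum.wordMat]⟩
  | cons a w ih =>
    obtain ⟨y, hy, e⟩ := ih (fun b hb => h b (List.mem_cons_of_mem _ hb))
    obtain ⟨ha, h2⟩ := h a List.mem_cons_self
    refine ⟨G.xg ha a.2 * y, Subgroup.mul_mem _ h2 hy, ?_⟩
    rw [Units.val_mul, e, Good0.xg_val]
    simp [ChevalleyDatum.wordMat]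

theorem hWord_oneC {r : ℕ} (hr : r < D.nroots) : D.wordMat F (D.hWord r (1 : F)) = 1 := by
  have h1 : ((G.nrU hr (1 : F) * (G.nrU hr (1 : F))⁻¹ : GL D.Idx F) : Matrix D.Idx D.Idx F) = 1 := by
    rw [mul_inv_cancel]; rfl
  rw [G.nrU_inv, Units.val_mul, nrU_val, nrU_val] at h1
  unfold ChevalleyDatum.hWord
  rw [wordMat_append]
  exact h1

theorem x_Stab_OmA [CharP F 2] {T : ℕ → Prop} {A : List ℕ} (hA : ReachOK D T A) {a : ℕ} (hT : T a)
    (ha : a < D.nroots) (t : F) : Stab (OmA D A) (D.x F a t) := by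
  intro c row hc hrow
  rcases c with i | v
  · exact absurd hc (by simp [OmA])
  have hvA : v.val ∈ A := hc
  have hcol := congrFun (mulVec_vE D (D.x F a t) (Sum.inr v)) row
  simp only [cd] at hcol
  rw [← hcol]
  have hrow' : ∀ u : ℕ, u ∈ A → cd D row ≠ D.rank + u := by
    intro u hu h
    rcases row with i' | w
    · simp only [cd] at h
      have := i'.isLt
      omega
    · simp only [cd] at h
      apply hrow
      have : w.val = u := by omega
      show w.val ∈ A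
      rw [this]
      exact hu
  have hv0 := hrow' v.val hvA
  have h1 : vE D F (D.rank + v.val) row = 0 := by
    simp only [vE]
    rw [if_neg hv0]
  obtain ⟨hvlt, hvT⟩ := hA v.val hvA
  obtain ⟨hvneg, hch⟩ := hvT a hT
  by_cases hva : v.val = a
  · rw [hva, x_vE_self D ha]
    rw [hva] at h1
    exact h1
  · rw [G.x_col_chain ha v.isLt hva hvneg t]
    simp only [Pi.add_apply]
    rw [h1, zero_add]
    apply sum_vE_odd_zero
    intro q hq hodd
    apply hrow'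
    apply hch q.1 _ hodd
    rw [(List.mem_zipIdx hq).2.2]
    exact List.getElem_mem _

theorem rG_Stab_OmA [CharP F 2] {T : ℕ → Prop} {A : List ℕ} (hA : ReachOK D T A)
    (hT : ∀ r, T r → r < D.nroots) {g : GL D.Idx F} (hg : g ∈ rG D F T) :
    Stab (OmA D A) (g : Matrix D.Idx D.Idx F) := by
  refine G.rG_induction (P := T) hT (Q := fun g => Stab (OmA D A) (g : Matrix D.Idx D.Idx F)) ?_ ?_ ?_ g hg
  · simpa using Stab_one _
  · intro a b ha hb
    simpa using Stab_mul ha hb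
  · intro r hr t h
    exact G.x_Stab_OmA hA h hr t

omit G in
theorem mono_row_zero {w : Equiv.Perm (Fin D.nroots)} {n : Matrix D.Idx D.Idx F} (h : IsMono D w n)
    (i : Fin D.rank) (s : Fin D.nroots) : n (Sum.inl i) (Sum.inr s) = 0 := by
  obtain ⟨c, _, e⟩ := h s
  have h1 := congrFun (mulVec_vE D n (Sum.inr s)) (Sum.inl i)
  simp only [cd] at h1
  rw [e] at h1
  rw [← h1]
  simp only [Pi.smul_apply, vE_inl, smul_eq_mul]
  rw [if_neg (by have := i.isLt; omega), mul_zero]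

omit G in
theorem mono_h_part {w : Equiv.Perm (Fin D.nroots)} {n : Matrix D.Idx D.Idx F} (h : IsMono D w n)
    {v v' : D.Idx → F} (hv : ∀ j, v (Sum.inl j) = v' (Sum.inl j)) (i : Fin D.rank) :
    (n *ᵥ v) (Sum.inl i) = (n *ᵥ v') (Sum.inl i) := by
  simp only [Matrix.mulVec, dotProduct, Fintype.sum_sum_type, Sum.elim_inl, Sum.elim_inr]
  have h0 : ∀ u : D.Idx → F, ∑ x : Fin D.nroots, n (Sum.inl i) (Sum.inr x) * u (Sum.inr x) = 0 := by
    intro u
    apply Finset.sum_eq_zero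
    intro x _
    rw [mono_row_zero h, zero_mul]
  rw [h0, h0]
  simp only [hv]

theorem nw_hV (l : List (Fin D.rank)) (s : Fin D.nroots) :
    ((G.nw l : GL D.Idx F) : Matrix D.Idx D.Idx F) *ᵥ hV D F s.val = hV D F (G.pp l s).val := by
  induction l with
  | nil => simp [Good2.pp]
  | cons i l ih =>
    rw [G.nw_cons, G.pp_cons, Units.val_mul, ← Matrix.mulVec_mulVec, ih, Equiv.Perm.mul_apply, G.Wp_val]
    exact G.n_hV i.isLt (G.pp l s).isLt

theorem dg_hV {k : GL D.Idx F} (hk : k ∈ D.diagonalSubgroup F) (r : ℕ) :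
    (k : Matrix D.Idx D.Idx F) *ᵥ hV D F r = hV D F r := by
  obtain ⟨χ, _, h2⟩ := G.H_form hk
  rw [h2, dgM]
  funext row
  rw [Matrix.mulVec_diagonal]
  rcases row with i | s
  · simp
  · simp [hV_inr]

/-- The `h`-row of `x_a(c)`. -/
theorem x_row_h {a : ℕ} (ha : a < D.nroots) (c : F) (j : Fin D.rank) (v : D.Idx → F) :
    (D.x F a c *ᵥ v) (Sum.inl j) =
      v (Sum.inl j) + c * ((cor D a j.val : ℤ) : F) * v (Sum.inr ⟨D.neg a, G.neg_lt ha⟩) := by
  classical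
  have e1 : ∀ i : Fin D.rank, D.x F a c (Sum.inl j) (Sum.inl i) = if i = j then 1 else 0 := by
    intro i
    have h1 := congrFun (mulVec_vE D (D.x F a c) (Sum.inl i)) (Sum.inl j)
    simp only [cd] at h1
    rw [← h1, x_vE_h D ha c i.isLt]
    simp only [Pi.add_apply, Pi.smul_apply, vE_inl, smul_eq_mul]
    rw [if_neg (show ¬ (j.val = D.rank + a) by have := j.isLt; omega), mul_zero, add_zero]
    by_cases hij : i = j
    · subst hij; simp
    · have : ¬ (j.val = i.val) := fun h => hij (Fin.ext h.symm)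
      rw [if_neg this, if_neg hij]
  have e2 : ∀ s : Fin D.nroots, s ≠ ⟨D.neg a, G.neg_lt ha⟩ → D.x F a c (Sum.inl j) (Sum.inr s) = 0 := by
    intro s hs
    have hsn : s.val ≠ D.neg a := fun h => hs (Fin.ext h)
    have h1 := congrFun (mulVec_vE D (D.x F a c) (Sum.inr s)) (Sum.inl j)
    simp only [cd] at h1
    rw [← h1]
    have hj : ∀ u : ℕ, j.val ≠ D.rank + u := by
      intro u
      have := j.isLt
      omega
    by_cases hsa : s.val = a
    · rw [hsa, x_vE_self D ha]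
      simp only [vE_inl]
      rw [if_neg (hj _)]
    · rw [G.x_col_chain ha s.isLt hsa hsn c]
      simp only [Pi.add_apply]
      have h2 : vE D F (D.rank + s.val) (Sum.inl j) = 0 := by
        simp only [vE_inl]
        rw [if_neg (hj _)]
      rw [h2, zero_add]
      apply sum_vE_apply_zero
      intro q _
      exact hj _
  have e3 : D.x F a c (Sum.inl j) (Sum.inr ⟨D.neg a, G.neg_lt ha⟩) = c * ((cor D a j.val : ℤ) : F) := by
    have h1 := congrFun (mulVec_vE D (D.x F a c) (Sum.inr ⟨D.neg a, G.neg_lt ha⟩)) (Sum.inl j)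
    simp only [cd] at h1
    rw [← h1, G.x_col_neg ha c]
    simp only [Pi.add_apply, Pi.smul_apply, vE_inl, smul_eq_mul]
    rw [hV_inl]
    have hj : ∀ u : ℕ, j.val ≠ D.rank + u := by
      intro u
      have := j.isLt
      omega
    rw [if_neg (hj _), if_neg (hj _)]
    ring
  simp only [Matrix.mulVec, dotProduct, Fintype.sum_sum_type, Sum.elim_inl, Sum.elim_inr]
  rw [Finset.sum_eq_single j, Finset.sum_eq_single (⟨D.neg a, G.neg_lt ha⟩ : Fin D.nroots)]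
  · rw [e1, e3, if_pos rfl, one_mul]
  · intro s _ hs
    rw [e2 s hs, zero_mul]
  · simp
  · intro i _ hi
    rw [e1, if_neg hi, zero_mul]
  · simp

/-- The determining lemma for the Weyl element. -/
theorem det_root [CharP F 2] {T T' : ℕ → Prop} (hT : ∀ r, T r → r < D.nroots)
    (hT' : ∀ r, T' r → D.IsPosRoot r)
    {k : GL D.Idx F} (hk : k ∈ D.diagonalSubgroup F) (l : List (Fin D.rank))
    {y y' : GL D.Idx F} (hy : y ∈ rG D F T) (hy' : y' ∈ rG D F T') {a : Fin D.nroots} {c : F} (hc : c ≠ 0)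
    (e : y * (k * G.nw l) = (k * G.nw l) * (G.xg a.isLt c * y'))
    {A₁ A₂ : List ℕ} (hA₁ : ReachOK D T A₁) (h₁ : D.neg (G.pp l a).val ∈ A₁)
    (hA₂ : ReachOK D T' A₂) (h₂ : D.neg a.val ∈ A₂)
    (i : Fin D.rank) (hi : cor D (G.pp l a).val i.val % 2 ≠ 0) : False := by
  have hm : IsMono D (G.pp l) ((k * G.nw l : GL D.Idx F) : Matrix D.Idx D.Idx F) := by
    have := (G.H_isMono hk).mul (G.nw_isMono l)
    simpa using this
  set n : GL D.Idx F := k * G.nw l with hn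
  have hna : (G.nf a).val = D.neg a.val := rfl
  set E : D.Idx → F := vE D F (D.rank + D.neg a.val) with hE
  -- left side
  have hL : (((y * n : GL D.Idx F) : Matrix D.Idx D.Idx F) *ᵥ E) (Sum.inl i) = 0 := by
    obtain ⟨κ, _, e1⟩ := hm (G.nf a)
    rw [Units.val_mul, ← Matrix.mulVec_mulVec, hE, ← hna, e1, Matrix.mulVec_smul, G.pp_nf]
    have h3 := congrFun (mulVec_vE D (y : Matrix D.Idx D.Idx F) (Sum.inr (G.nf (G.pp l a)))) (Sum.inl i)
    simp only [cd] at h3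
    simp only [Pi.smul_apply, smul_eq_mul]
    rw [h3, G.rG_Stab_OmA hA₁ hT hy (Sum.inr (G.nf (G.pp l a))) (Sum.inl i) h₁ (by simp [OmA]), mul_zero]
  -- right side
  have hR : (((n * (G.xg a.isLt c * y') : GL D.Idx F) : Matrix D.Idx D.Idx F) *ᵥ E) (Sum.inl i) =
      c * ((cor D (G.pp l a).val i.val : ℤ) : F) := by
    have hval : ((n * (G.xg a.isLt c * y') : GL D.Idx F) : Matrix D.Idx D.Idx F) =
        (n : Matrix D.Idx D.Idx F) * ((G.xg a.isLt c : Matrix D.Idx D.Idx F) * (y' : Matrix D.Idx D.Idx F)) := by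
      simp only [Units.val_mul]
    rw [hval, ← Matrix.mulVec_mulVec, ← Matrix.mulVec_mulVec]
    have hvv : (G.xg a.isLt c : Matrix D.Idx D.Idx F) *ᵥ ((y' : Matrix D.Idx D.Idx F) *ᵥ E) =
        D.x F a.val c *ᵥ ((y' : Matrix D.Idx D.Idx F) *ᵥ E) := by rw [G.xg_val]
    rw [hvv]
    have hcolE : (y' : Matrix D.Idx D.Idx F) *ᵥ E = fun row => (y' : Matrix D.Idx D.Idx F) row (Sum.inr (G.nf a)) := by
      have h3 := mulVec_vE D (y' : Matrix D.Idx D.Idx F) (Sum.inr (G.nf a))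
      simp only [cd] at h3
      rw [hE, ← hna, h3]
    have hU : y' ∈ D.posUnipotent F := rG_mono (fun r hr => hT' r hr) hy'
    have hT'lt : ∀ r, T' r → r < D.nroots := fun r hr => (hT' r hr).1
    have hdiag : (y' : Matrix D.Idx D.Idx F) (Sum.inr (G.nf a)) (Sum.inr (G.nf a)) = 1 := (G.U_UTri hU).2 _
    have hcol0 : ∀ j, (y' : Matrix D.Idx D.Idx F) (Sum.inl j) (Sum.inr (G.nf a)) = 0 := fun j =>
      G.rG_Stab_OmA hA₂ hT'lt hy' (Sum.inr (G.nf a)) (Sum.inl j) h₂ (by simp [OmA])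
    have h5 : (G.pp l a) = G.pp l a := rfl
    have h6 := mono_h_part hm (v := D.x F a.val c *ᵥ ((y' : Matrix D.Idx D.Idx F) *ᵥ E)) (v' := c • hV D F a.val)
      (by
        intro j
        rw [G.x_row_h a.isLt c j, hcolE]
        simp only
        have : (⟨D.neg a.val, G.neg_lt a.isLt⟩ : Fin D.nroots) = G.nf a := rfl
        rw [this, hcol0, hdiag]
        simp only [Pi.smul_apply, smul_eq_mul]
        rw [hV_inl]
        ring) i
    rw [h6, Matrix.mulVec_smul, hn, Units.val_mul, ← Matrix.mulVec_mulVec, G.nw_hV, G.dg_hV hk]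
    simp only [Pi.smul_apply, smul_eq_mul]
    rw [hV_inl]
  have h7 : c * ((cor D (G.pp l a).val i.val : ℤ) : F) = 0 := by
    rw [← hR, ← e, hL]
  rw [cast_odd_two hi, mul_one] at h7
  exact hc h7

/-- `X_a` meets the complementary subgroup trivially. -/
theorem xg_not_mem [CharP F 2] {T : ℕ → Prop} (hT : ∀ r, T r → r < D.nroots) {a : ℕ} (ha : a < D.nroots) {t : F}
    {A : List ℕ} (hA : ReachOK D T A) (h₂ : D.neg a ∈ A) {i : ℕ} (hi : i < D.rank) (hodd : cor D a i % 2 ≠ 0)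
    (h : G.xg ha t ∈ rG D F T) : t = 0 := by
  have h1 := G.rG_Stab_OmA hA hT h (Sum.inr ⟨D.neg a, G.neg_lt ha⟩) (Sum.inl ⟨i, hi⟩) h₂ (by simp [OmA])
  rw [G.xg_val] at h1
  have h3 := congrFun (mulVec_vE D (D.x F a t) (Sum.inr ⟨D.neg a, G.neg_lt ha⟩)) (Sum.inl ⟨i, hi⟩)
  simp only [cd] at h3
  rw [h1, G.x_col_neg ha t] at h3
  simp only [Pi.add_apply, Pi.smul_apply, vE_inl, smul_eq_mul] at h3
  rw [hV_inl] at h3
  rw [if_neg (show ¬ (i = D.rank + D.neg a) by omega), if_neg (show ¬ (i = D.rank + a) by omega), cast_odd_two hodd] at h3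
  simpa using h3

/-- The torus words lying in a subgroup. -/
theorem hWords_mem' {K : Subgroup (GL D.Idx F)} (c : ℕ → F) (J : Set ℕ) (hc0 : ∀ i, i < D.rank → i ∉ J → c i = 1)
    (h1 : ∀ (i : ℕ) (hi : i < D.rank), i ∈ J → ∀ t : F, G.xg (G.simple_lt hi) t ∈ K)
    (h2 : ∀ (i : ℕ) (hi : i < D.rank), i ∈ J → ∀ t : F, G.xg (G.neg_lt (G.simple_lt hi)) t ∈ K)
    (L : List ℕ) (hL : ∀ i ∈ L, i < D.rank) :
    ∃ y ∈ K, (y : Matrix D.Idx D.Idx F) = D.wordMat F (L.flatMap fun i => D.hWord (D.simple i) (c i)) := by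
  induction L with
  | nil => exact ⟨1, Subgroup.one_mem _, by simp [ChevalleyDatum.wordMat]⟩
  | cons i L ih =>
    obtain ⟨y, hy, e⟩ := ih (fun j hj => hL j (List.mem_cons_of_mem _ hj))
    have hi := hL i List.mem_cons_self
    have hp := G.simple_lt hi
    rw [List.flatMap_cons, wordMat_append, ← e]
    by_cases h0 : i ∈ J
    · obtain ⟨z, hz, e2⟩ := G.word_mem_KC (K := K) (D.hWord (D.simple i) (c i)) (by
        intro a ha
        simp only [ChevalleyDatum.hWord, ChevalleyDatum.nWord, List.cons_append, List.nil_append, List.mem_cons,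
          List.not_mem_nil, or_false] at ha
        rcases ha with rfl | rfl | rfl | rfl | rfl | rfl
        · exact ⟨hp, h1 i hi h0 _⟩
        · exact ⟨G.neg_lt hp, h2 i hi h0 _⟩
        · exact ⟨hp, h1 i hi h0 _⟩
        · exact ⟨hp, h1 i hi h0 _⟩
        · exact ⟨G.neg_lt hp, h2 i hi h0 _⟩
        · exact ⟨hp, h1 i hi h0 _⟩)
      exact ⟨z * y, Subgroup.mul_mem _ hz hy, by rw [Units.val_mul, e2]⟩
    · rw [hc0 i hi h0, G.hWord_oneC hp, one_mul]
      exact ⟨y, hy, rfl⟩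

end Good2

namespace Good3

variable (G : Good3 D)

theorem nG_mem_parabolicC {J : Set ℕ} {k : ℕ} (hk : k < D.rank) (hkJ : k ∈ J) :
    (G.toGood2.nG ⟨k, hk⟩ : GL D.Idx F) ∈ D.parabolicSubgroup F J :=
  Subgroup.mem_sup_right (Subgroup.subset_closure ⟨k, hkJ, hk, rfl⟩)

theorem pp_foldr_auxC (s : Fin D.nroots) : ∀ (l : List ℕ) (hl : ∀ i ∈ l, i < D.rank),
    ((G.toGood2.pp (l.attach.map fun i => (⟨i.1, hl i.1 i.2⟩ : Fin D.rank)) s : Fin D.nroots) : ℕ) =
      l.foldr G.W s.val := by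
  intro l
  induction l with
  | nil => intro hl; rfl
  | cons a l ih =>
    intro hl
    rw [List.attach_cons, List.map_cons, List.map_map]
    rw [Good2.pp_cons, Equiv.Perm.mul_apply, Good2.Wp_val, List.foldr_cons]
    congr 1
    have := ih (fun i hi => hl i (List.mem_cons_of_mem _ hi))
    rw [← this]
    congr 3

theorem nw_mem_parabolicC {J : Set ℕ} (l : List (Fin D.rank)) (hl : ∀ k ∈ l, (k : ℕ) ∈ J) :
    (G.toGood2.nw l : GL D.Idx F) ∈ D.parabolicSubgroup F J := by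
  induction l with
  | nil => exact Subgroup.one_mem _
  | cons a l ih =>
    rw [Good2.nw_cons]
    exact Subgroup.mul_mem _ (G.nG_mem_parabolicC a.isLt (hl a (by simp)))
      (ih (fun k hk => hl k (List.mem_cons_of_mem _ hk)))

/-- The generic centralizer theorem. -/
theorem cen_main [CharP F 2] (Up Ld : ℕ → Prop) (hUp : ∀ r, Up r → D.IsPosRoot r) (hLd : ∀ a, Ld a → Up a)
    (z : GL D.Idx F) (hzUp : z ∈ rG D F Up)
    (hz : ∀ a (ha : a < D.nroots), Ld a → ∃ y' ∈ rG D F (fun r => Up r ∧ r ≠ a), z = G.xg ha 1 * y')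
    (hzU : ∀ u ∈ D.posUnipotent F, ∃ κ ∈ rG D F (fun r => Up r ∧ ¬ Ld r), u * z * u⁻¹ = z * κ)
    (hDet1 : ∀ s, s < D.nroots → ¬ Up s → ∃ A, ReachOK D Up A ∧ D.neg s ∈ A)
    (hDet2 : ∀ a, Ld a → ∃ A, ReachOK D (fun r => Up r ∧ r ≠ a) A ∧ D.neg a ∈ A)
    (hodd : ∀ s, s < D.nroots → ∃ i, i < D.rank ∧ cor D s i % 2 ≠ 0)
    (J : Set ℕ)
    (hW : ∀ l : List (Fin D.rank), (∀ a : Fin D.nroots, Ld a.val →
        Up (G.toGood2.pp l a).val ∧ Up ((G.toGood2.pp l)⁻¹ a).val) →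
        ∃ l' : List (Fin D.rank), (∀ x ∈ l', x.val ∈ J) ∧ G.toGood2.pp l' = G.toGood2.pp l)
    (M : Subgroup (GL D.Idx F)) (hMC : ∀ m ∈ M, m * z = z * m)
    (hMJ1 : ∀ (j : ℕ) (hj : j < D.rank), j ∈ J → ∀ t : F, G.xg (G.simple_lt hj) t ∈ M)
    (hMJ2 : ∀ (j : ℕ) (hj : j < D.rank), j ∈ J → ∀ t : F, G.xg (G.neg_lt (G.simple_lt hj)) t ∈ M)
    (hJL : ∀ (r : ℕ) (hr : r < D.nroots) (t : F), D.IsPosRoot r → D.InRootSub J r → G.xg hr t ∈ M)
    (hBU : ∀ u ∈ D.posUnipotent F, u * z = z * u → u ∈ M)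
    (hD : ∀ c : ℕ → F, (∀ i, i < D.rank → c i ≠ 0) → (∀ a, Ld a → chiL D (List.range D.rank) c a = 1) →
      ∀ i, i < D.rank → i ∉ J → c i = 1) :
    D.group F ⊓ Subgroup.centralizer {z} ≤ M := by
  classical
  have G2 := G.toGood2
  have hUplt : ∀ r, Up r → r < D.nroots := fun r hr => (hUp r hr).1
  have hKUp : ∀ (a : ℕ), Ld a → rG D F (fun r => Up r ∧ ¬ Ld r) ≤ rG D F (fun r => Up r ∧ r ≠ a) :=
    fun a ha => rG_mono (fun r hr => ⟨hr.1, fun e => hr.2 (e ▸ ha)⟩)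
  have hKUp' : rG D F (fun r => Up r ∧ ¬ Ld r) ≤ rG D F Up := rG_mono (fun r hr => hr.1)
  rintro g ⟨hg, hgc⟩
  have hcomm : z * g = g * z := Subgroup.mem_centralizer_iff.mp hgc _ rfl
  obtain ⟨v, hv, k, hk, l, u, hu, rfl⟩ := G.toGood2.bruhat4 hg
  set n₀ : GL D.Idx F := k * G.toGood2.nw l with hn₀
  obtain ⟨κ₁, hκ₁, e₁⟩ := hzU u hu
  obtain ⟨κ₂, hκ₂, e₂⟩ := hzU v⁻¹ (Subgroup.inv_mem _ hv)
  have e₂' : v⁻¹ * z * v = z * κ₂ := by simpa using e₂
  have key : (z * κ₂) * n₀ = n₀ * (z * κ₁) := by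
    rw [← e₁, ← e₂']
    have : z * (v * k * G.toGood2.nw l * u) = v * k * G.toGood2.nw l * u * z := hcomm
    calc v⁻¹ * z * v * n₀ = v⁻¹ * (z * (v * k * G.toGood2.nw l * u)) * u⁻¹ := by
          rw [hn₀]; group
      _ = v⁻¹ * (v * k * G.toGood2.nw l * u * z) * u⁻¹ := by rw [this]
      _ = n₀ * (u * z * u⁻¹) := by rw [hn₀]; group
  have hn₀N : n₀ ∈ G.toGood2.N0 F := Subgroup.mul_mem _ (G.toGood2.H_le_N0 hk) (G.toGood2.nw_mem_N0 l)
  have hn₀m : IsMono D (G.toGood2.pp l) ((n₀ : GL D.Idx F) : Matrix D.Idx D.Idx F) := by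
    have := (G.toGood2.H_isMono hk).mul (G.toGood2.nw_isMono l)
    rw [hn₀, Units.val_mul]
    simpa using this
  -- the general determination
  have hdet : ∀ (k' : GL D.Idx F) (hk' : k' ∈ D.diagonalSubgroup F) (l' : List (Fin D.rank))
      (y : GL D.Idx F) (hy : y ∈ rG D F Up) (κ : GL D.Idx F) (hκ : κ ∈ rG D F (fun r => Up r ∧ ¬ Ld r))
      (e : y * (k' * G.toGood2.nw l') = (k' * G.toGood2.nw l') * (z * κ))
      (a : Fin D.nroots), Ld a.val → Up (G.toGood2.pp l' a).val := by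
    intro k' hk' l' y hy κ hκ e a ha
    by_contra hno
    obtain ⟨y', hy', hzy⟩ := hz a.val a.isLt ha
    obtain ⟨A₁, hA₁, h₁⟩ := hDet1 _ (G.toGood2.pp l' a).isLt hno
    obtain ⟨A₂, hA₂, h₂⟩ := hDet2 _ ha
    obtain ⟨i, hi, hodd'⟩ := hodd _ (G.toGood2.pp l' a).isLt
    have hy2 : y' * κ ∈ rG D F (fun r => Up r ∧ r ≠ a.val) := Subgroup.mul_mem _ hy' (hKUp a.val ha hκ)
    refine G.toGood2.det_root (T := Up) (T' := fun r => Up r ∧ r ≠ a.val) hUplt (fun r hr => hUp r hr.1) hk' l' hy hy2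
      (a := a) (c := (1 : F)) one_ne_zero ?_ hA₁ h₁ hA₂ h₂ ⟨i, hi⟩ hodd'
    rw [e, hzy]
    group
  have hUp1 : ∀ a : Fin D.nroots, Ld a.val → Up (G.toGood2.pp l a).val := by
    intro a ha
    exact hdet k hk l _ (Subgroup.mul_mem _ hzUp (hKUp' hκ₂)) κ₁ hκ₁ key a ha
  have hUp2 : ∀ a : Fin D.nroots, Ld a.val → Up ((G.toGood2.pp l)⁻¹ a).val := by
    intro a ha
    obtain ⟨k', hk', l', e'⟩ := G.toGood2.N0_form (Subgroup.inv_mem _ hn₀N)
    have hm1 : IsMono D (G.toGood2.pp l') ((n₀⁻¹ : GL D.Idx F) : Matrix D.Idx D.Idx F) := by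
      have := (G.toGood2.H_isMono hk').mul (G.toGood2.nw_isMono l')
      rw [e']
      simpa using this
    have hm2 := G.toGood2.N0_inv_isMono hn₀N hn₀m
    have hpp : G.toGood2.pp l' = (G.toGood2.pp l)⁻¹ := hm1.uniq hm2
    rw [← hpp]
    refine hdet k' hk' l' _ (Subgroup.mul_mem _ hzUp (hKUp' hκ₁)) κ₂ hκ₂ ?_ a ha
    rw [← e']
    calc z * κ₁ * n₀⁻¹ = n₀⁻¹ * (n₀ * (z * κ₁)) * n₀⁻¹ := by group
      _ = n₀⁻¹ * ((z * κ₂) * n₀) * n₀⁻¹ := by rw [key]
      _ = n₀⁻¹ * (z * κ₂) := by group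
  obtain ⟨l', hl'J, hl'⟩ := hW l (fun a ha => ⟨hUp1 a ha, hUp2 a ha⟩)
  set nJ : GL D.Idx F := G.toGood2.nw l' with hnJ
  have hh' : nJ⁻¹ * G.toGood2.nw l ∈ D.diagonalSubgroup F :=
    G.toGood2.inv_mul_mem_H (G.toGood2.nw_mem_N0 l') (G.toGood2.nw_mem_N0 l) (w := G.toGood2.pp l)
      (by rw [← hl']; exact G.toGood2.nw_isMono l') (G.toGood2.nw_isMono l)
  set k₂ : GL D.Idx F := k * (nJ * (nJ⁻¹ * G.toGood2.nw l) * nJ⁻¹) with hk₂
  have hk₂H : k₂ ∈ D.diagonalSubgroup F := Subgroup.mul_mem _ hk (G.toGood2.nw_conj_H l' hh')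
  have hn₀k : k * G.toGood2.nw l = k₂ * nJ := by rw [hk₂]; group
  -- splitting `u`
  set UJ := rG D F (QJ D J) with hUJ
  set UL := rG D F (fun r => D.IsPosRoot r ∧ D.InRootSub J r) with hUL
  have hnorm : ∀ q ∈ D.parabolicSubgroup F J, ∀ x ∈ UJ, q * x * q⁻¹ ∈ UJ := by
    intro q hq x hx
    have h1 : q ∈ Subgroup.normalizer ((D.unipotentRadical F J : Subgroup _) : Set (GL D.Idx F)) :=
      G.parabolic_le_normalizer _ hq
    rw [Good3.UJ_eq J] at h1
    exact (Subgroup.mem_normalizer_iff.1 h1 x).1 hx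
  have hUB : D.posUnipotent F ≤ D.parabolicSubgroup F J :=
    G.toGood2.U_le_B.trans le_sup_left
  have hULU : UL ≤ D.posUnipotent F := rG_mono (fun r hr => hr.1)
  have hUJU : UJ ≤ D.posUnipotent F := rG_mono (fun r hr => hr.1)
  have hUsup : D.posUnipotent F ≤ UJ ⊔ UL := by
    apply G.rG_le (fun r hr => hr.1)
    intro r hr t hP
    by_cases h0 : D.InRootSub J r
    · exact Subgroup.mem_sup_right (G.xg_mem hr ⟨hP, h0⟩ t)
    · exact Subgroup.mem_sup_left (G.xg_mem hr ⟨hP, h0⟩ t)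
  obtain ⟨uJ, huJ, uL, huL, hu12⟩ := (mem_sup_iff_of_conj (fun x hx w hw => hnorm x (hUB (hULU hx)) w hw)).1 (hUsup hu)
  have hnJP : nJ ∈ D.parabolicSubgroup F J := G.nw_mem_parabolicC l' hl'J
  -- membership of the pieces
  have hnJM : nJ ∈ M := by
    have : ∀ l₀ : List (Fin D.rank), (∀ x ∈ l₀, x.val ∈ J) → G.toGood2.nw l₀ ∈ M := by
      intro l₀ h₀
      induction l₀ with
      | nil => exact Subgroup.one_mem _
      | cons a l₀ ih =>
        rw [Good2.nw_cons]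
        refine Subgroup.mul_mem _ ?_ (ih (fun x hx => h₀ x (List.mem_cons_of_mem _ hx)))
        have haJ : a.val ∈ J := h₀ a (by simp)
        rw [show a = ⟨a.val, a.isLt⟩ from rfl, G.toGood2.nG_eq_xgC]
        exact Subgroup.mul_mem _ (Subgroup.mul_mem _ (hMJ1 _ a.isLt haJ _) (hMJ2 _ a.isLt haJ _)) (hMJ1 _ a.isLt haJ _)
    exact this l' hl'J
  have huLM : uL ∈ M := by
    refine G.rG_induction (P := fun r => D.IsPosRoot r ∧ D.InRootSub J r) (fun r hr => hr.1.1)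
      (Q := fun x => x ∈ M) (Subgroup.one_mem _) (fun a b ha hb => Subgroup.mul_mem _ ha hb) ?_ uL huL
    intro r hr t h
    exact hJL r hr t h.1 h.2
  have hu' : nJ * uJ * nJ⁻¹ ∈ D.posUnipotent F := hUJU (hnorm nJ hnJP uJ huJ)
  set v₂ : GL D.Idx F := v * (k₂ * (nJ * uJ * nJ⁻¹) * k₂⁻¹) with hv₂
  have hv₂U : v₂ ∈ D.posUnipotent F :=
    Subgroup.mul_mem _ hv (G.toGood2.H_conj_rG (P := D.IsPosRoot) (fun r hr => hr.1) hk₂H hu')
  have hgform : v * k * G.toGood2.nw l * u = v₂ * k₂ * (nJ * uL) := by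
    have : v * k * G.toGood2.nw l * u = v * (k * G.toGood2.nw l) * u := by group
    rw [this, hn₀k, hu12, hv₂]
    group
  rw [hgform] at hcomm ⊢
  refine Subgroup.mul_mem _ ?_ (Subgroup.mul_mem _ hnJM huLM)
  -- the Borel part
  have hcomm₃ : z * (v₂ * k₂) = (v₂ * k₂) * z := by
    have h3 : (nJ * uL) * z = z * (nJ * uL) := hMC _ (Subgroup.mul_mem _ hnJM huLM)
    have h4 : z * (v₂ * k₂) * (nJ * uL) = (v₂ * k₂) * z * (nJ * uL) := by
      calc z * (v₂ * k₂) * (nJ * uL) = z * (v₂ * k₂ * (nJ * uL)) := by group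
        _ = v₂ * k₂ * (nJ * uL) * z := hcomm
        _ = v₂ * k₂ * ((nJ * uL) * z) := by group
        _ = v₂ * k₂ * (z * (nJ * uL)) := by rw [h3]
        _ = (v₂ * k₂) * z * (nJ * uL) := by group
    exact mul_right_cancel h4
  obtain ⟨c, hc, hk₂c⟩ := G.toGood2.H_word hk₂H
  have hLr : ∀ i ∈ List.range D.rank, i < D.rank := fun i hi => List.mem_range.mp hi
  rw [G.toGood2.word_hWords _ hLr c (fun i hi => hc i (hLr i hi))] at hk₂c
  set χ : ℕ → F := chiL D (List.range D.rank) c with hχ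
  have hχi : IsChi D χ := G.toGood2.chiL_isChi _ hLr c (fun i hi => hc i (hLr i hi))
  have hact : ∀ (r : ℕ) (hr : r < D.nroots) (t : F), k₂ * G.xg hr t * k₂⁻¹ = G.xg hr (χ r * t) := by
    intro r hr t
    rw [mul_inv_eq_iff_eq_mul]
    apply Units.ext
    show (k₂ : Matrix D.Idx D.Idx F) * (G.xg hr t : Matrix D.Idx D.Idx F) =
      (G.xg hr (χ r * t) : Matrix D.Idx D.Idx F) * (k₂ : Matrix D.Idx D.Idx F)
    rw [hk₂c, G.toGood2.xg_val, G.toGood2.xg_val]
    exact G.dgM_mul_x hχi hr t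
  obtain ⟨κ₃, hκ₃, e₃⟩ := hzU v₂⁻¹ (Subgroup.inv_mem _ hv₂U)
  have e₃' : v₂⁻¹ * z * v₂ = z * κ₃ := by simpa using e₃
  have hconjz : k₂ * z * k₂⁻¹ = z * κ₃ := by
    rw [← e₃']
    calc k₂ * z * k₂⁻¹ = v₂⁻¹ * ((v₂ * k₂) * z) * k₂⁻¹ := by group
      _ = v₂⁻¹ * (z * (v₂ * k₂)) * k₂⁻¹ := by rw [hcomm₃]
      _ = v₂⁻¹ * z * v₂ := by group
  have hχa : ∀ a, Ld a → χ a = 1 := by
    intro a ha
    have halt : a < D.nroots := hUplt a (hLd a ha)
    obtain ⟨y', hy', hzy⟩ := hz a halt ha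
    obtain ⟨A₂, hA₂, h₂⟩ := hDet2 _ ha
    obtain ⟨i, hi, hodd'⟩ := hodd _ halt
    have hPlt : ∀ r, (Up r ∧ r ≠ a) → r < D.nroots := fun r hr => hUplt r hr.1
    have hy2 : k₂ * y' * k₂⁻¹ ∈ rG D F (fun r => Up r ∧ r ≠ a) := G.toGood2.H_conj_rG hPlt hk₂H hy'
    have e5 : G.xg halt (χ a * 1) * (k₂ * y' * k₂⁻¹) = G.xg halt 1 * y' * κ₃ := by
      calc G.xg halt (χ a * 1) * (k₂ * y' * k₂⁻¹) = k₂ * (G.xg halt 1 * y') * k₂⁻¹ := by
            rw [← hact]; group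
        _ = k₂ * z * k₂⁻¹ := by rw [← hzy]
        _ = z * κ₃ := hconjz
        _ = G.xg halt 1 * y' * κ₃ := by rw [← hzy]
    have h6 : G.xg halt (-1 + χ a * 1) ∈ rG D F (fun r => Up r ∧ r ≠ a) := by
      have h7 : G.xg halt (-1 + χ a * 1) = (y' * κ₃) * (k₂ * y' * k₂⁻¹)⁻¹ := by
        calc G.xg halt (-1 + χ a * 1) = (G.xg halt 1)⁻¹ * G.xg halt (χ a * 1) := by
              rw [G.xg_inv, G.xg_mul]
          _ = (G.xg halt 1)⁻¹ * (G.xg halt (χ a * 1) * (k₂ * y' * k₂⁻¹)) * (k₂ * y' * k₂⁻¹)⁻¹ := by group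
          _ = (G.xg halt 1)⁻¹ * (G.xg halt 1 * y' * κ₃) * (k₂ * y' * k₂⁻¹)⁻¹ := by rw [e5]
          _ = (y' * κ₃) * (k₂ * y' * k₂⁻¹)⁻¹ := by group
      rw [h7]
      exact Subgroup.mul_mem _ (Subgroup.mul_mem _ hy' (hKUp a ha hκ₃)) (Subgroup.inv_mem _ hy2)
    have h8 := G.toGood2.xg_not_mem hPlt halt hA₂ h₂ hi hodd' h6
    linear_combination h8
  have hc1 := hD c hc hχa
  obtain ⟨y, hy, ey⟩ := G.toGood2.hWords_mem' (K := M) c J hc1 hMJ1 hMJ2 _ hLr
  have hk₂M : k₂ ∈ M := by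
    have : y = k₂ := by
      apply Units.ext
      rw [ey, hk₂c, G.toGood2.word_hWords _ hLr c (fun i hi => hc i (hLr i hi))]
    rwa [← this]
  refine Subgroup.mul_mem _ (hBU v₂ hv₂U ?_) hk₂M
  have h9 : k₂ * z = z * k₂ := hMC _ hk₂M
  have h10 : v₂ * z * k₂ = z * v₂ * k₂ := by
    calc v₂ * z * k₂ = v₂ * (z * k₂) := by group
      _ = v₂ * (k₂ * z) := by rw [h9]
      _ = v₂ * k₂ * z := by group
      _ = z * (v₂ * k₂) := hcomm₃.symm
      _ = z * v₂ * k₂ := by group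
  exact mul_right_cancel h10

end Good3

end Cfsg.Agent.Lib.Chev
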