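import Cfsg.Agent.Lib.Chev.Sub.Cen
import Cfsg.Agent.Lib.Chev.TorusCard

/-! Table checks for the generic centralizer theorem. -/

set_option autoImplicit false
set_option linter.unusedSimpArgs false
set_option linter.unusedVariables false
set_option linter.unusedSectionVars false

namespace Cfsg.Agent.Lib.Chev

open Cfsg Cfsg.Lie Matrix
open Good2 (NN Ut)

variable {D : ChevalleyDatum} {F : Type*} [Field F]

/-- membership in a list of naturals -/
def nMem (a : ℕ) (l : List ℕ) : Bool := l.any (Nat.beq a)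

theorem nMem_iff {a : ℕ} {l : List ℕ} : nMem a l = true ↔ a ∈ l := by
  simp only [nMem, List.any_eq_true]
  constructor
  · rintro ⟨x, hx, e⟩
    rwa [Nat.eq_of_beq_eq_true e]
  · intro h
    exact ⟨a, h, Nat.beq_refl a⟩

/-- Boolean form of `ReachOK`. -/
def reachOkB (T : Tbl) (Tl A : List ℕ) : Bool :=
  A.all fun τ => Nat.blt τ T.n && Tl.all fun a => !(Nat.beq τ (T.neg a)) &&
    (T.ce a τ).all fun q => decide (q.2 % 2 = 0) || nMem q.1 A

theorem reachOK_of_chk {Tl A : List ℕ} (h : reachOkB (tblOf D) Tl A = true) : ReachOK D (· ∈ Tl) A := by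
  intro τ hτ
  simp only [reachOkB, List.all_eq_true, Bool.and_eq_true] at h
  obtain ⟨h1, h2⟩ := h τ hτ
  refine ⟨Nat.le_of_ble_eq_true h1, fun a ha => ?_⟩
  obtain ⟨h3, h4⟩ := h2 a ha
  refine ⟨?_, fun q hq hodd => ?_⟩
  · intro h5
    have h6 : Nat.beq τ ((tblOf D).neg a) = true := by
      rw [show (tblOf D).neg a = D.neg a from rfl, ← h5]
      exact Nat.beq_refl τ
    rw [h6] at h3
    simp at h3
  · have h5 := h4 q hq
    have h6 : decide (q.2 % 2 = 0) = false := decide_eq_false hodd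
    rw [h6, Bool.false_or] at h5
    exact nMem_iff.1 h5

theorem ReachOK.mono {T T' : ℕ → Prop} {A : List ℕ} (h : ∀ a, T' a → T a) (hA : ReachOK D T A) : ReachOK D T' A :=
  fun τ hτ => ⟨(hA τ hτ).1, fun a ha => (hA τ hτ).2 a (h a ha)⟩

/-- one closure step -/
def reachStep (T : Tbl) (Tl A : List ℕ) : List ℕ :=
  A.foldl (fun B τ => Tl.foldl (fun B a => (T.ce a τ).foldl
    (fun B q => if decide (q.2 % 2 = 0) || nMem q.1 B then B else q.1 :: B) B) B) A

/-- iterated closure -/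
def reachCl (T : Tbl) (Tl : List ℕ) : ℕ → List ℕ → List ℕ
  | 0, A => A
  | k + 1, A => reachCl T Tl k (reachStep T Tl A)

/-- check of one root -/
def chkDetA (T : Tbl) (Tl A : List ℕ) (s : ℕ) : Bool := nMem s A && reachOkB T Tl A

/-- check of one root -/
def chkDet (T : Tbl) (Tl : List ℕ) (s : ℕ) : Bool := chkDetA T Tl (reachCl T Tl 10 [T.neg s]) (T.neg s)

theorem det_of_chk {Tl : List ℕ} {s : ℕ} (h : chkDet (tblOf D) Tl s = true) :
    ∃ A, ReachOK D (· ∈ Tl) A ∧ D.neg s ∈ A := by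
  simp only [chkDet, chkDetA, Bool.and_eq_true] at h
  exact ⟨_, reachOK_of_chk h.2, nMem_iff.1 h.1⟩

/-- check of the first reach condition -/
def chkDet1 (T : Tbl) (Up : List ℕ) : Bool := allLt T.n fun s => nMem s Up || chkDet T Up s

/-- check of the second reach condition -/
def chkDet2 (T : Tbl) (Up Ls : List ℕ) : Bool := Ls.all fun a => chkDet T (Up.filter fun r => !(Nat.beq r a)) a

theorem det1_of_chk {Up : List ℕ} (h : chkDet1 (tblOf D) Up = true) :
    ∀ s, s < D.nroots → ¬ s ∈ Up → ∃ A, ReachOK D (· ∈ Up) A ∧ D.neg s ∈ A := by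
  intro s hs hU
  have h1 := (allLt_iff _ _).1 h s hs
  have h2 : nMem s Up = false := by
    rw [Bool.eq_false_iff]
    exact fun h3 => hU (nMem_iff.1 h3)
  rw [h2, Bool.false_or] at h1
  exact det_of_chk h1

theorem det2_of_chk {Up Ls : List ℕ} (h : chkDet2 (tblOf D) Up Ls = true) :
    ∀ a, a ∈ Ls → ∃ A, ReachOK D (fun r => r ∈ Up ∧ r ≠ a) A ∧ D.neg a ∈ A := by
  intro a ha
  simp only [chkDet2, List.all_eq_true] at h
  obtain ⟨A, h1, h2⟩ := det_of_chk (h a ha)
  refine ⟨A, h1.mono ?_, h2⟩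
  rintro r ⟨h3, h4⟩
  refine List.mem_filter.2 ⟨h3, ?_⟩
  have : Nat.beq r a = false := by
    rw [Bool.eq_false_iff]
    intro h5
    exact h4 (Nat.eq_of_beq_eq_true h5)
  rw [this]
  rfl

/-- Every root has an odd coroot coefficient. -/
def chkOddCor (T : Tbl) : Bool :=
  allLt T.n fun s => (List.range T.l).any fun i => !(decide (T.cor s i % 2 = 0))

theorem odd_of_chk (h : chkOddCor (tblOf D) = true) : ∀ s, s < D.nroots → ∃ i, i < D.rank ∧ cor D s i % 2 ≠ 0 := by
  intro s hs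
  have h1 := (allLt_iff _ _).1 h s hs
  simp only [List.any_eq_true, List.mem_range] at h1
  obtain ⟨i, hi, h2⟩ := h1
  refine ⟨i, hi, ?_⟩
  intro h3
  have h4 : decide ((tblOf D).cor s i % 2 = 0) = true := decide_eq_true h3
  rw [h4] at h2
  simp at h2

/-- equality of lists of naturals -/
def eqL : List ℕ → List ℕ → Bool
  | [], [] => true
  | a :: l, b :: m => Nat.beq a b && eqL l m
  | _, _ => false

theorem eqL_eq : ∀ {a b : List ℕ}, eqL a b = true → a = b := by
  intro a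
  induction a with
  | nil =>
    intro b h
    cases b with
    | nil => rfl
    | cons _ _ => simp [eqL] at h
  | cons x a ih =>
    intro b h
    cases b with
    | nil => simp [eqL] at h
    | cons y b =>
      simp only [eqL, Bool.and_eq_true] at h
      rw [Nat.eq_of_beq_eq_true h.1, ih h.2]

/-- membership of a list in a list of lists -/
def memL (p : List ℕ) (Ws : List (List ℕ)) : Bool := Ws.any (eqL p)

theorem memL_mem {p : List ℕ} {Ws : List (List ℕ)} (h : memL p Ws = true) : p ∈ Ws := by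
  simp only [memL, List.any_eq_true] at h
  obtain ⟨q, hq, e⟩ := h
  rwa [eqL_eq e]

/-- `Ws` is closed under left multiplication by the generators. -/
def chkWcl (n rk : ℕ) (W : ℕ → ℕ → ℕ) (Ws : List (List ℕ)) : Bool :=
  memL (List.range n) Ws && Ws.all fun p => Nat.beq p.length n && (List.range rk).all fun i => memL (p.map (W i)) Ws

/-- The filter condition on the elements of `Ws`. -/
def chkWf (n rk : ℕ) (W : ℕ → ℕ → ℕ) (Up Ls J : List ℕ) (Js Ws : List (List ℕ)) : Bool :=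
  Ls.all (fun a => Nat.blt a n) && J.all (fun j => Nat.blt j rk) && Js.all (fun w => w.all fun i => nMem i J) &&
    Ws.all fun p =>
      !(Ls.all fun a => nMem (p.getD a 0) Up && (List.range n).all fun b => !(Nat.beq (p.getD b 0) a) || nMem b Up) ||
        Js.any fun w => eqL p ((List.range n).map fun s => w.foldr W s)

/-- A binary search tree of naturals. -/
inductive NTr where
  | lf : NTr
  | nd (l : NTr) (k : ℕ) (r : NTr) : NTr

/-- membership in the tree -/
def NTr.has : NTr → ℕ → Bool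
  | .lf, _ => false
  | .nd l k r, a => bif Nat.beq a k then true else bif Nat.blt a k then l.has a else r.has a

/-- the elements of the tree -/
def NTr.elems : NTr → List ℕ
  | .lf => []
  | .nd l k r => l.elems ++ k :: r.elems

/-- a check on all elements of the tree -/
def NTr.allB : NTr → (ℕ → Bool) → Bool
  | .lf, _ => true
  | .nd l k r, f => l.allB f && f k && r.allB f

theorem NTr.has_mem {t : NTr} {a : ℕ} (h : t.has a = true) : a ∈ t.elems := by
  induction t with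
  | lf => simp [NTr.has] at h
  | nd l k r ihl ihr =>
    simp only [NTr.has] at h
    simp only [NTr.elems, List.mem_append, List.mem_cons]
    cases h1 : Nat.beq a k with
    | true => exact Or.inr (Or.inl (Nat.eq_of_beq_eq_true h1))
    | false =>
      rw [h1] at h
      simp only [cond_false] at h
      cases h2 : Nat.blt a k with
      | true =>
        rw [h2] at h
        exact Or.inl (ihl h)
      | false =>
        rw [h2] at h
        exact Or.inr (Or.inr (ihr h))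

theorem NTr.allB_mem {t : NTr} {f : ℕ → Bool} (h : t.allB f = true) {a : ℕ} (ha : a ∈ t.elems) : f a = true := by
  induction t with
  | lf => simp [NTr.elems] at ha
  | nd l k r ihl ihr =>
    simp only [NTr.allB, Bool.and_eq_true] at h
    simp only [NTr.elems, List.mem_append, List.mem_cons] at ha
    rcases ha with ha | rfl | ha
    · exact ihl h.1.1 ha
    · exact h.1.2
    · exact ihr h.2 ha

/-- unpacking a permutation -/
def unpackR : ℕ → ℕ → List ℕ
  | 0, _ => []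
  | k + 1, c => (c % 64) :: unpackR k (c / 64)

/-- packing a permutation -/
def packW (p : List ℕ) : ℕ := p.foldr (fun x a => x + 64 * a) 0

theorem unpackR_length (k c : ℕ) : (unpackR k c).length = k := by
  induction k generalizing c with
  | zero => rfl
  | succ k ih => simp [unpackR, ih]

theorem unpack_pack (p : List ℕ) (h : ∀ x ∈ p, x < 64) : unpackR p.length (packW p) = p := by
  induction p with
  | nil => rfl
  | cons x p ih =>
    have hx := h x List.mem_cons_self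
    have e1 : packW (x :: p) = x + 64 * packW p := rfl
    rw [List.length_cons, unpackR, e1]
    have e2 : (x + 64 * packW p) % 64 = x := by omega
    have e3 : (x + 64 * packW p) / 64 = packW p := by omega
    rw [e2, e3, ih (fun y hy => h y (List.mem_cons_of_mem _ hy))]

/-- closure check of the packed tree -/
def chkWcT (n rk : ℕ) (W : ℕ → ℕ → ℕ) (t : NTr) : Bool :=
  Nat.ble n 64 && t.has (packW (List.range n)) &&
    t.allB fun c => (List.range rk).all fun i => t.has (packW ((unpackR n c).map (W i)))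

namespace Good3

variable (G : Good3 D)

theorem pp_in_tr {t : NTr} (h : chkWcT D.nroots D.rank G.W t = true) (l : List (Fin D.rank)) :
    ∃ p ∈ t.elems.map (unpackR D.nroots), p.length = D.nroots ∧
      ∀ s : Fin D.nroots, p.getD s.val 0 = (G.toGood2.pp l s).val := by
  simp only [chkWcT, Bool.and_eq_true] at h
  obtain ⟨⟨h0, h1⟩, h2⟩ := h
  have hn : D.nroots ≤ 64 := Nat.le_of_ble_eq_true h0
  induction l with
  | nil =>
    refine ⟨List.range D.nroots, ?_, by simp, fun s => ?_⟩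
    · refine List.mem_map.2 ⟨_, NTr.has_mem h1, ?_⟩
      have := unpack_pack (List.range D.nroots) (fun x hx => by have := List.mem_range.1 hx; omega)
      rwa [List.length_range] at this
    have : (G.toGood2.pp [] s).val = s.val := rfl
    rw [this, List.getD_eq_getElem _ _ (by simp)]
    simp
  | cons i l ih =>
    obtain ⟨p, hp, hl, hs⟩ := ih
    obtain ⟨c, hc, rfl⟩ := List.mem_map.1 hp
    have h3 := NTr.allB_mem h2 hc
    rw [List.all_eq_true] at h3
    have h4 := h3 i (List.mem_range.2 i.isLt)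
    have hlt' : ∀ x ∈ unpackR D.nroots c, x < D.nroots := by
      intro x hx
      obtain ⟨k, hk, rfl⟩ := List.mem_iff_getElem.1 hx
      have hk' : k < D.nroots := by rwa [hl] at hk
      have h5 := hs ⟨k, hk'⟩
      rw [List.getD_eq_getElem _ _ hk] at h5
      rw [h5]
      exact Fin.isLt _
    refine ⟨(unpackR D.nroots c).map (G.W i), ?_, by rw [List.length_map, hl], fun s => ?_⟩
    · refine List.mem_map.2 ⟨_, NTr.has_mem h4, ?_⟩
      have h5 := unpack_pack ((unpackR D.nroots c).map (G.W i)) (by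
        intro x hx
        obtain ⟨y, hy, rfl⟩ := List.mem_map.1 hx
        have := G.W_lt i.isLt (hlt' y hy)
        omega)
      rwa [List.length_map, hl] at h5
    rw [G.toGood2.pp_cons, Equiv.Perm.mul_apply, G.toGood2.Wp_val, ← hs s]
    have hlt : s.val < (unpackR D.nroots c).length := by rw [hl]; exact s.isLt
    rw [List.getD_eq_getElem _ _ (by simpa using hlt), List.getD_eq_getElem _ _ hlt]
    simp

theorem pp_in_Ws {Ws : List (List ℕ)} (h : chkWcl D.nroots D.rank G.W Ws = true) (l : List (Fin D.rank)) :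
    ∃ p ∈ Ws, p.length = D.nroots ∧ ∀ s : Fin D.nroots, p.getD s.val 0 = (G.toGood2.pp l s).val := by
  simp only [chkWcl, Bool.and_eq_true, List.all_eq_true] at h
  obtain ⟨h1, h2⟩ := h
  induction l with
  | nil =>
    refine ⟨_, memL_mem h1, by simp, fun s => ?_⟩
    have : (G.toGood2.pp [] s).val = s.val := rfl
    rw [this, List.getD_eq_getElem _ _ (by simp)]
    simp
  | cons i l ih =>
    obtain ⟨p, hp, hl, hs⟩ := ih
    have h3 := h2 p hp
    have h4 : memL (p.map (G.W i)) Ws = true := h3.2 i (List.mem_range.2 i.isLt)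
    refine ⟨_, memL_mem h4, by rw [List.length_map, hl], fun s => ?_⟩
    rw [G.toGood2.pp_cons, Equiv.Perm.mul_apply, G.toGood2.Wp_val, ← hs s]
    have hlt : s.val < p.length := by rw [hl]; exact s.isLt
    rw [List.getD_eq_getElem _ _ (by simpa using hlt), List.getD_eq_getElem _ _ hlt]
    simp

theorem hW_of_chk {Up Ls J : List ℕ} {Js Ws : List (List ℕ)}
    (h1 : ∀ l : List (Fin D.rank), ∃ p ∈ Ws, p.length = D.nroots ∧ ∀ s : Fin D.nroots, p.getD s.val 0 = (G.toGood2.pp l s).val)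
    (h2 : chkWf D.nroots D.rank G.W Up Ls J Js Ws = true) (l : List (Fin D.rank))
    (hl : ∀ a : Fin D.nroots, a.val ∈ Ls → (G.toGood2.pp l a).val ∈ Up ∧ ((G.toGood2.pp l)⁻¹ a).val ∈ Up) :
    ∃ l' : List (Fin D.rank), (∀ x ∈ l', x.val ∈ J) ∧ G.toGood2.pp l' = G.toGood2.pp l := by
  simp only [chkWf, Bool.and_eq_true, List.all_eq_true] at h2
  obtain ⟨⟨⟨h3, h4⟩, h5⟩, h6⟩ := h2
  obtain ⟨p, hp, hpl, hps⟩ := h1 l
  have h7 := h6 p hp
  have hc : (Ls.all fun a => nMem (p.getD a 0) Up && (List.range D.nroots).all fun b =>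
      !(Nat.beq (p.getD b 0) a) || nMem b Up) = true := by
    simp only [List.all_eq_true, Bool.and_eq_true]
    intro a ha
    have halt : a < D.nroots := Nat.le_of_ble_eq_true (h3 a ha)
    obtain ⟨h8, h9⟩ := hl ⟨a, halt⟩ ha
    refine ⟨?_, fun b hb => ?_⟩
    · rw [hps ⟨a, halt⟩]
      exact nMem_iff.2 h8
    · have hblt : b < D.nroots := List.mem_range.1 hb
      by_cases hb' : p.getD b 0 = a
      · have h10 : G.toGood2.pp l ⟨b, hblt⟩ = ⟨a, halt⟩ := by
          apply Fin.ext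
          rw [← hps ⟨b, hblt⟩]
          exact hb'
        have h11 : (G.toGood2.pp l)⁻¹ ⟨a, halt⟩ = ⟨b, hblt⟩ := by
          rw [← h10]
          simp
        rw [h11] at h9
        rw [nMem_iff.2 h9, Bool.or_true]
      · have : Nat.beq (p.getD b 0) a = false := by
          rw [Bool.eq_false_iff]
          intro h12
          exact hb' (Nat.eq_of_beq_eq_true h12)
        rw [this]
        rfl
  rw [hc] at h7
  simp only [Bool.not_true, Bool.false_or, List.any_eq_true] at h7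
  obtain ⟨w, hw, ew⟩ := h7
  have hw' := h5 w hw
  have hwr : ∀ i ∈ w, i < D.rank := fun i hi => Nat.le_of_ble_eq_true (h4 i (nMem_iff.1 (hw' i hi)))
  refine ⟨w.attach.map fun i => ⟨i.1, hwr i.1 i.2⟩, ?_, ?_⟩
  · intro x hx
    obtain ⟨a, _, rfl⟩ := List.mem_map.1 hx
    exact nMem_iff.1 (hw' a.1 a.2)
  · apply Equiv.ext
    intro s
    apply Fin.ext
    rw [G.pp_foldr_auxC s w hwr, ← hps s, eqL_eq ew, List.getD_eq_getElem _ _ (by simp)]
    simp

end Good3

/-- check of odd commutator terms with `Up`. -/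
def chkOddUp (T : Tbl) (Up Ld : List ℕ) : Bool :=
  allLt T.n fun r => !(Nat.ble (T.n / 2) r) || Up.all fun a => Nat.beq r a ||
    (commT T.ce r a).all fun c => decide (c.2.1 % 2 = 0) || (nMem c.1 Up && !(nMem c.1 Ld))

/-- The quotient-type condition on `z`. -/
def CenQ (D : ChevalleyDatum) (F : Type*) [Field F] (Up Ld : List ℕ) (z : GL D.Idx F) : Prop :=
  ∀ u ∈ D.posUnipotent F, ∃ κ ∈ rG D F (fun r => r ∈ Up ∧ ¬ r ∈ Ld), u * z * u⁻¹ = z * κ

namespace Good2

variable (G : Good2 D)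
include G

/-- Commutator relation, only odd terms matter. -/
theorem xg_comm_odd [CharP F 2] {P : ℕ → Prop} {r s : ℕ} (hr : r < D.nroots) (hs : s < D.nroots) (h1 : s ≠ r) (h2 : s ≠ D.neg r)
    (hP : ∀ c ∈ D.commTerms r s, c.2.1 % 2 ≠ 0 → P c.1) (t u : F) :
    ∃ g ∈ rG D F P, G.xg hs u * G.xg hr t = G.xg hr t * G.xg hs u * g := by
  obtain ⟨g, hg, hv⟩ := G.word_mem_KC (K := rG D F P) (D.commWord F r s t u) (by
    intro a ha
    simp only [ChevalleyDatum.commWord, List.mem_map] at ha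
    obtain ⟨c, hc, rfl⟩ := ha
    refine ⟨G.commTerms_lt hr hs c hc, ?_⟩
    by_cases h0 : c.2.1 % 2 = 0
    · simp only
      rw [cast_even_two h0]
      simp only [zero_mul]
      rw [G.xg_zero]
      exact Subgroup.one_mem _
    · exact G.xg_mem _ (hP c hc h0) _)
  refine ⟨g, hg, Units.ext ?_⟩
  have hP' := G.Phi_all (F := F) hr hs h1 h2 t u
  rw [← hv] at hP'
  exact hP'

/-- Commuting root elements. -/
theorem comm_even [CharP F 2] {r s : ℕ} (hr : r < D.nroots) (hs : s < D.nroots) (h1 : s ≠ r) (h2 : s ≠ D.neg r)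
    (h : ∀ e ∈ D.commTerms r s, e.2.1 % 2 = 0) (c d : F) :
    G.xg hs d * G.xg hr c = G.xg hr c * G.xg hs d :=
  G.comm_of_evenC hr hs h1 h2 (fun e he => cast_even_two (h e he)) c d

/-- A single commutator term. -/
theorem conj_single {r s q : ℕ} {C : ℤ} (hr : r < D.nroots) (hs : s < D.nroots) (hq : q < D.nroots) (h1 : s ≠ r)
    (h2 : s ≠ D.neg r) (hc : D.commTerms r s = [(q, C, 1, 1)]) (hC : ((C : ℤ) : F) = 1) (t u : F) :
    G.xg hr t * G.xg hs u * (G.xg hr t)⁻¹ = G.xg hs u * G.xg hq (t * u) := by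
  have hP := G.Phi_all (F := F) hr hs h1 h2 (-t) u
  have e1 : D.wordMat F (D.commWord F r s (-t) u) = D.x F q (t * u) := by
    simp [ChevalleyDatum.commWord, ChevalleyDatum.wordMat, hc, hC]
  rw [e1] at hP
  rw [G.xg_inv]
  apply Units.ext
  show D.x F r t * D.x F s u * D.x F r (-t) = D.x F s u * D.x F q (t * u)
  rw [mul_assoc, hP, ← mul_assoc, ← mul_assoc, G.R1 hr, add_neg_cancel, G.x_zero hr, one_mul]

variable {Up Ld : List ℕ}

theorem x_conj_K [CharP F 2] (hUp : ∀ a ∈ Up, D.IsPosRoot a) (hchk : chkOddUp (tblOf D) Up Ld = true)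
    {r a : ℕ} (hr : r < D.nroots) (hN : NN D ≤ r) (ha : a ∈ Up) (t s : F) :
    ∃ g ∈ rG D F (fun r => r ∈ Up ∧ ¬ r ∈ Ld), G.xg hr t * G.xg (hUp a ha).1 s * (G.xg hr t)⁻¹ = G.xg (hUp a ha).1 s * g := by
  have hal := (hUp a ha).1
  by_cases hra : r = a
  · subst hra
    refine ⟨1, Subgroup.one_mem _, ?_⟩
    rw [G.xg_inv, G.xg_mul, G.xg_mul, mul_one]
    congr 1
    ring
  · have h1 := (allLt_iff _ _).1 hchk r hr
    have h2 : Nat.ble ((tblOf D).n / 2) r = true := Nat.ble_eq_true_of_le hN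
    rw [h2] at h1
    simp only [Bool.not_true, Bool.false_or, List.all_eq_true] at h1
    have h3 := h1 a ha
    have h4 : Nat.beq r a = false := by
      rw [Bool.eq_false_iff]
      intro h5
      exact hra (Nat.eq_of_beq_eq_true h5)
    rw [h4, Bool.false_or, List.all_eq_true] at h3
    have haneg : a ≠ D.neg r := by
      intro h5
      have h6 := (G.pos_iff hal).1 (hUp a ha)
      have h7 := (G.neg_pos hr).1 hN
      omega
    obtain ⟨g, hg, e⟩ := G.xg_comm_odd (P := fun r => r ∈ Up ∧ ¬ r ∈ Ld) hr hal (Ne.symm hra) haneg (by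
      intro c hc hodd
      have h5 := h3 c (by rw [show commT (tblOf D).ce r a = D.commTerms r a from rfl]; exact hc)
      have h6 : decide (c.2.1 % 2 = 0) = false := decide_eq_false hodd
      rw [h6, Bool.false_or, Bool.and_eq_true] at h5
      refine ⟨nMem_iff.1 h5.1, fun h7 => ?_⟩
      have h8 := h5.2
      rw [nMem_iff.2 h7] at h8
      simp at h8) (-t) s
    refine ⟨g, hg, ?_⟩
    rw [G.xg_inv, mul_assoc, e, ← mul_assoc, ← mul_assoc, G.xg_mul, add_neg_cancel, G.xg_zero, one_mul]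

theorem K_norm [CharP F 2] (hUp : ∀ a ∈ Up, D.IsPosRoot a) (hchk : chkOddUp (tblOf D) Up Ld = true)
    {u κ : GL D.Idx F} (hu : u ∈ D.posUnipotent F) (hκ : κ ∈ rG D F (fun r => r ∈ Up ∧ ¬ r ∈ Ld)) :
    u * κ * u⁻¹ ∈ rG D F (fun r => r ∈ Up ∧ ¬ r ∈ Ld) := by
  revert κ
  refine G.rG_induction (P := D.IsPosRoot) (fun r hr => hr.1)
    (Q := fun u => ∀ {κ : GL D.Idx F}, κ ∈ rG D F (fun r => r ∈ Up ∧ ¬ r ∈ Ld) →
      u * κ * u⁻¹ ∈ rG D F (fun r => r ∈ Up ∧ ¬ r ∈ Ld)) ?_ ?_ ?_ u hu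
  · intro κ hκ
    simpa using hκ
  · intro a b ha hb κ hκ
    have : a * b * κ * (a * b)⁻¹ = a * (b * κ * b⁻¹) * a⁻¹ := by group
    rw [this]
    exact ha (hb hκ)
  · intro r hr t h κ hκ
    refine G.rG_induction (P := fun r => r ∈ Up ∧ ¬ r ∈ Ld) (fun r hr => (hUp r hr.1).1)
      (Q := fun κ => G.xg hr t * κ * (G.xg hr t)⁻¹ ∈ rG D F (fun r => r ∈ Up ∧ ¬ r ∈ Ld)) ?_ ?_ ?_ κ hκ
    · simp [Subgroup.one_mem]
    · intro a b ha hb
      have : G.xg hr t * (a * b) * (G.xg hr t)⁻¹ = (G.xg hr t * a * (G.xg hr t)⁻¹) * (G.xg hr t * b * (G.xg hr t)⁻¹) := by group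
      rw [this]
      exact Subgroup.mul_mem _ ha hb
    · intro a ha s h2
      obtain ⟨g, hg, e⟩ := G.x_conj_K hUp hchk hr ((G.pos_iff hr).1 h) h2.1 t s
      rw [e]
      exact Subgroup.mul_mem _ (G.xg_mem _ h2 s) hg

theorem cenQ_x [CharP F 2] (hUp : ∀ a ∈ Up, D.IsPosRoot a) (hchk : chkOddUp (tblOf D) Up Ld = true)
    {a : ℕ} (ha : a ∈ Up) (s : F) : CenQ D F Up Ld (G.xg (hUp a ha).1 s) := by
  intro u hu
  suffices h : u ∈ D.posUnipotent F ∧ ∃ κ ∈ rG D F (fun r => r ∈ Up ∧ ¬ r ∈ Ld),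
      u * G.xg (hUp a ha).1 s * u⁻¹ = G.xg (hUp a ha).1 s * κ from h.2
  refine G.rG_induction (P := D.IsPosRoot) (fun r hr => hr.1)
    (Q := fun u => u ∈ D.posUnipotent F ∧ ∃ κ ∈ rG D F (fun r => r ∈ Up ∧ ¬ r ∈ Ld),
      u * G.xg (hUp a ha).1 s * u⁻¹ = G.xg (hUp a ha).1 s * κ)
    ?_ ?_ ?_ u hu
  · exact ⟨Subgroup.one_mem _, 1, Subgroup.one_mem _, by simp⟩
  · rintro u₁ u₂ ⟨hu₁, κ₁, h₁, e₁⟩ ⟨hu₂, κ₂, h₂, e₂⟩
    refine ⟨Subgroup.mul_mem _ hu₁ hu₂, κ₁ * (u₁ * κ₂ * u₁⁻¹), Subgroup.mul_mem _ h₁ (G.K_norm hUp hchk hu₁ h₂), ?_⟩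
    have : u₁ * u₂ * G.xg (hUp a ha).1 s * (u₁ * u₂)⁻¹ = u₁ * (u₂ * G.xg (hUp a ha).1 s * u₂⁻¹) * u₁⁻¹ := by group
    rw [this, e₂]
    have h3 : u₁ * (G.xg (hUp a ha).1 s * κ₂) * u₁⁻¹ = (u₁ * G.xg (hUp a ha).1 s * u₁⁻¹) * (u₁ * κ₂ * u₁⁻¹) := by group
    rw [h3, e₁]
    group
  · intro r hr t h
    refine ⟨G.xg_mem hr h t, ?_⟩
    obtain ⟨g, hg, e⟩ := G.x_conj_K hUp hchk hr ((G.pos_iff hr).1 h) ha t s
    exact ⟨g, hg, e⟩

theorem cenQ_mul [CharP F 2] (hUp : ∀ a ∈ Up, D.IsPosRoot a) (hchk : chkOddUp (tblOf D) Up Ld = true)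
    {z₁ z₂ : GL D.Idx F} (h₁ : CenQ D F Up Ld z₁) (h₂ : CenQ D F Up Ld z₂) (hz₂ : z₂ ∈ D.posUnipotent F) :
    CenQ D F Up Ld (z₁ * z₂) := by
  intro u hu
  obtain ⟨κ₁, h₃, e₁⟩ := h₁ u hu
  obtain ⟨κ₂, h₄, e₂⟩ := h₂ u hu
  refine ⟨(z₂⁻¹ * κ₁ * z₂⁻¹⁻¹) * κ₂, Subgroup.mul_mem _ (G.K_norm hUp hchk (Subgroup.inv_mem _ hz₂) h₃) h₄, ?_⟩
  have : u * (z₁ * z₂) * u⁻¹ = (u * z₁ * u⁻¹) * (u * z₂ * u⁻¹) := by group
  rw [this, e₁, e₂]
  group

theorem chiL_singleC (c : ℕ → F) {r i₀ : ℕ} (hi₀ : i₀ < D.rank)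
    (hcar : ∀ i, i < D.rank → D.cartan i r = if i = i₀ then 1 else 0) :
    chiL D (List.range D.rank) c r = c i₀ := by
  unfold chiL
  rw [list_range_prod, Finset.prod_eq_single (⟨i₀, hi₀⟩ : Fin D.rank)]
  · simp [hcar i₀ hi₀]
  · intro b _ hb
    have h1 : b.val ≠ i₀ := fun h => hb (Fin.ext h)
    simp [hcar b.val b.isLt, h1]
  · simp

end Good2

/-- Commutation check. -/
def chkCommC (T : Tbl) (Rs Ss : List ℕ) : Bool :=
  Rs.all fun r => Ss.all fun s => Nat.beq r s || (!(Nat.beq s (T.neg r)) &&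
    (commT T.ce r s).all fun c => decide (c.2.1 % 2 = 0))

namespace Good2

variable (G : Good2 D)
include G

theorem comm_of_chk [CharP F 2] {Rs Ss : List ℕ} (h : chkCommC (tblOf D) Rs Ss = true) {r s : ℕ} (hrm : r ∈ Rs)
    (hsm : s ∈ Ss) (hr : r < D.nroots) (hs : s < D.nroots) (c d : F) :
    G.xg hs d * G.xg hr c = G.xg hr c * G.xg hs d := by
  simp only [chkCommC, List.all_eq_true, Bool.or_eq_true, Bool.and_eq_true] at h
  by_cases hsr : s = r
  · subst hsr
    rw [G.xg_mul, G.xg_mul, add_comm]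
  rcases h r hrm s hsm with h1 | ⟨h1, h2⟩
  · exact absurd (Nat.eq_of_beq_eq_true h1).symm hsr
  · refine G.comm_even hr hs hsr ?_ (fun e he => ?_) c d
    · intro h3
      have h4 : Nat.beq s ((tblOf D).neg r) = true := by
        rw [show (tblOf D).neg r = D.neg r from rfl, ← h3]
        exact Nat.beq_refl s
      rw [h4] at h1
      simp at h1
    · have h4 := h2 e he
      exact of_decide_eq_true h4

omit G in
theorem X_le_of {r : ℕ} (G : Good2 D) (hr : r < D.nroots) {C : Subgroup (GL D.Idx F)} (h : ∀ t : F, G.xg hr t ∈ C) :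
    D.rootSubgroup F r ≤ C := by
  rw [ChevalleyDatum.rootSubgroup, Subgroup.closure_le]
  rintro g ⟨t, ht⟩
  have : g = G.xg hr t := Units.ext ht
  rw [this]
  exact h t

theorem U_le_of {C : Subgroup (GL D.Idx F)} (h : ∀ (r : ℕ) (hr : r < D.nroots) (t : F), NN D ≤ r → G.xg hr t ∈ C) :
    D.posUnipotent F ≤ C :=
  G.rG_le (fun r hr => hr.1) (fun r hr t hp => h r hr t ((G.pos_iff hr).1 hp))

theorem xg_mem_X {r : ℕ} (hr : r < D.nroots) (t : F) : G.xg hr t ∈ D.rootSubgroup F r :=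
  Subgroup.subset_closure ⟨t, rfl⟩

theorem xg_mem_X' {r r' : ℕ} (hr : r < D.nroots) (e : r = r') (t : F) : G.xg hr t ∈ D.rootSubgroup F r' := by
  subst e
  exact G.xg_mem_X hr t

theorem mem_cen_of_chk [CharP F 2] {Rs : List ℕ} {s : ℕ} (hc : chkCommC (tblOf D) Rs [s] = true) (hs : s < D.nroots)
    {r : ℕ} (hr : r < D.nroots) (hrm : r ∈ Rs) (c d : F) :
    G.xg hr c ∈ Subgroup.centralizer {G.xg hs d} := by
  rw [Subgroup.mem_centralizer_iff]
  rintro _ rfl
  exact G.comm_of_chk hc hrm (by simp) hr hs c d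

omit G in
theorem mem_cen_two {Γ : Type*} [Group Γ] {a b g : Γ} (h₁ : g ∈ Subgroup.centralizer {a}) (h₂ : g ∈ Subgroup.centralizer {b}) :
    g ∈ Subgroup.centralizer {a * b} := by
  rw [Subgroup.mem_centralizer_iff] at *
  rintro _ rfl
  have e1 := h₁ a rfl
  have e2 := h₂ b rfl
  rw [mul_assoc, e2, ← mul_assoc, e1, mul_assoc]

omit G in
theorem cj_mul {Γ : Type*} [Group Γ] (a b c : Γ) : a * (b * c) * a⁻¹ = (a * b * a⁻¹) * (a * c * a⁻¹) := by group

omit G in
theorem cj_comm {Γ : Type*} [Group Γ] {a b : Γ} (h : b * a = a * b) : a * b * a⁻¹ = b := by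
  rw [mul_inv_eq_iff_eq_mul, h]

theorem pos_of_chk {Up : List ℕ} (h : (Up.all fun a => Nat.ble (D.nroots / 2) a && Nat.blt a D.nroots) = true) :
    ∀ a ∈ Up, D.IsPosRoot a := by
  intro a ha
  simp only [List.all_eq_true, Bool.and_eq_true] at h
  obtain ⟨h1, h2⟩ := h a ha
  have h3 : a < D.nroots := Nat.le_of_ble_eq_true h2
  rw [G.pos_iff h3]
  exact Nat.le_of_ble_eq_true h1

theorem xg_head_zero {m : ℕ} (hm : m < D.nroots) (hN : NN D ≤ m) {t : F} {y y' : GL D.Idx F} (hy : y ∈ Ut D F (m + 1))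
    (hy' : y' ∈ Ut D F (m + 1)) (e : G.xg hm t * y = y') : t = 0 := by
  apply G.xg_mem_Ut_eq hm hN
  have : G.xg hm t = y' * y⁻¹ := by rw [← e]; group
  rw [this]
  exact Subgroup.mul_mem _ hy' (Subgroup.inv_mem _ hy)

end Good2

namespace Good3

variable (G : Good3 D)

/-- The generic theorem from table checks. -/
theorem cen_final [CharP F 2] {Up Ls JL : List ℕ} {Js Ws : List (List ℕ)} (z : GL D.Idx F)
    (hUp : ∀ a ∈ Up, D.IsPosRoot a) (hLs : ∀ a ∈ Ls, a ∈ Up)
    (hzUp : z ∈ rG D F (· ∈ Up))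
    (hz : ∀ a (ha : a < D.nroots), a ∈ Ls → ∃ y' ∈ rG D F (fun r => r ∈ Up ∧ r ≠ a), z = G.xg ha 1 * y')
    (hQ : CenQ D F Up Ls z) (c1 : chkDet1 (tblOf D) Up = true) (c2 : chkDet2 (tblOf D) Up Ls = true)
    (c3 : chkOddCor (tblOf D) = true)
    (c4 : ∀ l : List (Fin D.rank), ∃ p ∈ Ws, p.length = D.nroots ∧ ∀ s : Fin D.nroots, p.getD s.val 0 = (G.toGood2.pp l s).val)
    (c5 : chkWf D.nroots D.rank G.W Up Ls JL Js Ws = true)
    (M : Subgroup (GL D.Idx F)) (hMC : M ≤ Subgroup.centralizer {z}) (hMG : M ≤ D.group F)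
    (hMJ1 : ∀ (j : ℕ) (hj : j < D.rank), j ∈ JL → ∀ t : F, G.xg (G.simple_lt hj) t ∈ M)
    (hMJ2 : ∀ (j : ℕ) (hj : j < D.rank), j ∈ JL → ∀ t : F, G.xg (G.neg_lt (G.simple_lt hj)) t ∈ M)
    (hJL : ∀ (r : ℕ) (hr : r < D.nroots) (t : F), D.IsPosRoot r → D.InRootSub {j | j ∈ JL} r → G.xg hr t ∈ M)
    (hBU : ∀ u ∈ D.posUnipotent F, u * z = z * u → u ∈ M)
    (hD : ∀ c : ℕ → F, (∀ i, i < D.rank → c i ≠ 0) → (∀ a, a ∈ Ls → chiL D (List.range D.rank) c a = 1) →
      ∀ i, i < D.rank → i ∉ JL → c i = 1) :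
    D.group F ⊓ Subgroup.centralizer {z} = M := by
  apply le_antisymm
  · exact G.cen_main (· ∈ Up) (· ∈ Ls) hUp hLs z hzUp hz hQ (det1_of_chk c1) (det2_of_chk c2) (odd_of_chk c3)
      {j | j ∈ JL} (fun l hl => G.hW_of_chk c4 c5 l hl) M
      (fun m hm => (Subgroup.mem_centralizer_iff.1 (hMC hm) z rfl).symm) hMJ1 hMJ2 hJL hBU hD
  · exact le_inf hMG hMC

end Good3

end Cfsg.Agent.Lib.Chev
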