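import Cfsg.Agent.Lib.Chev.Sub.CenF4W

/-! Centralizers of involutions in `F₄(q)`, `q` even. -/

set_option autoImplicit false
set_option maxRecDepth 1000000
set_option linter.unusedSimpArgs false
set_option linter.unusedVariables false
set_option linter.unusedSectionVars false

namespace Cfsg.Agent.Lib.Chev.TabF4

open Cfsg Cfsg.Lie Matrix
open Good2 (NN Ut)

theorem cen_odd : chkOddCor fd.tbl = true := by decide +kernel

theorem cenA_1 : chkDet1 fd.tbl [44, 47] = true := by decide +kernel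
theorem cenA_2 : chkDet2 fd.tbl [44, 47] [44, 47] = true := by decide +kernel
theorem cenA_3 : chkWf chevF4.nroots chevF4.rank W [44, 47] [44, 47] [1, 2] [[], [1], [2], [2, 1], [1, 2], [1, 2, 1], [2, 1, 2], [2, 1, 2, 1]]
    (cenWs.elems.map (unpackR chevF4.nroots)) = true := by decide +kernel
theorem cenA_4 : chkOddUp fd.tbl [44, 47] [44, 47] = true := by decide +kernel
theorem cenA_5 : chkCommC fd.tbl (List.range' 24 24 ++ [20, 22]) [44] = true := by decide +kernel
theorem cenA_6 : chkCommC fd.tbl (List.range' 24 24 ++ [20, 22]) [47] = true := by decide +kernel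

/-- The roots of the subgroup `Up` for the second class. -/
def upV : List ℕ := [39, 40, 44, 45, 46, 47]
/-- The positive roots centralizing the second involution. -/
def genV : List ℕ := [33, 14, 24, 23] ++ ((List.range' 24 24).filter fun r => !(nMem r [27, 25, 34, 26]))

theorem cenB_1 : chkDet1 fd.tbl upV = true := by decide +kernel
theorem cenB_2 : chkDet2 fd.tbl upV [39, 45] = true := by decide +kernel
theorem cenB_3 : chkWf chevF4.nroots chevF4.rank W upV [39, 45] [0, 3] [[], [0], [3], [3, 0]]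
    (cenWs.elems.map (unpackR chevF4.nroots)) = true := by decide +kernel
theorem cenB_4 : chkOddUp fd.tbl upV [39, 45] = true := by decide +kernel
theorem cenB_5 : chkCommC fd.tbl genV [39] = true := by decide +kernel
theorem cenB_6 : chkCommC fd.tbl genV [45] = true := by decide +kernel
theorem cenB_7 : chkCommC fd.tbl ([34, 27] ++ List.range' 28 6) [44, 45] = true := by decide +kernel
theorem cenB_8 : chkCommC fd.tbl [26, 25, 24] [39, 40, 44] = true := by decide +kernel
theorem cenB_9 : chkCommC fd.tbl [25, 24] [47] = true := by decide +kernel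
theorem cenB_10 : chkCommC fd.tbl [24] [39, 40, 44, 45, 47] = true := by decide +kernel
theorem cen_rk : List.range chevF4.rank = [0, 1, 2, 3] := by decide

variable {F : Type*} [Field F] [CharP F 2]

theorem h24 : 24 < chevF4.nroots := by decide
theorem h25 : 25 < chevF4.nroots := by decide
theorem h26 : 26 < chevF4.nroots := by decide
theorem h27 : 27 < chevF4.nroots := by decide
theorem h34 : 34 < chevF4.nroots := by decide
theorem h39 : 39 < chevF4.nroots := by decide
theorem h40 : 40 < chevF4.nroots := by decide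
theorem h44 : 44 < chevF4.nroots := by decide
theorem h45 : 45 < chevF4.nroots := by decide
theorem h46 : 46 < chevF4.nroots := by decide
theorem h47 : 47 < chevF4.nroots := by decide

/-- The centralizer of the first involution. -/
theorem cen_w (z : GL chevF4.Idx F) (hz : (z : Matrix chevF4.Idx chevF4.Idx F) = chevF4.x F 47 1 * chevF4.x F 44 1) :
    chevF4.group F ⊓ Subgroup.centralizer {z} =
      chevF4.posUnipotent F ⊔ chevF4.rootSubgroup F 20 ⊔ chevF4.rootSubgroup F 22 := by
  have hze : z = good2.xg h47 1 * good2.xg h44 1 := Units.ext hz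
  have hUp : ∀ a ∈ [44, 47], chevF4.IsPosRoot a := good2.pos_of_chk (by decide +kernel)
  have hcomm : good2.xg h47 (1 : F) * good2.xg h44 1 = good2.xg h44 1 * good2.xg h47 1 := by
    have := good2.comm_of_chk (tbl_eq ▸ cenA_6) (r := 44) (s := 47) (by simp) (by simp) h44 h47 (1 : F) (1 : F)
    exact this
  have mU : chevF4.posUnipotent F ≤ chevF4.posUnipotent F ⊔ chevF4.rootSubgroup F 20 ⊔ chevF4.rootSubgroup F 22 :=
    le_sup_left.trans le_sup_left
  have m20 : chevF4.rootSubgroup F 20 ≤ chevF4.posUnipotent F ⊔ chevF4.rootSubgroup F 20 ⊔ chevF4.rootSubgroup F 22 :=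
    le_sup_right.trans le_sup_left
  have m22 : chevF4.rootSubgroup F 22 ≤ chevF4.posUnipotent F ⊔ chevF4.rootSubgroup F 20 ⊔ chevF4.rootSubgroup F 22 :=
    le_sup_right
  refine good3.cen_final (Up := [44, 47]) (Ls := [44, 47]) (JL := [1, 2])
    (Js := [[], [1], [2], [2, 1], [1, 2], [1, 2, 1], [2, 1, 2], [2, 1, 2, 1]]) (Ws := cenWs.elems.map (unpackR chevF4.nroots)) z hUp (by simp)
    ?_ ?_ ?_ (tbl_eq ▸ cenA_1) (tbl_eq ▸ cenA_2) (tbl_eq ▸ cen_odd) (good3.pp_in_tr cen_cl) cenA_3 _ ?_ ?_ ?_ ?_ ?_ ?_ ?_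
  · rw [hze]
    exact Subgroup.mul_mem _ (good2.xg_mem h47 (by simp) 1) (good2.xg_mem h44 (by simp) 1)
  · intro a ha hm
    simp only [List.mem_cons, List.not_mem_nil, or_false] at hm
    rcases hm with rfl | rfl
    · exact ⟨good2.xg h47 1, good2.xg_mem h47 ⟨by simp, by decide⟩ 1, by rw [hze, hcomm]; rfl⟩
    · exact ⟨good2.xg h44 1, good2.xg_mem h44 ⟨by simp, by decide⟩ 1, by rw [hze]; rfl⟩
  · rw [hze]
    have hchk : chkOddUp (tblOf chevF4) [44, 47] [44, 47] = true := tbl_eq ▸ cenA_4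
    exact good2.cenQ_mul hUp hchk (good2.cenQ_x hUp hchk (a := 47) (by simp) 1)
      (good2.cenQ_x hUp hchk (a := 44) (by simp) 1) (good2.xg_mem h44 (hUp 44 (by simp)) 1)
  · rw [hze]
    have key : ∀ r ∈ List.range' 24 24 ++ [20, 22], ∀ (hr : r < chevF4.nroots) (c : F),
        good2.xg hr c ∈ Subgroup.centralizer {good2.xg h47 (1 : F) * good2.xg h44 (1 : F)} :=
      fun r hm hr c => Good2.mem_cen_two (good2.mem_cen_of_chk (tbl_eq ▸ cenA_6) h47 hr hm c 1)
        (good2.mem_cen_of_chk (tbl_eq ▸ cenA_5) h44 hr hm c 1)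
    refine sup_le (sup_le ?_ ?_) ?_
    · apply good2.U_le_of
      intro r hr t hN
      have hr' : r < 48 := hr
      have hN' : 24 ≤ r := hN
      exact key r (List.mem_append_left _ (List.mem_range'_1.2 ⟨hN', by omega⟩)) hr t
    · exact Good2.X_le_of good2 (by decide) (key 20 (by simp) (by decide))
    · exact Good2.X_le_of good2 (by decide) (key 22 (by simp) (by decide))
  · exact sup_le (sup_le (good2.U_le_B.trans good2.B_le_group) (Good2.X_le_of good2 (by decide) (fun t => good2.xg_mem_grp _ t)))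
      (Good2.X_le_of good2 (by decide) (fun t => good2.xg_mem_grp _ t))
  · intro j hj hJ t
    exact mU (good2.xg_mem _ ((good2.pos_iff (good2.simple_lt hj)).2 (good2.simple_pos hj)) t)
  · intro j hj hJ t
    simp only [List.mem_cons, List.not_mem_nil, or_false] at hJ
    rcases hJ with rfl | rfl
    · exact m20 (good2.xg_mem_X' _ (by decide) t)
    · exact m22 (good2.xg_mem_X' _ (by decide) t)
  · intro r hr t hp _
    exact mU (good2.xg_mem hr hp t)
  · intro u hu _
    exact mU hu
  · intro c hc h i hi hJ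
    have hi' : i < 4 := hi
    have h0 : c 0 = 1 := by
      have h1 := h 44 (by simp)
      rwa [good2.chiL_singleC c (r := 44) (i₀ := 0) (by decide) (by
        intro i hi
        have hi' : i < 4 := hi
        interval_cases i <;> decide)] at h1
    have h3 : c 3 = 1 := by
      have h1 := h 47 (by simp)
      rwa [good2.chiL_singleC c (r := 47) (i₀ := 3) (by decide) (by
        intro i hi
        have hi' : i < 4 := hi
        interval_cases i <;> decide)] at h1
    simp only [List.mem_cons, List.not_mem_nil, or_false, not_or] at hJ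
    have : i = 0 ∨ i = 3 := by omega
    rcases this with rfl | rfl <;> assumption

/-- The subgroup of the second centralizer generated by positive roots. -/
abbrev genS (F : Type*) [Field F] : Subgroup (GL chevF4.Idx F) :=
  Subgroup.closure {g : GL chevF4.Idx F | ∃ (r : ℕ) (c : F), chevF4.IsPosRoot r ∧ r ∉ [27, 25, 34, 26] ∧
    (g : Matrix chevF4.Idx chevF4.Idx F) = chevF4.x F r c}

theorem genS_mem {r : ℕ} (hr : r < chevF4.nroots) (hp : 24 ≤ r) (hn : r ∉ [27, 25, 34, 26]) (c : F) :
    good2.xg hr c ∈ genS F :=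
  Subgroup.subset_closure ⟨r, c, (good2.pos_iff hr).2 hp, hn, rfl⟩

theorem genV_of {r : ℕ} (hr : r < chevF4.nroots) (hp : 24 ≤ r) (hn : r ∉ [27, 25, 34, 26]) : r ∈ genV := by
  have hr' : r < 48 := hr
  simp only [genV, List.mem_append, List.mem_filter]
  refine Or.inr ⟨List.mem_range'_1.2 ⟨hp, by omega⟩, ?_⟩
  have : nMem r [27, 25, 34, 26] = false := by
    rw [Bool.eq_false_iff]
    exact fun h => hn (nMem_iff.1 h)
  rw [this]
  rfl

/-- The unipotent part of the second centralizer. -/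
theorem cen_v_U {u z : GL chevF4.Idx F} (hze : z = good2.xg h39 1 * good2.xg h45 1) (hu : u ∈ chevF4.posUnipotent F)
    (hcomm : u * z = z * u) : u ∈ genS F := by
  have hze' := hze
  obtain ⟨τ, ⟨_, hτ⟩, _⟩ := good2.U_normal_form u hu
  have hpos : chevF4.posRoots = [24, 25, 26, 27] ++ List.range' 28 6 ++ [34] ++ List.range' 35 13 := by decide +kernel
  rw [hpos, List.map_append, List.map_append, List.map_append, wordMat_append, wordMat_append, wordMat_append] at hτ
  set d : F := τ 34 * 1 with hd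
  -- the pieces
  have hc1 : ∀ r, r ∈ List.range' 28 6 → r < chevF4.nroots ∧ 24 ≤ r ∧ r ∉ [27, 25, 34, 26] := by
    intro r hr
    have := List.mem_range'_1.1 hr
    refine ⟨show r < 48 by omega, by omega, ?_⟩
    simp only [List.mem_cons, List.not_mem_nil, or_false]
    omega
  have hc2 : ∀ r, r ∈ List.range' 35 13 → r < chevF4.nroots ∧ 24 ≤ r ∧ r ∉ [27, 25, 34, 26] := by
    intro r hr
    have := List.mem_range'_1.1 hr
    refine ⟨show r < 48 by omega, by omega, ?_⟩
    simp only [List.mem_cons, List.not_mem_nil, or_false]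
    omega
  obtain ⟨s₁, hs₁, es₁⟩ := good2.word_mem_KC (K := genS F ⊓ (Subgroup.centralizer {good2.xg h39 (1 : F)} ⊓
      (Subgroup.centralizer {good2.xg h45 (1 : F)} ⊓ Subgroup.centralizer {good2.xg h44 d})))
    ((List.range' 28 6).map fun r => (r, τ r)) (by
      intro a ha
      obtain ⟨r, hr, rfl⟩ := List.mem_map.1 ha
      obtain ⟨h1, h2, h3⟩ := hc1 r hr
      have hg := genV_of h1 h2 h3
      have hm : r ∈ [34, 27] ++ List.range' 28 6 := List.mem_append_right _ hr
      exact ⟨h1, genS_mem h1 h2 h3 _, good2.mem_cen_of_chk (tbl_eq ▸ cenB_5) h39 h1 hg _ 1,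
        good2.mem_cen_of_chk (tbl_eq ▸ cenB_6) h45 h1 hg _ 1,
        Subgroup.mem_centralizer_iff.2 (by
          rintro _ rfl
          exact good2.comm_of_chk (tbl_eq ▸ cenB_7) hm (s := 44) (by simp) h1 h44 _ _)⟩)
  obtain ⟨s₂, hs₂, es₂⟩ := good2.word_mem_KC (K := genS F ⊓ (Subgroup.centralizer {good2.xg h39 (1 : F)} ⊓
      Subgroup.centralizer {good2.xg h45 (1 : F)}))
    ((List.range' 35 13).map fun r => (r, τ r)) (by
      intro a ha
      obtain ⟨r, hr, rfl⟩ := List.mem_map.1 ha
      obtain ⟨h1, h2, h3⟩ := hc2 r hr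
      have hg := genV_of h1 h2 h3
      exact ⟨h1, genS_mem h1 h2 h3 _, good2.mem_cen_of_chk (tbl_eq ▸ cenB_5) h39 h1 hg _ 1,
        good2.mem_cen_of_chk (tbl_eq ▸ cenB_6) h45 h1 hg _ 1⟩)
  set X39 := good2.xg h39 (1 : F) with hX39
  set X45 := good2.xg h45 (1 : F) with hX45
  set y24 := good2.xg h24 (τ 24) with hy24
  set y25 := good2.xg h25 (τ 25) with hy25
  set y26 := good2.xg h26 (τ 26) with hy26
  set y27 := good2.xg h27 (τ 27) with hy27
  set y34 := good2.xg h34 (τ 34) with hy34
  have hu' : u = y24 * (y25 * (y26 * (y27 * (s₁ * (y34 * s₂))))) := by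
    apply Units.ext
    rw [hτ, ← es₁, ← es₂]
    simp [ChevalleyDatum.wordMat, hy24, hy25, hy26, hy27, hy34, mul_assoc]
  set c : F := τ 27 * 1 with hc
  set b : F := τ 26 * 1 with hb
  set a : F := τ 25 * 1 with ha
  set e : F := τ 24 * a with he
  have c' : ∀ {x g : GL chevF4.Idx F}, g ∈ Subgroup.centralizer {x} → g * x * g⁻¹ = x := fun h =>
    Good2.cj_comm (Subgroup.mem_centralizer_iff.1 h _ rfl)
  -- `s₂`
  have stepS2 : s₂ * (X39 * X45) * s₂⁻¹ = X39 * X45 := by
    simp only [Good2.cj_mul, c' hs₂.2.1, c' hs₂.2.2]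
  -- `y34`
  have e34a : y34 * X39 * y34⁻¹ = X39 * good2.xg h44 d :=
    good2.conj_single h34 h39 h44 (by decide) (by decide) (C := 1) (by decide +kernel) (by simp) (τ 34) 1
  have e34b : y34 * X45 * y34⁻¹ = X45 :=
    Good2.cj_comm (good2.comm_of_chk (tbl_eq ▸ cenB_7) (r := 34) (s := 45) (by simp) (by simp) h34 h45 _ _)
  have step34 : y34 * (X39 * X45) * y34⁻¹ = (X39 * good2.xg h44 d) * X45 := by
    simp only [Good2.cj_mul, e34a, e34b]
  have stepS1 : s₁ * ((X39 * good2.xg h44 d) * X45) * s₁⁻¹ = (X39 * good2.xg h44 d) * X45 := by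
    simp only [Good2.cj_mul, c' hs₁.2.1, c' hs₁.2.2.1, c' hs₁.2.2.2]
  -- `y27`
  have e27a : y27 * X39 * y27⁻¹ = X39 * good2.xg h40 c :=
    good2.conj_single h27 h39 h40 (by decide) (by decide) (C := 1) (by decide +kernel) (by simp) (τ 27) 1
  have e27b : y27 * X45 * y27⁻¹ = X45 :=
    Good2.cj_comm (good2.comm_of_chk (tbl_eq ▸ cenB_7) (r := 27) (s := 45) (by simp) (by simp) h27 h45 _ _)
  have e27c : y27 * good2.xg h44 d * y27⁻¹ = good2.xg h44 d :=
    Good2.cj_comm (good2.comm_of_chk (tbl_eq ▸ cenB_7) (r := 27) (s := 44) (by simp) (by simp) h27 h44 _ _)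
  have step27 : y27 * ((X39 * good2.xg h44 d) * X45) * y27⁻¹ = ((X39 * good2.xg h40 c) * good2.xg h44 d) * X45 := by
    simp only [Good2.cj_mul, e27a, e27b, e27c]
  -- `y26`
  have e26a : y26 * X39 * y26⁻¹ = X39 :=
    Good2.cj_comm (good2.comm_of_chk (tbl_eq ▸ cenB_8) (r := 26) (s := 39) (by simp) (by simp) h26 h39 _ _)
  have e26b : y26 * good2.xg h40 c * y26⁻¹ = good2.xg h40 c :=
    Good2.cj_comm (good2.comm_of_chk (tbl_eq ▸ cenB_8) (r := 26) (s := 40) (by simp) (by simp) h26 h40 _ _)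
  have e26c : y26 * good2.xg h44 d * y26⁻¹ = good2.xg h44 d :=
    Good2.cj_comm (good2.comm_of_chk (tbl_eq ▸ cenB_8) (r := 26) (s := 44) (by simp) (by simp) h26 h44 _ _)
  have e26d : y26 * X45 * y26⁻¹ = X45 * good2.xg h47 b :=
    good2.conj_single h26 h45 h47 (by decide) (by decide) (C := 1) (by decide +kernel) (by simp) (τ 26) 1
  have step26 : y26 * (((X39 * good2.xg h40 c) * good2.xg h44 d) * X45) * y26⁻¹ =
      ((X39 * good2.xg h40 c) * good2.xg h44 d) * (X45 * good2.xg h47 b) := by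
    simp only [Good2.cj_mul, e26a, e26b, e26c, e26d]
  -- `y25`
  have e25a : y25 * X39 * y25⁻¹ = X39 :=
    Good2.cj_comm (good2.comm_of_chk (tbl_eq ▸ cenB_8) (r := 25) (s := 39) (by simp) (by simp) h25 h39 _ _)
  have e25b : y25 * good2.xg h40 c * y25⁻¹ = good2.xg h40 c :=
    Good2.cj_comm (good2.comm_of_chk (tbl_eq ▸ cenB_8) (r := 25) (s := 40) (by simp) (by simp) h25 h40 _ _)
  have e25c : y25 * good2.xg h44 d * y25⁻¹ = good2.xg h44 d :=
    Good2.cj_comm (good2.comm_of_chk (tbl_eq ▸ cenB_8) (r := 25) (s := 44) (by simp) (by simp) h25 h44 _ _)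
  have e25d : y25 * X45 * y25⁻¹ = X45 * good2.xg h46 a :=
    good2.conj_single h25 h45 h46 (by decide) (by decide) (C := 1) (by decide +kernel) (by simp) (τ 25) 1
  have e25e : y25 * good2.xg h47 b * y25⁻¹ = good2.xg h47 b :=
    Good2.cj_comm (good2.comm_of_chk (tbl_eq ▸ cenB_9) (r := 25) (s := 47) (by simp) (by simp) h25 h47 _ _)
  have step25 : y25 * (((X39 * good2.xg h40 c) * good2.xg h44 d) * (X45 * good2.xg h47 b)) * y25⁻¹ =
      ((X39 * good2.xg h40 c) * good2.xg h44 d) * ((X45 * good2.xg h46 a) * good2.xg h47 b) := by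
    simp only [Good2.cj_mul, e25a, e25b, e25c, e25d, e25e]
  -- `y24`
  have e24a : y24 * X39 * y24⁻¹ = X39 :=
    Good2.cj_comm (good2.comm_of_chk (tbl_eq ▸ cenB_10) (r := 24) (s := 39) (by simp) (by simp) h24 h39 _ _)
  have e24b : y24 * good2.xg h40 c * y24⁻¹ = good2.xg h40 c :=
    Good2.cj_comm (good2.comm_of_chk (tbl_eq ▸ cenB_10) (r := 24) (s := 40) (by simp) (by simp) h24 h40 _ _)
  have e24c : y24 * good2.xg h44 d * y24⁻¹ = good2.xg h44 d :=
    Good2.cj_comm (good2.comm_of_chk (tbl_eq ▸ cenB_10) (r := 24) (s := 44) (by simp) (by simp) h24 h44 _ _)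
  have e24d : y24 * X45 * y24⁻¹ = X45 :=
    Good2.cj_comm (good2.comm_of_chk (tbl_eq ▸ cenB_10) (r := 24) (s := 45) (by simp) (by simp) h24 h45 _ _)
  have e24e : y24 * good2.xg h46 a * y24⁻¹ = good2.xg h46 a * good2.xg h47 e :=
    good2.conj_single h24 h46 h47 (by decide) (by decide) (C := 1) (by decide +kernel) (by simp) (τ 24) a
  have e24f : y24 * good2.xg h47 b * y24⁻¹ = good2.xg h47 b :=
    Good2.cj_comm (good2.comm_of_chk (tbl_eq ▸ cenB_10) (r := 24) (s := 47) (by simp) (by simp) h24 h47 _ _)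
  have step24 : y24 * (((X39 * good2.xg h40 c) * good2.xg h44 d) * ((X45 * good2.xg h46 a) * good2.xg h47 b)) * y24⁻¹ =
      ((X39 * good2.xg h40 c) * good2.xg h44 d) * ((X45 * (good2.xg h46 a * good2.xg h47 e)) * good2.xg h47 b) := by
    simp only [Good2.cj_mul, e24a, e24b, e24c, e24d, e24e, e24f]
  have hfinal : X39 * X45 = ((X39 * good2.xg h40 c) * good2.xg h44 d) * ((X45 * (good2.xg h46 a * good2.xg h47 e)) * good2.xg h47 b) := by
    have h0 : u * (X39 * X45) * u⁻¹ = X39 * X45 := by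
      rw [mul_inv_eq_iff_eq_mul, ← hze]
      exact hcomm
    calc X39 * X45 = u * (X39 * X45) * u⁻¹ := h0.symm
      _ = y24 * (y25 * (y26 * (y27 * (s₁ * (y34 * (s₂ * (X39 * X45) * s₂⁻¹) * y34⁻¹) * s₁⁻¹) * y27⁻¹) * y26⁻¹) * y25⁻¹) * y24⁻¹ := by
          rw [hu']; group
      _ = _ := by rw [stepS2, step34, stepS1, step27, step26, step25, step24]
  -- comparing coordinates
  have hf2 : good2.xg h40 c * (good2.xg h44 d * (X45 * (good2.xg h46 a * (good2.xg h47 e * good2.xg h47 b)))) = X45 := by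
    have : X39 * X45 = X39 * (good2.xg h40 c * (good2.xg h44 d * (X45 * (good2.xg h46 a * (good2.xg h47 e * good2.xg h47 b))))) := by
      rw [hfinal]
      group
    exact (mul_left_cancel this).symm
  have mem : ∀ (m r : ℕ) (hr : r < chevF4.nroots) (t : F), m ≤ r → good2.xg hr t ∈ Ut chevF4 F m := fun m r hr t h =>
    good2.xg_mem hr ⟨h, hr⟩ t
  have hc0 : c = 0 := by
    refine good2.xg_head_zero h40 (by decide) ?_ (mem 41 45 h45 1 (by omega)) hf2
    exact Subgroup.mul_mem _ (mem _ _ _ _ (by omega)) (Subgroup.mul_mem _ (mem _ _ _ _ (by omega))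
      (Subgroup.mul_mem _ (mem _ _ _ _ (by omega)) (Subgroup.mul_mem _ (mem _ _ _ _ (by omega)) (mem _ _ _ _ (by omega)))))
  rw [hc0, good2.xg_zero, one_mul] at hf2
  have hd0 : d = 0 := by
    refine good2.xg_head_zero h44 (by decide) ?_ (mem 45 45 h45 1 (by omega)) hf2
    exact Subgroup.mul_mem _ (mem _ _ _ _ (by omega))
      (Subgroup.mul_mem _ (mem _ _ _ _ (by omega)) (Subgroup.mul_mem _ (mem _ _ _ _ (by omega)) (mem _ _ _ _ (by omega))))
  rw [hd0, good2.xg_zero, one_mul] at hf2
  have hf3 : good2.xg h46 a * (good2.xg h47 e * good2.xg h47 b) = 1 := by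
    rwa [mul_eq_left] at hf2
  have ha0 : a = 0 := by
    refine good2.xg_head_zero h46 (by decide) ?_ (Subgroup.one_mem _) hf3
    exact Subgroup.mul_mem _ (mem _ _ _ _ (by omega)) (mem _ _ _ _ (by omega))
  have he0 : e = 0 := by rw [he, ha0, mul_zero]
  rw [ha0, he0, good2.xg_zero, good2.xg_zero, one_mul, one_mul] at hf3
  have hb0 : b = 0 := good2.xg_eq_one h47 hf3
  have t27 : τ 27 = 0 := by simpa [hc] using hc0
  have t34 : τ 34 = 0 := by simpa [hd] using hd0
  have t25 : τ 25 = 0 := by simpa [ha] using ha0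
  have t26 : τ 26 = 0 := by simpa [hb] using hb0
  have v25 : y25 = 1 := by rw [hy25, t25, good2.xg_zero]
  have v26 : y26 = 1 := by rw [hy26, t26, good2.xg_zero]
  have v27 : y27 = 1 := by rw [hy27, t27, good2.xg_zero]
  have v34 : y34 = 1 := by rw [hy34, t34, good2.xg_zero]
  rw [hu', v25, v26, v27, v34]
  simp only [one_mul]
  exact Subgroup.mul_mem _ (genS_mem h24 (by omega) (by simp) _) (Subgroup.mul_mem _ hs₁.1 hs₂.1)

/-- The centralizer of the second involution. -/
theorem cen_v (z : GL chevF4.Idx F) (hz : (z : Matrix chevF4.Idx chevF4.Idx F) = chevF4.x F 39 1 * chevF4.x F 45 1) :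
    chevF4.group F ⊓ Subgroup.centralizer {z} =
      chevF4.rootSubgroup F 33 ⊔ chevF4.rootSubgroup F 14 ⊔ chevF4.rootSubgroup F 24 ⊔ chevF4.rootSubgroup F 23 ⊔ genS F := by
  have hze : z = good2.xg h39 1 * good2.xg h45 1 := Units.ext hz
  have hUp : ∀ a ∈ upV, chevF4.IsPosRoot a := good2.pos_of_chk (by decide +kernel)
  have hcomm : good2.xg h39 (1 : F) * good2.xg h45 1 = good2.xg h45 1 * good2.xg h39 1 := by
    have h1 : chkCommC (tblOf chevF4) genV [45] = true := tbl_eq ▸ cenB_6
    have := good2.comm_of_chk h1 (r := 39) (s := 45) (by decide +kernel) (by simp) h39 h45 (1 : F) (1 : F)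
    exact this.symm
  have m33 : chevF4.rootSubgroup F 33 ≤ chevF4.rootSubgroup F 33 ⊔ chevF4.rootSubgroup F 14 ⊔ chevF4.rootSubgroup F 24 ⊔ chevF4.rootSubgroup F 23 ⊔ genS F :=
    le_sup_left.trans (le_sup_left.trans (le_sup_left.trans le_sup_left))
  have m14 : chevF4.rootSubgroup F 14 ≤ chevF4.rootSubgroup F 33 ⊔ chevF4.rootSubgroup F 14 ⊔ chevF4.rootSubgroup F 24 ⊔ chevF4.rootSubgroup F 23 ⊔ genS F :=
    le_sup_right.trans (le_sup_left.trans (le_sup_left.trans le_sup_left))
  have m24 : chevF4.rootSubgroup F 24 ≤ chevF4.rootSubgroup F 33 ⊔ chevF4.rootSubgroup F 14 ⊔ chevF4.rootSubgroup F 24 ⊔ chevF4.rootSubgroup F 23 ⊔ genS F :=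
    le_sup_right.trans (le_sup_left.trans le_sup_left)
  have m23 : chevF4.rootSubgroup F 23 ≤ chevF4.rootSubgroup F 33 ⊔ chevF4.rootSubgroup F 14 ⊔ chevF4.rootSubgroup F 24 ⊔ chevF4.rootSubgroup F 23 ⊔ genS F :=
    le_sup_right.trans le_sup_left
  have mS : genS F ≤ chevF4.rootSubgroup F 33 ⊔ chevF4.rootSubgroup F 14 ⊔ chevF4.rootSubgroup F 24 ⊔ chevF4.rootSubgroup F 23 ⊔ genS F :=
    le_sup_right
  have hg : ∀ (r : ℕ) (hr : r < chevF4.nroots) (c : F), r ∈ genV →
      good2.xg hr c ∈ Subgroup.centralizer {good2.xg h39 (1 : F) * good2.xg h45 (1 : F)} :=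
    fun r hr c hm => Good2.mem_cen_two (good2.mem_cen_of_chk (tbl_eq ▸ cenB_5) h39 hr hm c 1)
      (good2.mem_cen_of_chk (tbl_eq ▸ cenB_6) h45 hr hm c 1)
  refine good3.cen_final (Up := upV) (Ls := [39, 45]) (JL := [0, 3]) (Js := [[], [0], [3], [3, 0]])
    (Ws := cenWs.elems.map (unpackR chevF4.nroots)) z hUp (by decide)
    ?_ ?_ ?_ (tbl_eq ▸ cenB_1) (tbl_eq ▸ cenB_2) (tbl_eq ▸ cen_odd) (good3.pp_in_tr cen_cl) cenB_3 _ ?_ ?_ ?_ ?_ ?_ ?_ ?_
  · rw [hze]
    exact Subgroup.mul_mem _ (good2.xg_mem h39 (by decide) 1) (good2.xg_mem h45 (by decide) 1)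
  · intro a ha hm
    simp only [List.mem_cons, List.not_mem_nil, or_false] at hm
    rcases hm with rfl | rfl
    · exact ⟨good2.xg h45 1, good2.xg_mem h45 ⟨by decide, by decide⟩ 1, by rw [hze]; rfl⟩
    · exact ⟨good2.xg h39 1, good2.xg_mem h39 ⟨by decide, by decide⟩ 1, by rw [hze, hcomm]; rfl⟩
  · rw [hze]
    have hchk : chkOddUp (tblOf chevF4) upV [39, 45] = true := tbl_eq ▸ cenB_4
    exact good2.cenQ_mul hUp hchk (good2.cenQ_x hUp hchk (a := 39) (by decide) 1)
      (good2.cenQ_x hUp hchk (a := 45) (by decide) 1) (good2.xg_mem h45 (hUp 45 (by decide)) 1)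
  · rw [hze]
    refine sup_le (sup_le (sup_le (sup_le ?_ ?_) ?_) ?_) ?_
    · exact Good2.X_le_of good2 (by decide) (fun c => hg _ _ c (by decide +kernel))
    · exact Good2.X_le_of good2 (by decide) (fun c => hg _ _ c (by decide +kernel))
    · exact Good2.X_le_of good2 (by decide) (fun c => hg _ _ c (by decide +kernel))
    · exact Good2.X_le_of good2 (by decide) (fun c => hg _ _ c (by decide +kernel))
    · rw [Subgroup.closure_le]
      rintro g ⟨r, c, hp, hn, hv⟩
      have hg' : g = good2.xg hp.1 c := Units.ext hv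
      rw [hg']
      exact hg r hp.1 c (genV_of hp.1 ((good2.pos_iff hp.1).1 hp) hn)
  · refine sup_le (sup_le (sup_le (sup_le ?_ ?_) ?_) ?_) ?_
    · exact Good2.X_le_of good2 (by decide) (fun t => good2.xg_mem_grp _ t)
    · exact Good2.X_le_of good2 (by decide) (fun t => good2.xg_mem_grp _ t)
    · exact Good2.X_le_of good2 (by decide) (fun t => good2.xg_mem_grp _ t)
    · exact Good2.X_le_of good2 (by decide) (fun t => good2.xg_mem_grp _ t)
    · rw [Subgroup.closure_le]
      rintro g ⟨r, c, hp, hn, hv⟩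
      have hg' : g = good2.xg hp.1 c := Units.ext hv
      rw [hg']
      exact good2.xg_mem_grp _ c
  · intro j hj hJ t
    simp only [List.mem_cons, List.not_mem_nil, or_false] at hJ
    rcases hJ with rfl | rfl
    · exact m33 (good2.xg_mem_X' _ (by decide) t)
    · exact m24 (good2.xg_mem_X' _ (by decide) t)
  · intro j hj hJ t
    simp only [List.mem_cons, List.not_mem_nil, or_false] at hJ
    rcases hJ with rfl | rfl
    · exact m14 (good2.xg_mem_X' _ (by decide) t)
    · exact m23 (good2.xg_mem_X' _ (by decide) t)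
  · intro r hr t hp hsub
    apply mS
    refine genS_mem hr ((good2.pos_iff hr).1 hp) ?_ t
    have h1 : (chevF4.coroot.getD r #[]).getD 1 0 = 0 := hsub.2 1 (by decide) (by simp)
    have h2 : (chevF4.coroot.getD r #[]).getD 2 0 = 0 := hsub.2 2 (by decide) (by simp)
    simp only [List.mem_cons, List.not_mem_nil, or_false]
    rintro (rfl | rfl | rfl | rfl)
    · exact absurd h1 (by decide +kernel)
    · exact absurd h2 (by decide +kernel)
    · exact absurd h1 (by decide +kernel)
    · exact absurd h2 (by decide +kernel)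
  · intro u hu hc
    exact mS (cen_v_U hze hu hc)
  · intro c hc h i hi hJ
    have hi' : i < 4 := hi
    have hc1 := hc 1 (by decide)
    have hc2 := hc 2 (by decide)
    have ee : ∀ s, chiL chevF4 (List.range chevF4.rank) c s =
        c 0 ^ chevF4.cartan 0 s * (c 1 ^ chevF4.cartan 1 s * (c 2 ^ chevF4.cartan 2 s * (c 3 ^ chevF4.cartan 3 s * 1))) := by
      intro s
      rw [chiL, cen_rk]
      rfl
    have h39' := h 39 (by simp)
    have h45' := h 45 (by simp)
    rw [ee, show chevF4.cartan 0 39 = 0 by decide +kernel, show chevF4.cartan 1 39 = -1 by decide +kernel,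
      show chevF4.cartan 2 39 = 1 by decide +kernel, show chevF4.cartan 3 39 = 0 by decide +kernel] at h39'
    rw [ee, show chevF4.cartan 0 45 = 0 by decide +kernel, show chevF4.cartan 1 45 = 2 by decide +kernel,
      show chevF4.cartan 2 45 = -1 by decide +kernel, show chevF4.cartan 3 45 = 0 by decide +kernel] at h45'
    simp only [_root_.zpow_zero, one_mul, mul_one, _root_.zpow_one, _root_.zpow_neg_one] at h39' h45'
    have e1 : c 2 = c 1 := by
      field_simp at h39'
      exact h39'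
    have e2 : c 1 = 1 := by
      rw [e1] at h45'
      have h3 : c 1 ^ (2 : ℤ) = c 1 ^ 2 := by norm_cast
      rw [h3] at h45'
      field_simp at h45'
      exact h45'
    have e3 : c 2 = 1 := by rw [e1, e2]
    simp only [List.mem_cons, List.not_mem_nil, or_false, not_or] at hJ
    have : i = 1 ∨ i = 2 := by omega
    rcases this with rfl | rfl <;> assumption

end Cfsg.Agent.Lib.Chev.TabF4
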