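import Cfsg.Agent.Lib.Chev.Sub.CenC
import Cfsg.Agent.Lib.Chev.Tab.G2c

/-! Centralizers of involutions in `G₂(q)`, `q` even. -/

set_option autoImplicit false
set_option maxRecDepth 1000000
set_option linter.unusedSimpArgs false
set_option linter.unusedVariables false
set_option linter.unusedSectionVars false

namespace Cfsg.Agent.Lib.Chev.TabG2

open Cfsg Cfsg.Lie Matrix
open Good2 (NN Ut)

/-- The Weyl group as permutations of the roots. -/
def cenWs : List (List ℕ) := [[0, 1, 2, 3, 4, 5, 6, 7, 8, 9, 10, 11], [0, 5, 3, 2, 7, 1, 10, 4, 9, 8, 6, 11], [1, 0, 2, 4, 3, 6, 5, 8, 7, 9, 11, 10], [1, 6, 4, 2, 8, 0, 11, 3, 9, 7, 5, 10], [5, 0, 3, 7, 2, 10, 1, 9, 4, 8, 11, 6], [5, 10, 7, 3, 9, 0, 11, 2, 8, 4, 1, 6], [6, 1, 4, 8, 2, 11, 0, 9, 3, 7, 10, 5], [6, 11, 8, 4, 9, 1, 10, 2, 7, 3, 0, 5], [10, 5, 7, 9, 3, 11, 0, 8, 2, 4, 6, 1], [10, 11, 9, 7, 8, 5, 6, 3, 4, 2, 0, 1], [11, 6, 8, 9, 4, 10, 1, 7, 2, 3, 5, 0], [11, 10, 9, 8, 7, 6, 5, 4, 3, 2, 1, 0]]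

theorem cen_odd : chkOddCor fd.tbl = true := by decide +kernel
theorem cen_cl : chkWcl chevG2.nroots chevG2.rank W cenWs = true := by decide +kernel

theorem cenA_1 : chkDet1 fd.tbl [11] = true := by decide +kernel
theorem cenA_2 : chkDet2 fd.tbl [11] [11] = true := by decide +kernel
theorem cenA_3 : chkWf chevG2.nroots chevG2.rank W [11] [11] [0] [[], [0]] cenWs = true := by decide +kernel
theorem cenA_4 : chkOddUp fd.tbl [11] [11] = true := by decide +kernel
theorem cenA_5 : chkCommC fd.tbl [6, 7, 8, 9, 10, 11, 4] [11] = true := by decide +kernel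

theorem cenB_1 : chkDet1 fd.tbl [9, 10, 11] = true := by decide +kernel
theorem cenB_2 : chkDet2 fd.tbl [9, 10, 11] [9] = true := by decide +kernel
theorem cenB_3 : chkWf chevG2.nroots chevG2.rank W [9, 10, 11] [9] [1] [[], [1]] cenWs = true := by decide +kernel
theorem cenB_4 : chkOddUp fd.tbl [9, 10, 11] [9] = true := by decide +kernel
theorem cenB_5 : chkCommC fd.tbl [9, 10, 11, 6, 5] [9] = true := by decide +kernel
theorem cenB_6 : chkCommC fd.tbl [7] [11] = true := by decide +kernel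
theorem cenB_7 : chkCommC fd.tbl [6] [9, 11] = true := by decide +kernel

variable {F : Type*} [Field F] [CharP F 2]



theorem nn_eq : chevG2.nroots = 12 := rfl

/-- The centralizer of a long root element. -/
theorem cen_long (z : GL chevG2.Idx F) (hz : (z : Matrix chevG2.Idx chevG2.Idx F) = chevG2.x F 11 1) :
    chevG2.group F ⊓ Subgroup.centralizer {z} = chevG2.posUnipotent F ⊔ chevG2.rootSubgroup F 4 := by
  have h11 : 11 < chevG2.nroots := by decide
  have hze : z = good2.xg h11 1 := Units.ext hz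
  have hUp : ∀ a ∈ [11], chevG2.IsPosRoot a := good2.pos_of_chk (by decide +kernel)
  refine good3.cen_final (Up := [11]) (Ls := [11]) (JL := [0]) (Js := [[], [0]]) (Ws := cenWs) z hUp (by simp)
    ?_ ?_ ?_ (tbl_eq ▸ cenA_1) (tbl_eq ▸ cenA_2) (tbl_eq ▸ cen_odd) (good3.pp_in_Ws cen_cl) cenA_3 _ ?_ ?_ ?_ ?_ ?_ ?_ ?_
  · rw [hze]
    exact good2.xg_mem h11 (by simp) 1
  · intro a ha hm
    obtain rfl : a = 11 := by simpa using hm
    exact ⟨1, Subgroup.one_mem _, by rw [hze, mul_one]; rfl⟩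
  · rw [hze]
    exact good2.cenQ_x hUp (tbl_eq ▸ cenA_4) (a := 11) (by simp) 1
  · rw [hze]
    apply sup_le
    · apply good2.U_le_of
      intro r hr t hN
      have hr' : r < 12 := hr
      have hN' : 6 ≤ r := hN
      refine good2.mem_cen_of_chk (Rs := [6, 7, 8, 9, 10, 11, 4]) (tbl_eq ▸ cenA_5) h11 hr ?_ t 1
      simp only [List.mem_cons, List.not_mem_nil, or_false]
      omega
    · apply Good2.X_le_of good2 (by decide)
      intro t
      exact good2.mem_cen_of_chk (Rs := [6, 7, 8, 9, 10, 11, 4]) (tbl_eq ▸ cenA_5) h11 _ (by simp) t 1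
  · exact sup_le (good2.U_le_B.trans good2.B_le_group) (Good2.X_le_of good2 (by decide) (fun t => good2.xg_mem_grp _ t))
  · intro j hj hJ t
    exact Subgroup.mem_sup_left (good2.xg_mem _ ((good2.pos_iff (good2.simple_lt hj)).2 (good2.simple_pos hj)) t)
  · intro j hj hJ t
    obtain rfl : j = 0 := by simpa using hJ
    exact Subgroup.mem_sup_right (good2.xg_mem_X' _ (by decide) t)
  · intro r hr t hp _
    exact Subgroup.mem_sup_left (good2.xg_mem hr hp t)
  · intro u hu _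
    exact Subgroup.mem_sup_left hu
  · intro c hc h i hi hJ
    have hi' : i < 2 := hi
    obtain rfl : i = 1 := by
      simp only [List.mem_cons, List.not_mem_nil, or_false] at hJ
      omega
    have h1 := h 11 (by simp)
    rwa [good2.chiL_singleC c (r := 11) (i₀ := 1) (by decide) (by
      intro i hi
      have hi' : i < 2 := hi
      interval_cases i <;> decide)] at h1

/-- The centralizer of a short root element. -/
theorem cen_short (t : GL chevG2.Idx F) (ht : (t : Matrix chevG2.Idx chevG2.Idx F) = chevG2.x F 9 1) :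
    chevG2.group F ⊓ Subgroup.centralizer {t} = chevG2.rootSubgroup F 9 ⊔ chevG2.rootSubgroup F 10 ⊔
      chevG2.rootSubgroup F 11 ⊔ chevG2.rootSubgroup F 6 ⊔ chevG2.rootSubgroup F 5 := by
  have h9 : 9 < chevG2.nroots := by decide
  have h10 : 10 < chevG2.nroots := by decide
  have h11 : 11 < chevG2.nroots := by decide
  have h6 : 6 < chevG2.nroots := by decide
  have h7 : 7 < chevG2.nroots := by decide
  have h8 : 8 < chevG2.nroots := by decide
  have hze : t = good2.xg h9 1 := Units.ext ht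
  have hUp : ∀ a ∈ [9, 10, 11], chevG2.IsPosRoot a := good2.pos_of_chk (by decide +kernel)
  have m9 : chevG2.rootSubgroup F 9 ≤ chevG2.rootSubgroup F 9 ⊔ chevG2.rootSubgroup F 10 ⊔
      chevG2.rootSubgroup F 11 ⊔ chevG2.rootSubgroup F 6 ⊔ chevG2.rootSubgroup F 5 :=
    le_sup_left.trans (le_sup_left.trans (le_sup_left.trans le_sup_left))
  have m10 : chevG2.rootSubgroup F 10 ≤ chevG2.rootSubgroup F 9 ⊔ chevG2.rootSubgroup F 10 ⊔
      chevG2.rootSubgroup F 11 ⊔ chevG2.rootSubgroup F 6 ⊔ chevG2.rootSubgroup F 5 :=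
    le_sup_right.trans (le_sup_left.trans (le_sup_left.trans le_sup_left))
  have m11 : chevG2.rootSubgroup F 11 ≤ chevG2.rootSubgroup F 9 ⊔ chevG2.rootSubgroup F 10 ⊔
      chevG2.rootSubgroup F 11 ⊔ chevG2.rootSubgroup F 6 ⊔ chevG2.rootSubgroup F 5 :=
    le_sup_right.trans (le_sup_left.trans le_sup_left)
  have m6 : chevG2.rootSubgroup F 6 ≤ chevG2.rootSubgroup F 9 ⊔ chevG2.rootSubgroup F 10 ⊔
      chevG2.rootSubgroup F 11 ⊔ chevG2.rootSubgroup F 6 ⊔ chevG2.rootSubgroup F 5 :=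
    le_sup_right.trans le_sup_left
  have m5 : chevG2.rootSubgroup F 5 ≤ chevG2.rootSubgroup F 9 ⊔ chevG2.rootSubgroup F 10 ⊔
      chevG2.rootSubgroup F 11 ⊔ chevG2.rootSubgroup F 6 ⊔ chevG2.rootSubgroup F 5 := le_sup_right
  refine good3.cen_final (Up := [9, 10, 11]) (Ls := [9]) (JL := [1]) (Js := [[], [1]]) (Ws := cenWs) t hUp (by simp)
    ?_ ?_ ?_ (tbl_eq ▸ cenB_1) (tbl_eq ▸ cenB_2) (tbl_eq ▸ cen_odd) (good3.pp_in_Ws cen_cl) cenB_3 _ ?_ ?_ ?_ ?_ ?_ ?_ ?_
  · rw [hze]
    exact good2.xg_mem h9 (by simp) 1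
  · intro a ha hm
    obtain rfl : a = 9 := by simpa using hm
    exact ⟨1, Subgroup.one_mem _, by rw [hze, mul_one]; rfl⟩
  · rw [hze]
    exact good2.cenQ_x hUp (tbl_eq ▸ cenB_4) (a := 9) (by simp) 1
  · rw [hze]
    have key : ∀ r ∈ [9, 10, 11, 6, 5], ∀ (hr : r < chevG2.nroots) (c : F), good2.xg hr c ∈ Subgroup.centralizer {good2.xg h9 (1 : F)} :=
      fun r hm hr c => good2.mem_cen_of_chk (tbl_eq ▸ cenB_5) h9 hr hm c 1
    refine sup_le (sup_le (sup_le (sup_le ?_ ?_) ?_) ?_) ?_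
    · exact Good2.X_le_of good2 h9 (key 9 (by simp) h9)
    · exact Good2.X_le_of good2 h10 (key 10 (by simp) h10)
    · exact Good2.X_le_of good2 h11 (key 11 (by simp) h11)
    · exact Good2.X_le_of good2 h6 (key 6 (by simp) h6)
    · exact Good2.X_le_of good2 (by decide) (key 5 (by simp) (by decide))
  · refine sup_le (sup_le (sup_le (sup_le ?_ ?_) ?_) ?_) ?_ <;>
      exact Good2.X_le_of good2 (by decide) (fun t => good2.xg_mem_grp _ t)
  · intro j hj hJ c
    obtain rfl : j = 1 := by simpa using hJ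
    exact m6 (good2.xg_mem_X' _ (by decide) c)
  · intro j hj hJ c
    obtain rfl : j = 1 := by simpa using hJ
    exact m5 (good2.xg_mem_X' _ (by decide) c)
  · intro r hr c hp hsub
    have hr' : r < 12 := hr
    have hN : 6 ≤ r := (good2.pos_iff hr).1 hp
    have h0 : (chevG2.coroot.getD r #[]).getD 0 0 = 0 := hsub.2 0 (by decide) (by simp)
    obtain rfl : r = 6 := by
      interval_cases r
      · rfl
      all_goals exact absurd h0 (by decide)
    exact m6 (good2.xg_mem_X _ c)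
  · intro u hu hcomm
    obtain ⟨τ, ⟨_, hτ⟩, _⟩ := good2.U_normal_form u hu
    have hpos : chevG2.posRoots = [6, 7, 8, 9, 10, 11] := by decide +kernel
    rw [hpos] at hτ
    set y6 := good2.xg h6 (τ 6) with hy6
    set y7 := good2.xg h7 (τ 7) with hy7
    set y8 := good2.xg h8 (τ 8) with hy8
    set s := good2.xg h9 (τ 9) * (good2.xg h10 (τ 10) * good2.xg h11 (τ 11)) with hs
    have hu' : u = y6 * (y7 * (y8 * s)) := by
      apply Units.ext
      rw [hτ]
      simp [ChevalleyDatum.wordMat, hy6, hy7, hy8, hs, mul_assoc]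
    -- `s` centralizes `t`
    have hsc : s * t = t * s := by
      rw [hze, hs]
      have a1 := good2.comm_of_chk (tbl_eq ▸ cenB_5) (r := 9) (s := 9) (by simp) (by simp) h9 h9 (τ 9) (1 : F)
      have a2 := good2.comm_of_chk (tbl_eq ▸ cenB_5) (r := 10) (s := 9) (by simp) (by simp) h10 h9 (τ 10) (1 : F)
      have a3 := good2.comm_of_chk (tbl_eq ▸ cenB_5) (r := 11) (s := 9) (by simp) (by simp) h11 h9 (τ 11) (1 : F)
      calc _ = good2.xg h9 (τ 9) * (good2.xg h10 (τ 10) * (good2.xg h11 (τ 11) * good2.xg h9 1)) := by group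
        _ = good2.xg h9 (τ 9) * (good2.xg h10 (τ 10) * (good2.xg h9 1 * good2.xg h11 (τ 11))) := by rw [a3]
        _ = good2.xg h9 (τ 9) * ((good2.xg h10 (τ 10) * good2.xg h9 1) * good2.xg h11 (τ 11)) := by group
        _ = good2.xg h9 (τ 9) * ((good2.xg h9 1 * good2.xg h10 (τ 10)) * good2.xg h11 (τ 11)) := by rw [a2]
        _ = (good2.xg h9 (τ 9) * good2.xg h9 1) * (good2.xg h10 (τ 10) * good2.xg h11 (τ 11)) := by group
        _ = (good2.xg h9 1 * good2.xg h9 (τ 9)) * (good2.xg h10 (τ 10) * good2.xg h11 (τ 11)) := by rw [a1]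
        _ = _ := by group
    have hconj : u * t * u⁻¹ = t := by
      rw [mul_inv_eq_iff_eq_mul]
      exact hcomm
    have e1 : s * t * s⁻¹ = t := by rw [mul_inv_eq_iff_eq_mul, hsc]
    have e2 : y8 * t * y8⁻¹ = t * good2.xg h11 (τ 8 * 1) := by
      rw [hze]
      exact good2.conj_single h8 h9 h11 (by decide) (by decide) (C := 3) (by decide +kernel) (cast_odd_two (by decide)) (τ 8) 1
    have e3a : y7 * t * y7⁻¹ = t * good2.xg h10 (τ 7 * 1) := by
      rw [hze]
      exact good2.conj_single h7 h9 h10 (by decide) (by decide) (C := 3) (by decide +kernel) (cast_odd_two (by decide)) (τ 7) 1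
    have e3b : ∀ c : F, y7 * good2.xg h11 c * y7⁻¹ = good2.xg h11 c := fun c =>
      Good2.cj_comm (good2.comm_of_chk (tbl_eq ▸ cenB_6) (r := 7) (s := 11) (by simp) (by simp) h7 h11 (τ 7) c)
    have e4a : y6 * t * y6⁻¹ = t := by
      rw [hze]
      exact Good2.cj_comm (good2.comm_of_chk (tbl_eq ▸ cenB_7) (r := 6) (s := 9) (by simp) (by simp) h6 h9 (τ 6) 1)
    have e4b : ∀ c : F, y6 * good2.xg h11 c * y6⁻¹ = good2.xg h11 c := fun c =>
      Good2.cj_comm (good2.comm_of_chk (tbl_eq ▸ cenB_7) (r := 6) (s := 11) (by simp) (by simp) h6 h11 (τ 6) c)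
    have e4c : ∀ c : F, y6 * good2.xg h10 c * y6⁻¹ = good2.xg h10 c * good2.xg h11 (τ 6 * c) := fun c =>
      good2.conj_single h6 h10 h11 (by decide) (by decide) (C := 1) (by decide +kernel) (by simp) (τ 6) c
    have e5 : t = t * (good2.xg h10 (τ 7 * 1) * (good2.xg h11 (τ 6 * (τ 7 * 1)) * good2.xg h11 (τ 8 * 1))) := by
      calc t = u * t * u⁻¹ := hconj.symm
        _ = y6 * (y7 * (y8 * (s * t * s⁻¹) * y8⁻¹) * y7⁻¹) * y6⁻¹ := by rw [hu']; group
        _ = y6 * (y7 * (t * good2.xg h11 (τ 8 * 1)) * y7⁻¹) * y6⁻¹ := by rw [e1, e2]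
        _ = y6 * ((t * good2.xg h10 (τ 7 * 1)) * good2.xg h11 (τ 8 * 1)) * y6⁻¹ := by
            congr 2
            rw [Good2.cj_mul, e3a, e3b]
        _ = (t * (good2.xg h10 (τ 7 * 1) * good2.xg h11 (τ 6 * (τ 7 * 1)))) * good2.xg h11 (τ 8 * 1) := by
            rw [Good2.cj_mul, Good2.cj_mul, e4a, e4b, e4c]
        _ = _ := by group
    have e6 : good2.xg h10 (τ 7 * 1) * (good2.xg h11 (τ 6 * (τ 7 * 1)) * good2.xg h11 (τ 8 * 1)) = 1 := by
      have := e5
      rwa [left_eq_mul] at this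
    have hm11 : ∀ c : F, good2.xg h11 c ∈ Ut chevG2 F (10 + 1) := fun c => good2.xg_mem h11 ⟨by omega, h11⟩ c
    have e7 : τ 7 * 1 = 0 := good2.xg_head_zero h10 (by decide) (Subgroup.mul_mem _ (hm11 _) (hm11 _)) (Subgroup.one_mem _) e6
    rw [e7, mul_zero, good2.xg_zero, one_mul, good2.xg_zero, one_mul] at e6
    have e8 : τ 8 * 1 = 0 := good2.xg_eq_one h11 e6
    have e7' : τ 7 = 0 := by simpa using e7
    have e8' : τ 8 = 0 := by simpa using e8
    have hy7' : y7 = 1 := by rw [hy7, e7', good2.xg_zero]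
    have hy8' : y8 = 1 := by rw [hy8, e8', good2.xg_zero]
    rw [hu', hy7', hy8', one_mul, one_mul]
    refine Subgroup.mul_mem _ (m6 (good2.xg_mem_X _ _)) (Subgroup.mul_mem _ (m9 (good2.xg_mem_X _ _))
      (Subgroup.mul_mem _ (m10 (good2.xg_mem_X _ _)) (m11 (good2.xg_mem_X _ _))))
  · intro c hc h i hi hJ
    have hi' : i < 2 := hi
    obtain rfl : i = 0 := by
      simp only [List.mem_cons, List.not_mem_nil, or_false] at hJ
      omega
    have h1 := h 9 (by simp)
    rwa [good2.chiL_singleC c (r := 9) (i₀ := 0) (by decide) (by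
      intro i hi
      have hi' : i < 2 := hi
      interval_cases i <;> decide)] at h1

end Cfsg.Agent.Lib.Chev.TabG2
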