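import Cfsg.Agent.Lib.Chev.BruhatNF
import Cfsg.Agent.Lib.Chev.Order

/-! Root subgroups centralised by `U`: conjugates, centralisers. -/

set_option autoImplicit false
set_option linter.unusedSimpArgs false
set_option linter.unusedVariables false
set_option linter.unusedSectionVars false

namespace Cfsg.Agent.Lib.Chev

open Cfsg Cfsg.Lie Matrix

variable {D : ChevalleyDatum} {F : Type*} [Field F]

/-- Conjugate of a subgroup. -/
abbrev cjS (g : GL D.Idx F) (K : Subgroup (GL D.Idx F)) : Subgroup (GL D.Idx F) :=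
  K.map (MulAut.conj g).toMonoidHom

theorem mem_cjS {g y : GL D.Idx F} {K : Subgroup (GL D.Idx F)} : y ∈ cjS g K ↔ g⁻¹ * y * g ∈ K := by
  constructor
  · rintro ⟨z, hz, rfl⟩
    simpa [MulAut.conj_apply, mul_assoc] using hz
  · intro h
    refine ⟨_, h, ?_⟩
    simp [MulAut.conj_apply, mul_assoc]

theorem conj_mem_cjS {g y : GL D.Idx F} {K : Subgroup (GL D.Idx F)} (h : y ∈ K) : g * y * g⁻¹ ∈ cjS g K :=
  ⟨y, h, by simp [MulAut.conj_apply]⟩

theorem cjS_mul (a b : GL D.Idx F) (K : Subgroup (GL D.Idx F)) : cjS (a * b) K = cjS a (cjS b K) := by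
  show K.map _ = (K.map _).map _
  rw [Subgroup.map_map]
  congr 1
  ext x
  simp [MulAut.conj_apply, mul_assoc]

theorem cjS_sup (g : GL D.Idx F) (K L : Subgroup (GL D.Idx F)) : cjS g (K ⊔ L) = cjS g K ⊔ cjS g L :=
  Subgroup.map_sup _ _ _

theorem cjS_one (K : Subgroup (GL D.Idx F)) : cjS (1 : GL D.Idx F) K = K := by
  ext y
  rw [mem_cjS]
  simp

theorem cjS_inv_cjS (g : GL D.Idx F) (K : Subgroup (GL D.Idx F)) : cjS g⁻¹ (cjS g K) = K := by
  rw [← cjS_mul, inv_mul_cancel, cjS_one]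

theorem cjS_cjS_inv (g : GL D.Idx F) (K : Subgroup (GL D.Idx F)) : cjS g (cjS g⁻¹ K) = K := by
  rw [← cjS_mul, mul_inv_cancel, cjS_one]

theorem cjS_of_mem {g : GL D.Idx F} {K : Subgroup (GL D.Idx F)} (h : g ∈ K) : cjS g K = K := by
  ext y
  rw [mem_cjS]
  constructor
  · intro h2
    have := K.mul_mem (K.mul_mem h h2) (K.inv_mem h)
    convert this using 1
    group
  · intro h2
    exact K.mul_mem (K.mul_mem (K.inv_mem h) h2) h

/-- Climbing two roots simultaneously into the positive system. -/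
def pairUp (W : ℕ → ℕ → ℕ) (car : ℕ → ℕ → ℤ) (rk NN : ℕ) (a b : ℤ) : ℕ → ℕ → ℕ → Bool
  | 0, r, s => decide (NN ≤ r) && decide (NN ≤ s)
  | n + 1, r, s =>
    if decide (NN ≤ r) && decide (NN ≤ s) then true else
    match (List.range rk).find? (fun i => decide (a * car i r + b * car i s < 0)) with
    | some i => pairUp W car rk NN a b n (W i r) (W i s)
    | none => false

namespace Good2

variable (G : Good2 D)
include G

theorem X_mem {r : ℕ} (hr : r < D.nroots) (t : F) : G.xg hr t ∈ D.rootSubgroup F r :=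
  Subgroup.subset_closure ⟨t, rfl⟩

theorem nG_conj_X (i : Fin D.rank) {r : ℕ} (hr : r < D.nroots) :
    cjS (G.nG i) (D.rootSubgroup F r) = D.rootSubgroup F (G.W i r) := by
  ext y
  constructor
  · rintro ⟨z, hz, rfl⟩
    obtain ⟨t, rfl⟩ := G.X_form hr hz
    simp only [MulEquiv.coe_toMonoidHom, MulAut.conj_apply]
    rw [G.nG_conj_x (F := F) i hr]
    exact G.X_mem _ _
  · intro hy
    obtain ⟨t, rfl⟩ := G.X_form (G.W_lt i.isLt hr) hy
    refine ⟨G.xg hr (((G.S i r : ℤ) : F) * t), G.X_mem hr _, ?_⟩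
    simp only [MulEquiv.coe_toMonoidHom, MulAut.conj_apply]
    rw [G.nG_conj_x (F := F) i hr, ← mul_assoc, sign_sq (G.S_cases i.isLt hr), one_mul]

theorem nw_conj_X (l : List (Fin D.rank)) (r : Fin D.nroots) :
    cjS (G.nw l) (D.rootSubgroup F r.val) = D.rootSubgroup F (G.pp l r).val := by
  induction l with
  | nil =>
    simp only [G.nw_nil, G.pp_nil]
    exact cjS_one _
  | cons i l ih =>
    rw [G.nw_cons, cjS_mul, ih, G.nG_conj_X i (G.pp l r).isLt, G.pp_cons]
    rfl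

theorem H_conj_X {k : GL D.Idx F} (hk : k ∈ D.diagonalSubgroup F) {r : ℕ} (hr : r < D.nroots) :
    cjS k (D.rootSubgroup F r) = D.rootSubgroup F r := by
  have key : ∀ k ∈ D.diagonalSubgroup F, cjS k (D.rootSubgroup F r) ≤ D.rootSubgroup F r := by
    rintro k hk _ ⟨z, hz, rfl⟩
    obtain ⟨t, rfl⟩ := G.X_form hr hz
    obtain ⟨χ, -, -, h3⟩ := G.H_conj hk
    simp only [MulEquiv.coe_toMonoidHom, MulAut.conj_apply]
    rw [h3]
    exact G.X_mem _ _
  apply le_antisymm (key k hk)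
  intro y hy
  rw [mem_cjS]
  have h := key k⁻¹ (Subgroup.inv_mem _ hk) (conj_mem_cjS (g := k⁻¹) hy)
  simpa using h

/-- Normal form with four factors. -/
theorem bruhat4 {g : GL D.Idx F} (hg : g ∈ D.group F) :
    ∃ v ∈ D.posUnipotent F, ∃ k ∈ D.diagonalSubgroup F, ∃ l, ∃ u ∈ D.posUnipotent F, g = v * k * G.nw l * u := by
  obtain ⟨b, hb, n, hn, u, hu, rfl⟩ := G.normal_exists hg
  obtain ⟨h', hh', l, rfl⟩ := G.N0_form ((G.monomial_eq (F := F)).le hn)
  obtain ⟨v, hv, k, hk, e⟩ := G.B_form.mp (Subgroup.mul_mem _ hb (G.H_le_B hh'))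
  refine ⟨v, hv, k, hk, l, u, Um_le_U _ hu, ?_⟩
  rw [← e]
  group

theorem cen_conj_X {r : ℕ} (hr : r < D.nroots)
    (hc : ∀ v ∈ D.posUnipotent F, ∀ c : F, v * G.xg hr c = G.xg hr c * v) {v : GL D.Idx F}
    (hv : v ∈ D.posUnipotent F) : cjS v (D.rootSubgroup F r) = D.rootSubgroup F r := by
  ext y
  rw [mem_cjS]
  constructor
  · intro h
    obtain ⟨c, hc2⟩ := G.X_form hr h
    have : y = v * (v⁻¹ * y * v) * v⁻¹ := by group
    rw [this, hc2, hc v hv, mul_inv_cancel_right]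
    exact G.X_mem hr c
  · intro h
    obtain ⟨c, rfl⟩ := G.X_form hr h
    have : v⁻¹ * G.xg hr c * v = G.xg hr c := by
      rw [mul_assoc, ← hc v hv, inv_mul_cancel_left]
    rw [this]
    exact G.X_mem hr c

/-- The conjugates of a root subgroup centralised by `U`. -/
theorem high_conj {r : ℕ} (hr : r < D.nroots)
    (hc : ∀ v ∈ D.posUnipotent F, ∀ c : F, v * G.xg hr c = G.xg hr c * v) {g : GL D.Idx F} (hg : g ∈ D.group F) :
    ∃ v ∈ D.posUnipotent F, ∃ s, s < D.nroots ∧ cjS g (D.rootSubgroup F r) = cjS v (D.rootSubgroup F s) := by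
  obtain ⟨v, hv, k, hk, l, u, hu, rfl⟩ := G.bruhat4 hg
  refine ⟨v, hv, (G.pp l ⟨r, hr⟩).val, (G.pp l ⟨r, hr⟩).isLt, ?_⟩
  rw [cjS_mul, G.cen_conj_X hr hc hu, cjS_mul, cjS_mul]
  have := G.nw_conj_X (F := F) l ⟨r, hr⟩
  simp only at this
  rw [this, G.H_conj_X hk (G.pp l ⟨r, hr⟩).isLt]

theorem U_pgroup [Fintype F] (p : ℕ) [Fact p.Prime] [CharP F p] : IsPGroup p ↥(D.posUnipotent F) := by
  obtain ⟨n, hp, hc⟩ := FiniteField.card F p
  have := G.card_U (F := F)
  rw [hc, ← pow_mul] at this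
  exact IsPGroup.of_card this

omit G in
theorem pgroup_of_le_conj {K U : Subgroup (GL D.Idx F)} {p : ℕ} (hU : IsPGroup p ↥U) (g : GL D.Idx F)
    (h : K ≤ cjS g U) : IsPGroup p ↥K := by
  have h2 : IsPGroup p ↥(U.map (MulAut.conj g).toMonoidHom) := hU.map _
  exact h2.to_le h

/-- The subgroup generated by two root subgroups which can be moved into `U` is a `p`-group. -/
theorem pair_pgroup [Fintype F] (p : ℕ) [Fact p.Prime] [CharP F p] (a b : ℤ) (m : ℕ) :
    ∀ r s, r < D.nroots → s < D.nroots → pairUp G.W D.cartan D.rank (NN D) a b m r s = true →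
      IsPGroup p ↥(D.rootSubgroup F r ⊔ D.rootSubgroup F s) := by
  have hpos : ∀ r, r < D.nroots → NN D ≤ r → D.rootSubgroup F r ≤ D.posUnipotent F := by
    intro r hr hN y hy
    obtain ⟨t, rfl⟩ := G.X_form hr hy
    exact G.xg_mem hr ((G.pos_iff hr).mpr hN) t
  induction m with
  | zero =>
    intro r s hr hs h
    simp only [pairUp, Bool.and_eq_true, decide_eq_true_eq] at h
    exact (G.U_pgroup p).to_le (sup_le (hpos r hr h.1) (hpos s hs h.2))
  | succ m ih =>
    intro r s hr hs h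
    simp only [pairUp] at h
    split_ifs at h with hc
    · simp only [Bool.and_eq_true, decide_eq_true_eq] at hc
      exact (G.U_pgroup p).to_le (sup_le (hpos r hr hc.1) (hpos s hs hc.2))
    · split at h
      · rename_i i hi
        have hi2 : i < D.rank := List.mem_range.mp (List.mem_of_find?_eq_some hi)
        have h2 := ih _ _ (G.W_lt hi2 hr) (G.W_lt hi2 hs) h
        have e : D.rootSubgroup F (G.W i r) ⊔ D.rootSubgroup F (G.W i s) =
            cjS (G.nG ⟨i, hi2⟩) (D.rootSubgroup F r ⊔ D.rootSubgroup F s) := by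
          rw [cjS_sup, G.nG_conj_X ⟨i, hi2⟩ hr, G.nG_conj_X ⟨i, hi2⟩ hs]
        apply pgroup_of_le_conj h2 (G.nG ⟨i, hi2⟩)⁻¹
        rw [e, cjS_inv_cjS]
      · exact Bool.noConfusion h

/-- Two conjugates of a root subgroup centralised by `U`. -/
theorem pair_or_opp {r : ℕ} {p : ℕ} (hr : r < D.nroots)
    (hc : ∀ v ∈ D.posUnipotent F, ∀ c : F, v * G.xg hr c = G.xg hr c * v)
    (hp : ∀ s, s < D.nroots → s ≠ D.neg r → IsPGroup p ↥(D.rootSubgroup F r ⊔ D.rootSubgroup F s))
    {g : GL D.Idx F} (hg : g ∈ D.group F) :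
    IsPGroup p ↥(D.rootSubgroup F r ⊔ cjS g (D.rootSubgroup F r)) ∨
      ∃ h ∈ D.group F, cjS h (D.rootSubgroup F r ⊔ cjS g (D.rootSubgroup F r)) =
        D.rootSubgroup F r ⊔ D.rootSubgroup F (D.neg r) := by
  obtain ⟨v, hv, s, hs, e⟩ := G.high_conj hr hc hg
  have e2 : D.rootSubgroup F r ⊔ cjS g (D.rootSubgroup F r) =
      cjS v (D.rootSubgroup F r ⊔ D.rootSubgroup F s) := by
    rw [cjS_sup, G.cen_conj_X hr hc hv, e]
  rw [e2]
  by_cases hsn : s = D.neg r
  · right
    refine ⟨v⁻¹, Subgroup.inv_mem _ (G.B_le_group (G.U_le_B hv)), ?_⟩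
    rw [cjS_inv_cjS, hsn]
  · left
    have := hp s hs hsn
    exact this.map _

/-- A root whose commutators with the positive roots are trivial. -/
theorem cen_of_terms {r : ℕ} (hr : r < D.nroots) (hN : NN D ≤ r)
    (h : ∀ s, s < D.nroots → NN D ≤ s → s ≠ r → D.commTerms r s = []) :
    ∀ v ∈ D.posUnipotent F, ∀ c : F, v * G.xg hr c = G.xg hr c * v := by
  intro v hv c
  refine G.rG_induction (P := D.IsPosRoot) (fun r h => h.1)
    (Q := fun v => v * G.xg hr c = G.xg hr c * v) (by simp) ?_ ?_ v hv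
  · intro a b ha hb
    rw [mul_assoc, hb, ← mul_assoc, ha, mul_assoc]
  · intro s hs t hp
    by_cases hsr : s = r
    · subst hsr
      rw [G.xg_mul, G.xg_mul, add_comm]
    · have hsN : NN D ≤ s := (G.pos_iff hs).mp hp
      have hneg : s ≠ D.neg r := by
        rw [G.neg_eq hr]
        have := G.NN_add
        omega
      have h1 := G.Phi_all (F := F) hr hs hsr hneg c t
      have h2 : D.commWord F r s c t = [] := by
        unfold ChevalleyDatum.commWord
        rw [h s hs hsN hsr]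
        rfl
      rw [h2] at h1
      apply Units.ext
      simpa [ChevalleyDatum.wordMat] using h1

end Good2

end Cfsg.Agent.Lib.Chev
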