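import Cfsg.Agent.Lib.Chev.Sub.High
import Cfsg.Agent.Lib.Chev.TorusCard
import Cfsg.Agent.Lib.Chev.Sub.GenPM

/-! Centralisers of root elements of a dominant root. -/

set_option autoImplicit false
set_option linter.unusedSimpArgs false
set_option linter.unusedVariables false
set_option linter.unusedSectionVars false

namespace Cfsg.Agent.Lib.Chev

open Cfsg Cfsg.Lie Matrix Cfsg.Agent.Lib.BN

variable {D : ChevalleyDatum} {F : Type*} [Field F]

namespace Good2

variable (G : Good2 D)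
include G

/-- A non-trivial element of a positive root subgroup determines the root. -/
theorem x_root_eq {r s : ℕ} (hr : r < D.nroots) (hN : NN D ≤ r) (hs : s < D.nroots) {c d : F} (hc : c ≠ 0) (hd : d ≠ 0)
    (e : G.xg hr c = G.xg hs d) : s = r := by
  by_contra hne
  by_cases hsN : s < NN D
  · apply hd
    apply G.x_neg_mem_B hs hsN
    rw [← e]
    exact G.U_le_B (G.xg_mem hr ((G.pos_iff hr).mpr hN) c)
  · rcases lt_or_gt_of_ne hne with h | h
    · apply hd
      apply G.xg_mem_Ut_eq hs (by omega)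
      rw [← e]
      exact G.xg_mem hr ⟨by omega, hr⟩ c
    · apply hc
      apply G.xg_mem_Ut_eq hr hN
      rw [e]
      exact G.xg_mem hs ⟨by omega, hs⟩ d

/-- Commuting root elements when the commutator terms vanish in the field. -/
theorem comm_of_even {r s : ℕ} (hr : r < D.nroots) (hs : s < D.nroots) (h1 : s ≠ r) (h2 : s ≠ D.neg r)
    (h : ∀ e ∈ D.commTerms r s, ((e.2.1 : ℤ) : F) = 0) (c d : F) :
    G.xg hs d * G.xg hr c = G.xg hr c * G.xg hs d := by
  have hP := G.Phi_all (F := F) hr hs h1 h2 c d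
  have e0 : D.wordMat F (D.commWord F r s c d) = 1 := by
    unfold ChevalleyDatum.commWord ChevalleyDatum.wordMat
    apply List.prod_eq_one
    intro x hx
    obtain ⟨y, hy, rfl⟩ := List.mem_map.mp hx
    obtain ⟨e, he, rfl⟩ := List.mem_map.mp hy
    simp only
    rw [h e he]
    simp only [zero_mul]
    exact G.x_zero (G.commTerms_lt hr hs _ he)
  rw [e0, mul_one] at hP
  exact Units.ext hP

theorem word_mem_K {K : Subgroup (GL D.Idx F)} (w : List (ℕ × F))
    (h : ∀ a ∈ w, ∃ ha : a.1 < D.nroots, G.xg ha a.2 ∈ K) :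
    ∃ y ∈ K, (y : Matrix D.Idx D.Idx F) = D.wordMat F w := by
  induction w with
  | nil => exact ⟨1, Subgroup.one_mem _, by simp [ChevalleyDatum.wordMat]⟩
  | cons a w ih =>
    obtain ⟨y, hy, e⟩ := ih (fun b hb => h b (List.mem_cons_of_mem _ hb))
    obtain ⟨ha, h2⟩ := h a List.mem_cons_self
    refine ⟨G.xg ha a.2 * y, Subgroup.mul_mem _ h2 hy, ?_⟩
    rw [Units.val_mul, e, Good0.xg_val]
    simp [ChevalleyDatum.wordMat]

theorem hWord_one {r : ℕ} (hr : r < D.nroots) : D.wordMat F (D.hWord r (1 : F)) = 1 := by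
  have h1 : ((G.nrU hr (1 : F) * (G.nrU hr (1 : F))⁻¹ : GL D.Idx F) : Matrix D.Idx D.Idx F) = 1 := by
    rw [mul_inv_cancel]; rfl
  rw [G.nrU_inv, Units.val_mul, nrU_val, nrU_val] at h1
  unfold ChevalleyDatum.hWord
  rw [wordMat_append]
  exact h1

theorem hWords_mem {K : Subgroup (GL D.Idx F)} (c : ℕ → F) {i₀ : ℕ} (hc0 : c i₀ = 1)
    (h1 : ∀ (i : ℕ) (hi : i < D.rank), ∀ t : F, G.xg (G.simple_lt hi) t ∈ K)
    (h2 : ∀ (i : ℕ) (hi : i < D.rank), i ≠ i₀ → ∀ t : F, G.xg (G.neg_lt (G.simple_lt hi)) t ∈ K)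
    (L : List ℕ) (hL : ∀ i ∈ L, i < D.rank) :
    ∃ y ∈ K, (y : Matrix D.Idx D.Idx F) = D.wordMat F (L.flatMap fun i => D.hWord (D.simple i) (c i)) := by
  induction L with
  | nil => exact ⟨1, Subgroup.one_mem _, by simp [ChevalleyDatum.wordMat]⟩
  | cons i L ih =>
    obtain ⟨y, hy, e⟩ := ih (fun j hj => hL j (List.mem_cons_of_mem _ hj))
    have hi := hL i List.mem_cons_self
    have hp := G.simple_lt hi
    rw [List.flatMap_cons, wordMat_append, ← e]
    by_cases h0 : i = i₀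
    · subst h0
      rw [hc0, G.hWord_one hp, one_mul]
      exact ⟨y, hy, rfl⟩
    · obtain ⟨z, hz, e2⟩ := G.word_mem_K (K := K) (D.hWord (D.simple i) (c i)) (by
        intro a ha
        simp only [ChevalleyDatum.hWord, ChevalleyDatum.nWord, List.cons_append, List.nil_append, List.mem_cons,
          List.not_mem_nil, or_false] at ha
        rcases ha with rfl | rfl | rfl | rfl | rfl | rfl
        · exact ⟨hp, h1 i hi _⟩
        · exact ⟨G.neg_lt hp, h2 i hi h0 _⟩
        · exact ⟨hp, h1 i hi _⟩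
        · exact ⟨hp, h1 i hi _⟩
        · exact ⟨G.neg_lt hp, h2 i hi h0 _⟩
        · exact ⟨hp, h1 i hi _⟩)
      exact ⟨z * y, Subgroup.mul_mem _ hz hy, by rw [Units.val_mul, e2]⟩

theorem chiL_single (c : ℕ → F) {r i₀ : ℕ} (hi₀ : i₀ < D.rank)
    (hcar : ∀ i, i < D.rank → D.cartan i r = if i = i₀ then 1 else 0) :
    chiL D (List.range D.rank) c r = c i₀ := by
  unfold chiL
  rw [list_range_prod, Finset.prod_eq_single (⟨i₀, hi₀⟩ : Fin D.rank)]
  · simp [hcar i₀ hi₀]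
  · intro b _ hb
    have h1 : b.val ≠ i₀ := fun h => hb (Fin.ext h)
    simp [hcar b.val b.isLt, h1]
  · simp

omit G in
theorem mem_normalizer_of_cjS {g : GL D.Idx F} {K : Subgroup (GL D.Idx F)} (h : cjS g K = K) :
    g ∈ Subgroup.normalizer (K : Set (GL D.Idx F)) := by
  rw [Subgroup.mem_normalizer_iff]
  intro x
  constructor
  · intro hx
    rw [← h]
    exact conj_mem_cjS hx
  · intro hx
    rw [← h] at hx
    have := mem_cjS.mp hx
    convert this using 1
    group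

omit G in
theorem cjS_of_normalizer {g : GL D.Idx F} {K : Subgroup (GL D.Idx F)}
    (h : g ∈ Subgroup.normalizer (K : Set (GL D.Idx F))) : cjS g K = K := by
  rw [Subgroup.mem_normalizer_iff] at h
  ext y
  rw [mem_cjS]
  constructor
  · intro hy
    have := (h _).mp hy
    convert this using 1
    group
  · intro hy
    apply (h _).mpr
    convert hy using 1
    group

/-- The centraliser of a root element of a dominant root. -/
theorem centralizer_of_dom {r i₀ : ℕ} (hr : r < D.nroots) (hN : NN D ≤ r) (L : Subgroup (GL D.Idx F))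
    (hc : ∀ v ∈ D.posUnipotent F, ∀ c : F, v * G.xg hr c = G.xg hr c * v)
    (hLG : L ≤ D.group F)
    (hLc : ∀ v ∈ L, ∀ c : F, v * G.xg hr c = G.xg hr c * v)
    (hJ1 : ∀ (i : ℕ) (hi : i < D.rank), G.W i r = r → i ≠ i₀ ∧ ∀ c : F, G.xg (G.neg_lt (G.simple_lt hi)) c ∈ L)
    (hJ2 : ∀ (i : ℕ) (hi : i < D.rank), i ≠ i₀ → ∀ c : F, G.xg (G.neg_lt (G.simple_lt hi)) c ∈ L)
    (hcar : ∀ i, i < D.rank → D.cartan i r = if i = i₀ then 1 else 0) (hi₀ : i₀ < D.rank)
    {t : GL D.Idx F} (ht : t = G.xg hr 1) :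
    D.group F ⊓ Subgroup.centralizer {t} = D.posUnipotent F ⊔ L := by
  subst ht
  set K := D.posUnipotent F ⊔ L with hKdef
  have hUK : D.posUnipotent F ≤ K := le_sup_left
  have hLK : L ≤ K := le_sup_right
  have hKG : K ≤ D.group F := sup_le (fun x hx => G.B_le_group (G.U_le_B hx)) hLG
  have hKc : ∀ v ∈ K, ∀ c : F, v * G.xg hr c = G.xg hr c * v := by
    have hle : K ≤ Subgroup.centralizer (Set.range (G.xg (F := F) hr)) := by
      apply sup_le
      · intro v hv
        rw [Subgroup.mem_centralizer_iff]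
        rintro _ ⟨c, rfl⟩
        exact (hc v hv c).symm
      · intro v hv
        rw [Subgroup.mem_centralizer_iff]
        rintro _ ⟨c, rfl⟩
        exact (hLc v hv c).symm
    intro v hv c
    exact ((Subgroup.mem_centralizer_iff.mp (hle hv)) _ ⟨c, rfl⟩).symm
  apply le_antisymm
  · rintro g ⟨hg, hgc⟩
    have hcomm : G.xg hr 1 * g = g * G.xg hr (1 : F) := Subgroup.mem_centralizer_iff.mp hgc _ rfl
    -- Step A: `g` normalises the root subgroup
    obtain ⟨v, hv, s, hs, e⟩ := G.high_conj hr hc hg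
    have h1 : G.xg hr (1 : F) ∈ cjS g (D.rootSubgroup F r) := by
      have h2 := conj_mem_cjS (g := g) (G.X_mem hr (1 : F))
      rwa [← hcomm, mul_inv_cancel_right] at h2
    rw [e] at h1
    have h2 := mem_cjS.mp h1
    have h3 : v⁻¹ * G.xg hr 1 * v = G.xg hr (1 : F) := by
      rw [mul_assoc, ← hc v hv, inv_mul_cancel_left]
    rw [h3] at h2
    obtain ⟨d, hd⟩ := G.X_form hs h2
    have hd0 : d ≠ 0 := by
      rintro rfl
      rw [G.xg_zero] at hd
      exact one_ne_zero (G.xg_eq_one hr hd)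
    have hsr : s = r := G.x_root_eq hr hN hs one_ne_zero hd0 hd
    subst hsr
    have hgX : cjS g (D.rootSubgroup F s) = D.rootSubgroup F s := by
      rw [e, G.cen_conj_X hr hc hv]
    -- Step B: the parabolic subgroup
    let M : Subgroup ↥(D.group F) := (Subgroup.normalizer (D.rootSubgroup F s : Set (GL D.Idx F))).subgroupOf (D.group F)
    have hBX : ∀ b ∈ D.borelSubgroup F, cjS b (D.rootSubgroup F s) = D.rootSubgroup F s := by
      intro b hb
      obtain ⟨u, hu, k, hk, rfl⟩ := G.B_form.mp hb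
      rw [cjS_mul, G.H_conj_X hk hr, G.cen_conj_X hr hc hu]
    have hB : (G.bnPair F).B ≤ M := by
      rintro ⟨b, hb⟩ hb'
      exact mem_normalizer_of_cjS (hBX b hb')
    have hgM : (⟨g, hg⟩ : ↥(D.group F)) ∈ M := mem_normalizer_of_cjS hgX
    rw [eq_parabolic M hB] at hgM
    obtain ⟨n, hn, b₁, h₁, b₂, h₂, e1⟩ := (mem_parabolic_iff (P := G.bnPair F)
      (J := (G.bnPair F).S ∩ M) (Set.inter_subset_left) _).mp hgM
    have e2 : g = (b₁ : GL D.Idx F) * n * b₂ := congrArg Subtype.val e1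
    -- the element `n`
    have hnK : (n : GL D.Idx F) ∈ K ∧ (n : GL D.Idx F) ∈ G.N0 F := by
      refine Subgroup.closure_induction (p := fun (x : ↥(D.group F)) _ => (x : GL D.Idx F) ∈ K ∧ (x : GL D.Idx F) ∈ G.N0 F)
        ?_ ?_ ?_ ?_ hn
      · rintro ⟨x, hx⟩ ⟨⟨i, hi, hsv⟩, hsN⟩
        have es : x = G.nG ⟨i, hi⟩ := G.S_form hi hsv
        subst es
        have hsn : G.nG ⟨i, hi⟩ ∈ Subgroup.normalizer (D.rootSubgroup F s : Set (GL D.Idx F)) := hsN
        have h4 := cjS_of_normalizer hsn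
        rw [G.nG_conj_X ⟨i, hi⟩ hr] at h4
        have h5 : G.xg (G.W_lt hi hr) (1 : F) ∈ D.rootSubgroup F s := by
          rw [← h4]
          exact G.X_mem _ _
        obtain ⟨d', hd'⟩ := G.X_form hr h5
        have hd0' : d' ≠ 0 := by
          rintro rfl
          rw [G.xg_zero] at hd'
          exact one_ne_zero (G.xg_eq_one _ hd')
        have hWr : G.W i s = s := (G.x_root_eq hr hN (G.W_lt hi hr) hd0' one_ne_zero hd'.symm)
        obtain ⟨h6, h7⟩ := hJ1 i hi hWr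
        refine ⟨?_, G.nG_mem_N0 _⟩
        show G.nG ⟨i, hi⟩ ∈ K
        rw [G.nG_eq_xg]
        have hup := fun t : F => hUK (G.xg_mem (G.simple_lt hi) ((G.pos_iff (G.simple_lt hi)).mpr (G.simple_pos hi)) t)
        exact Subgroup.mul_mem _ (Subgroup.mul_mem _ (hup _) (hLK (h7 _))) (hup _)
      · exact ⟨Subgroup.one_mem _, Subgroup.one_mem _⟩
      · intro a b _ _ ha hb
        exact ⟨Subgroup.mul_mem _ ha.1 hb.1, Subgroup.mul_mem _ ha.2 hb.2⟩
      · intro a _ ha
        exact ⟨Subgroup.inv_mem _ ha.1, Subgroup.inv_mem _ ha.2⟩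
    obtain ⟨hnK1, hnN⟩ := hnK
    -- Step C
    have hb1 : (b₁ : GL D.Idx F) ∈ D.borelSubgroup F := h₁
    have hb2 : (b₂ : GL D.Idx F) ∈ D.borelSubgroup F := h₂
    obtain ⟨v₁, hv₁, k₁, hk₁, eb1⟩ := G.B_form.mp hb1
    obtain ⟨v₂, hv₂, k₂, hk₂, eb2⟩ := G.B_form.mp (Subgroup.inv_mem _ hb2)
    have eb2' : (b₂ : GL D.Idx F) = k₂⁻¹ * v₂⁻¹ := by
      have : (b₂ : GL D.Idx F) = ((b₂ : GL D.Idx F)⁻¹)⁻¹ := (inv_inv _).symm
      rw [this, eb2, _root_.mul_inv_rev]
    set k' : GL D.Idx F := ((n : GL D.Idx F)⁻¹ * k₁ * n) * k₂⁻¹ with hk'def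
    have hk' : k' ∈ D.diagonalSubgroup F := by
      apply Subgroup.mul_mem _ _ (Subgroup.inv_mem _ hk₂)
      have := G.N0_conj_H (Subgroup.inv_mem _ hnN) hk₁
      simpa using this
    have e3 : g = v₁ * n * k' * v₂⁻¹ := by
      rw [e2, eb1, eb2', hk'def]
      group
    have hcK : ∀ x ∈ K, x * G.xg hr 1 = G.xg hr (1 : F) * x := fun x hx => hKc x hx 1
    -- `k'` centralises the root element
    have hk'c : k' * G.xg hr 1 = G.xg hr (1 : F) * k' := by
      have e4 : k' = (n : GL D.Idx F)⁻¹ * v₁⁻¹ * g * v₂ := by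
        rw [e3]; group
      have c1 := hcK _ (Subgroup.inv_mem _ hnK1)
      have c2 := hcK _ (Subgroup.inv_mem _ (hUK hv₁))
      have c3 := hcK _ (hUK hv₂)
      rw [e4]
      calc (n : GL D.Idx F)⁻¹ * v₁⁻¹ * g * v₂ * G.xg hr 1
          = (n : GL D.Idx F)⁻¹ * v₁⁻¹ * g * (v₂ * G.xg hr 1) := by group
        _ = (n : GL D.Idx F)⁻¹ * v₁⁻¹ * (g * G.xg hr 1) * v₂ := by rw [c3]; group
        _ = (n : GL D.Idx F)⁻¹ * (v₁⁻¹ * G.xg hr 1) * g * v₂ := by rw [← hcomm]; group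
        _ = ((n : GL D.Idx F)⁻¹ * G.xg hr 1) * v₁⁻¹ * g * v₂ := by rw [c2]; group
        _ = G.xg hr 1 * ((n : GL D.Idx F)⁻¹ * v₁⁻¹ * g * v₂) := by rw [c1]; group
    -- Step D
    obtain ⟨c, hc0, ek⟩ := G.H_gen hk'
    have hchi := G.chiL_isChi (List.range D.rank) (fun i hi => List.mem_range.mp hi) c (fun i _ => hc0 i)
    have h6 := G.dgM_mul_x hchi hr (1 : F)
    rw [← ek] at h6
    have h7 : k' * G.xg hr (1 : F) = G.xg hr (chiL D (List.range D.rank) c s * 1) * k' := Units.ext h6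
    rw [hk'c, mul_one] at h7
    have h8 := mul_right_cancel h7
    have h9 : chiL D (List.range D.rank) c s = 1 := by
      have : G.xg hr (chiL D (List.range D.rank) c s - 1) = 1 := by
        rw [sub_eq_add_neg, ← G.xg_mul, ← h8, ← G.xg_inv, mul_inv_cancel]
      exact sub_eq_zero.mp (G.xg_eq_one hr this)
    rw [G.chiL_single c hi₀ hcar] at h9
    -- Step E
    obtain ⟨y, hy, ey⟩ := G.hWords_mem (K := K) c h9
      (fun i hi t => hUK (G.xg_mem (G.simple_lt hi) ((G.pos_iff (G.simple_lt hi)).mpr (G.simple_pos hi)) t))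
      (fun i hi h0 t => hLK (hJ2 i hi h0 t)) (List.range D.rank) (fun i hi => List.mem_range.mp hi)
    have hyk : y = k' := by
      apply Units.ext
      rw [ey, ek, G.word_hWords _ (fun i hi => List.mem_range.mp hi) c (fun i _ => hc0 i)]
    rw [hyk] at hy
    rw [e3]
    exact Subgroup.mul_mem _ (Subgroup.mul_mem _ (Subgroup.mul_mem _ (hUK hv₁) hnK1) hy)
      (Subgroup.inv_mem _ (hUK hv₂))
  · intro g hg
    refine ⟨hKG hg, Subgroup.mem_centralizer_iff.mpr ?_⟩
    rintro _ rfl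
    exact (hKc g hg 1).symm

/-- The centraliser in terms of a list of root subgroups, in characteristic two. -/
theorem centralizer_list [CharP F 2] {r i₀ : ℕ} (hr : r < D.nroots) (hN : NN D ≤ r) (l : List ℕ)
    (hl : ∀ s ∈ l, s < D.nroots ∧ s ≠ r ∧ s ≠ D.neg r ∧ ∀ e ∈ D.commTerms r s, (2 : ℤ) ∣ e.2.1)
    (hpos : ∀ s, s < D.nroots → NN D ≤ s → s ≠ r → ∀ e ∈ D.commTerms r s, (2 : ℤ) ∣ e.2.1)
    (hJ1 : ∀ i, i < D.rank → G.W i r = r → i ≠ i₀)
    (hJ2 : ∀ i, i < D.rank → i ≠ i₀ → D.neg (D.simple i) ∈ l)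
    (hcar : ∀ i, i < D.rank → D.cartan i r = if i = i₀ then 1 else 0) (hi₀ : i₀ < D.rank)
    {t : GL D.Idx F} (ht : (t : Matrix D.Idx D.Idx F) = D.x F r 1) :
    D.group F ⊓ Subgroup.centralizer {t} = D.posUnipotent F ⊔
      Subgroup.closure {g : GL D.Idx F | ∃ s ∈ l, ∃ c : F, (g : Matrix D.Idx D.Idx F) = D.x F s c} := by
  have h2F : ∀ z : ℤ, (2 : ℤ) ∣ z → ((z : ℤ) : F) = 0 := fun z hz =>
    (CharP.intCast_eq_zero_iff F 2 z).mpr (by exact_mod_cast hz)
  have hcomm : ∀ s (hs : s < D.nroots), s ≠ r → s ≠ D.neg r → (∀ e ∈ D.commTerms r s, (2 : ℤ) ∣ e.2.1) →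
      ∀ c d : F, G.xg hs d * G.xg hr c = G.xg hr c * G.xg hs d := fun s hs h1 h2 h3 c d =>
    G.comm_of_even hr hs h1 h2 (fun e he => h2F _ (h3 e he)) c d
  refine G.centralizer_of_dom (i₀ := i₀) hr hN _ ?_ ?_ ?_ ?_ ?_ hcar hi₀ (Units.ext (by rw [ht]; rfl))
  · -- `U` commutes
    intro v hv c
    refine G.rG_induction (P := D.IsPosRoot) (fun r h => h.1)
      (Q := fun v => v * G.xg hr c = G.xg hr c * v) (by simp) ?_ ?_ v hv
    · intro a b ha hb
      rw [mul_assoc, hb, ← mul_assoc, ha, mul_assoc]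
    · intro s hs d hp
      by_cases hsr : s = r
      · subst hsr
        rw [G.xg_mul, G.xg_mul, add_comm]
      · have hsN : NN D ≤ s := (G.pos_iff hs).mp hp
        refine hcomm s hs hsr ?_ (hpos s hs hsN hsr) c d
        rw [G.neg_eq hr]
        have := G.NN_add
        omega
  · apply (Subgroup.closure_le _).mpr
    rintro g ⟨s, hs, c, e⟩
    have hs' := (hl s hs).1
    rw [G.gen_eq hs' e]
    exact G.xg_mem_grp hs' c
  · intro v hv c
    refine Subgroup.closure_induction (p := fun v _ => v * G.xg hr c = G.xg hr c * v) ?_ (by simp) ?_ ?_ hv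
    · rintro g ⟨s, hs, d, e⟩
      obtain ⟨h1, h2, h3, h4⟩ := hl s hs
      rw [G.gen_eq h1 e]
      exact hcomm s h1 h2 h3 h4 c d
    · intro a b _ _ ha hb
      rw [mul_assoc, hb, ← mul_assoc, ha, mul_assoc]
    · intro a _ ha
      rw [inv_mul_eq_iff_eq_mul, ← mul_assoc, ha, mul_assoc, mul_inv_cancel, mul_one]
  · intro i hi hW
    refine ⟨hJ1 i hi hW, fun c => ?_⟩
    exact Subgroup.subset_closure ⟨_, hJ2 i hi (hJ1 i hi hW), c, rfl⟩
  · intro i hi h0 c
    exact Subgroup.subset_closure ⟨_, hJ2 i hi h0, c, rfl⟩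

end Good2

/-- The subgroup generated by the root subgroups of a list of roots. -/
theorem closure_list_cons (a : ℕ) (l : List ℕ) :
    Subgroup.closure {g : GL D.Idx F | ∃ s ∈ a :: l, ∃ c : F, (g : Matrix D.Idx D.Idx F) = D.x F s c} =
      D.rootSubgroup F a ⊔ Subgroup.closure {g : GL D.Idx F | ∃ s ∈ l, ∃ c : F, (g : Matrix D.Idx D.Idx F) = D.x F s c} := by
  unfold ChevalleyDatum.rootSubgroup
  rw [← Subgroup.closure_union]
  congr 1
  ext g
  simp only [List.mem_cons, Set.mem_ofPred_eq, Set.mem_union]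
  constructor
  · rintro ⟨s, rfl | hs, c, e⟩
    · exact Or.inl ⟨c, e⟩
    · exact Or.inr ⟨s, hs, c, e⟩
  · rintro (⟨c, e⟩ | ⟨s, hs, c, e⟩)
    · exact ⟨a, Or.inl rfl, c, e⟩
    · exact ⟨s, Or.inr hs, c, e⟩

theorem closure_list_nil :
    Subgroup.closure {g : GL D.Idx F | ∃ s ∈ ([] : List ℕ), ∃ c : F, (g : Matrix D.Idx D.Idx F) = D.x F s c} = ⊥ := by
  simp

end Cfsg.Agent.Lib.Chev
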