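import Cfsg.Agent.Lib.Chev.Sub.GenPM

/-! Weakly closed subgroups of `U`: splitting an `H`-invariant normal subgroup of `U` into root subgroups,
and the identification with a unipotent radical. -/

set_option autoImplicit false
set_option linter.unusedSimpArgs false
set_option linter.unusedVariables false
set_option linter.unusedSectionVars false

namespace Cfsg.Agent.Lib.Chev

open Cfsg Cfsg.Lie Matrix

variable {D : ChevalleyDatum} {F : Type*} [Field F]

/-- Strictly ascending lists of root indices. -/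
def ascB (n : ℕ) : ℕ → List ℕ → Bool
  | _, [] => true
  | lo, a :: l => Nat.ble lo a && Nat.blt a n && ascB n (a + 1) l

theorem ascB_mem {n : ℕ} : ∀ (l : List ℕ) (lo : ℕ), ascB n lo l = true → ∀ a ∈ l, lo ≤ a ∧ a < n := by
  intro l
  induction l with
  | nil => simp
  | cons x l ih =>
    intro lo h a ha
    simp only [ascB, Bool.and_eq_true] at h
    obtain ⟨⟨h1, h2⟩, h3⟩ := h
    have h1' : lo ≤ x := Nat.le_of_ble_eq_true h1
    have h2' : x < n := Nat.le_of_ble_eq_true h2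
    rcases List.mem_cons.1 ha with rfl | ha
    · exact ⟨h1', h2'⟩
    · have := ih _ h3 a ha
      exact ⟨by omega, this.2⟩

/-- `Y` is a subgroup of `U` normalized by `U` and `H`. -/
structure WHyp (D : ChevalleyDatum) (F : Type*) [Field F] (Y : Subgroup (GL D.Idx F)) : Prop where
  le : Y ≤ D.posUnipotent F
  nU : ∀ u ∈ D.posUnipotent F, ∀ y ∈ Y, u * y * u⁻¹ ∈ Y
  nH : ∀ h ∈ D.diagonalSubgroup F, ∀ y ∈ Y, h * y * h⁻¹ ∈ Y

namespace Good2

variable (G : Good2 D)
include G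

theorem Ut_conj_U {m : ℕ} (hm : NN D ≤ m) {u g : GL D.Idx F} (hu : u ∈ D.posUnipotent F) (hg : g ∈ Ut D F m) :
    u * g * u⁻¹ ∈ Ut D F m := by
  refine G.rG_induction (P := D.IsPosRoot) (fun r h => h.1)
    (Q := fun u => ∀ g, g ∈ Ut D F m → u * g * u⁻¹ ∈ Ut D F m) ?_ ?_ ?_ u hu g hg
  · intro g hg
    simpa using hg
  · intro a b ha hb g hg
    have := ha _ (hb g hg)
    simpa [mul_assoc] using this
  · intro r hr t hP g hg
    by_cases hrm : r < m
    · have := G.conj_mem_Ut hr ((G.pos_iff hr).1 hP) hrm (-t) hg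
      rw [neg_neg] at this
      rw [G.xg_inv]
      exact this
    · push Not at hrm
      have hx : G.xg hr t ∈ Ut D F m := G.xg_mem hr ⟨hrm, hr⟩ t
      exact (Ut D F m).mul_mem ((Ut D F m).mul_mem hx hg) ((Ut D F m).inv_mem hx)

theorem Ut_top (z : GL D.Idx F) (hz : z ∈ Ut D F D.nroots) : z = 1 := by
  have : Ut D F D.nroots = ⊥ := by
    rw [eq_bot_iff]
    apply G.rG_le
    · intro r hr
      exact hr.2
    · intro r hr t hP
      omega
  rw [this] at hz
  exact Subgroup.mem_bot.1 hz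

/-- An element of `H` scales the root group of `k` non-trivially, and centralizes that of `m`. -/
def Sep (G : Good2 D) (F : Type*) [Field F] (k m : ℕ) : Prop :=
  ∃ h ∈ D.diagonalSubgroup F, ∃ c : F, c ≠ 1 ∧
    (∀ (hk : k < D.nroots) (t : F), h * G.xg hk t * h⁻¹ = G.xg hk (c * t)) ∧
    (∀ (hm : m < D.nroots) (t : F), h * G.xg hm t * h⁻¹ = G.xg hm t)

theorem lead_step {Y : Subgroup (GL D.Idx F)} (hY : WHyp D F Y) {k m : ℕ} (hk : k < D.nroots) (hkN : NN D ≤ k)
    (hkm : k < m) (hm : m < D.nroots) (hs : G.Sep F k m ∨ XIn D G Y m)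
    (h : ∃ t : F, t ≠ 0 ∧ ∃ z ∈ Ut D F m, G.xg hk t * z ∈ Y) :
    ∃ t : F, t ≠ 0 ∧ ∃ z ∈ Ut D F (m + 1), G.xg hk t * z ∈ Y := by
  obtain ⟨t, ht, z, hz, hy⟩ := h
  have hmN : NN D ≤ m := hkN.trans hkm.le
  obtain ⟨c, z', hz', rfl⟩ := G.Ut_decomp hm hmN hz
  have hUU : ∀ {g : GL D.Idx F}, g ∈ Ut D F (m + 1) → g ∈ D.posUnipotent F := fun hg =>
    G.Ut_le_pos (m + 1) (by omega) hg
  rcases hs with ⟨h, hh, l, hl, h1, h2⟩ | hX
  · have hz'' : h * z' * h⁻¹ ∈ Ut D F (m + 1) := G.H_conj_rG (fun r hr => hr.2) hh hz'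
    have hcj : h * (G.xg hk t * (G.xg hm c * z')) * h⁻¹ =
        G.xg hk (l * t) * (G.xg hm c * (h * z' * h⁻¹)) := by
      calc h * (G.xg hk t * (G.xg hm c * z')) * h⁻¹
          = (h * G.xg hk t * h⁻¹) * ((h * G.xg hm c * h⁻¹) * (h * z' * h⁻¹)) := by group
        _ = _ := by rw [h1 hk t, h2 hm c]
    refine ⟨(l - 1) * t, mul_ne_zero (sub_ne_zero.2 hl) ht, ?_⟩
    set s : F := (l - 1) * t with hs
    obtain ⟨g, hg, hcomm⟩ := G.xg_comm (P := fun r => m + 1 ≤ r ∧ r < D.nroots) hk hm (by omega)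
      (by have := (G.neg_pos hk).1 hkN; omega)
      (fun c hc => by
        have h3 := G.comm_up hk hm hkN hmN (by omega) hc
        exact ⟨h3.2, G.commTerms_lt hk hm c hc⟩) s (-c)
    have hg1 : G.xg hm (-c) * g * G.xg hm c ∈ Ut D F (m + 1) := G.conj_mem_Ut hm hmN (by omega) c hg
    have hg2 : G.xg hk (-s) * z'⁻¹ * G.xg hk s ∈ Ut D F (m + 1) :=
      G.conj_mem_Ut hk hkN (by omega) s ((Ut D F (m + 1)).inv_mem hz')
    refine ⟨(G.xg hk (-s) * z'⁻¹ * G.xg hk s) * (G.xg hm (-c) * g * G.xg hm c) * (h * z' * h⁻¹),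
      (Ut D F (m + 1)).mul_mem ((Ut D F (m + 1)).mul_mem hg2 hg1) hz'', ?_⟩
    have hy2 : h * (G.xg hk t * (G.xg hm c * z')) * h⁻¹ ∈ Y := hY.nH h hh _ hy
    have hy3 := Y.mul_mem (Y.inv_mem hy) hy2
    rw [hcj] at hy3
    have e : (G.xg hk t * (G.xg hm c * z'))⁻¹ * (G.xg hk (l * t) * (G.xg hm c * (h * z' * h⁻¹))) =
        G.xg hk s * ((G.xg hk (-s) * z'⁻¹ * G.xg hk s) * (G.xg hm (-c) * g * G.xg hm c) * (h * z' * h⁻¹)) := by
      have e1 : (G.xg hk t)⁻¹ * G.xg hk (l * t) = G.xg hk s := by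
        rw [G.xg_inv, G.xg_mul, hs]
        congr 1
        ring
      have e2 : (G.xg hm c)⁻¹ = G.xg hm (-c) := G.xg_inv hm c
      have e3 : G.xg hk (-s) = (G.xg hk s)⁻¹ := (G.xg_inv hk s).symm
      have e4 : G.xg hm c = (G.xg hm (-c))⁻¹ := by rw [G.xg_inv, neg_neg]
      calc (G.xg hk t * (G.xg hm c * z'))⁻¹ * (G.xg hk (l * t) * (G.xg hm c * (h * z' * h⁻¹)))
          = z'⁻¹ * ((G.xg hm c)⁻¹ * ((G.xg hk t)⁻¹ * G.xg hk (l * t)) * G.xg hm c) * (h * z' * h⁻¹) := by group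
        _ = z'⁻¹ * (G.xg hm (-c) * G.xg hk s * G.xg hm c) * (h * z' * h⁻¹) := by rw [e1, e2]
        _ = z'⁻¹ * (G.xg hk s * G.xg hm (-c) * g * G.xg hm c) * (h * z' * h⁻¹) := by rw [hcomm]
        _ = _ := by
          rw [e3, e4]
          group
    rwa [e] at hy3
  · refine ⟨t, ht, z', hz', ?_⟩
    have hc : G.xg hm c ∈ Y := hX hm c
    have h3 : z'⁻¹ * (G.xg hm c)⁻¹ * z' ∈ Y := by
      have := hY.nU z'⁻¹ (D.posUnipotent F |>.inv_mem (hUU hz')) _ (Y.inv_mem hc)
      simpa using this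
    have := Y.mul_mem hy h3
    have e : G.xg hk t * (G.xg hm c * z') * (z'⁻¹ * (G.xg hm c)⁻¹ * z') = G.xg hk t * z' := by group
    rwa [e] at this

theorem lead_to {Y : Subgroup (GL D.Idx F)} (hY : WHyp D F Y) {k : ℕ} (hk : k < D.nroots) (hkN : NN D ≤ k) (m₁ : ℕ)
    (hm₁ : m₁ ≤ D.nroots) (hs : ∀ m, k < m → m < m₁ → G.Sep F k m ∨ XIn D G Y m)
    (h : ∃ t : F, t ≠ 0 ∧ ∃ z ∈ Ut D F (k + 1), G.xg hk t * z ∈ Y) (hkm : k < m₁) :
    ∃ t : F, t ≠ 0 ∧ ∃ z ∈ Ut D F m₁, G.xg hk t * z ∈ Y := by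
  induction m₁, (show k + 1 ≤ m₁ from hkm) using Nat.le_induction with
  | base => exact h
  | succ m hm ih =>
    have ih' := ih (by omega) (fun m' h1 h2 => hs m' h1 (by omega)) (by omega)
    exact G.lead_step hY hk hkN (by omega) (by omega) (hs m (by omega) (by omega)) ih'

/-- Elements of a root group in `Y` give the full root group. -/
def ScaleP (G : Good2 D) (Y : Subgroup (GL D.Idx F)) : Prop :=
  ∀ r (hr : r < D.nroots), NN D ≤ r → ∀ t : F, t ≠ 0 → G.xg hr t ∈ Y → XIn D G Y r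

/-- The leading term of an element of `Y`. -/
def LeadP (G : Good2 D) (Y : Subgroup (GL D.Idx F)) (k : ℕ) : Prop :=
  ∀ (hk : k < D.nroots) (t : F), t ≠ 0 → ∀ z ∈ Ut D F (k + 1), G.xg hk t * z ∈ Y → XIn D G Y k

theorem leadP_of_sep {Y : Subgroup (GL D.Idx F)} (hY : WHyp D F Y) (hsc : G.ScaleP Y) {k : ℕ} (hkN : NN D ≤ k)
    (hs : ∀ m, k < m → m < D.nroots → G.Sep F k m ∨ XIn D G Y m) : G.LeadP Y k := by
  intro hk t ht z hz hy
  obtain ⟨t', ht', z', hz', hy'⟩ := G.lead_to hY hk hkN D.nroots le_rfl hs ⟨t, ht, z, hz, hy⟩ hk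
  rw [G.Ut_top z' hz', mul_one] at hy'
  exact hsc k hk hkN t' ht' hy'

theorem split_Ut {Y : Subgroup (GL D.Idx F)} (hL : ∀ k, NN D ≤ k → k < D.nroots → G.LeadP Y k) :
    ∀ n m, m + n = D.nroots → NN D ≤ m → ∀ y ∈ Y, y ∈ Ut D F m →
      y ∈ rG D F (fun r => m ≤ r ∧ r < D.nroots ∧ XIn D G Y r) := by
  intro n
  induction n with
  | zero =>
    intro m hm hN y _ hy
    have hm' : m = D.nroots := by omega
    subst hm'
    rw [G.Ut_top y hy]
    exact Subgroup.one_mem _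
  | succ n ih =>
    intro m hm hN y hyY hy
    have hmlt : m < D.nroots := by omega
    obtain ⟨t, z, hz, rfl⟩ := G.Ut_decomp hmlt hN hy
    have hmono : rG D F (fun r => m + 1 ≤ r ∧ r < D.nroots ∧ XIn D G Y r) ≤
        rG D F (fun r => m ≤ r ∧ r < D.nroots ∧ XIn D G Y r) :=
      rG_mono (fun r hr => ⟨by omega, hr.2⟩)
    by_cases ht : t = 0
    · subst ht
      rw [G.xg_zero, one_mul] at hyY ⊢
      exact hmono (ih (m + 1) (by omega) (by omega) z hyY hz)
    · have hX := hL m hN hmlt hmlt t ht z hz hyY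
      have hx := hX hmlt t
      have hzY : z ∈ Y := by
        have := Y.mul_mem (Y.inv_mem hx) hyY
        simpa using this
      refine Subgroup.mul_mem _ ?_ (hmono (ih (m + 1) (by omega) (by omega) z hzY hz))
      exact G.xg_mem hmlt ⟨le_rfl, hmlt, hX⟩ t

theorem word_terms {Y : Subgroup (GL D.Idx F)} :
    ∀ (L : List (ℕ × F)) (lo : ℕ), (∀ a ∈ L, G.LeadP Y a.1) → NN D ≤ lo → ascB D.nroots lo (L.map Prod.fst) = true →
      ∀ y ∈ Y, (y : Matrix D.Idx D.Idx F) = D.wordMat F L → ∀ e ∈ L, e.2 ≠ 0 → XIn D G Y e.1 := by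
  intro L
  induction L with
  | nil => simp
  | cons a L ih =>
    intro lo hL hlo hasc y hy hym e he he0
    simp only [List.map_cons, ascB, Bool.and_eq_true] at hasc
    obtain ⟨⟨h1, h2⟩, h3⟩ := hasc
    have h1' : lo ≤ a.1 := Nat.le_of_ble_eq_true h1
    have h2' : a.1 < D.nroots := Nat.le_of_ble_eq_true h2
    obtain ⟨z, hz, hzm⟩ := G.word_mem (P := fun r => a.1 + 1 ≤ r ∧ r < D.nroots) L (fun b hb => by
      have := ascB_mem _ _ h3 b.1 (List.mem_map_of_mem hb)
      exact ⟨this, this.2⟩)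
    have hyz : y = G.xg h2' a.2 * z := by
      apply Units.ext
      rw [hym]
      simp [ChevalleyDatum.wordMat, hzm]
    have hzY : a.2 ≠ 0 → XIn D G Y a.1 ∧ z ∈ Y := by
      intro ha
      have hX := hL a (by simp) h2' a.2 ha z hz (hyz ▸ hy)
      refine ⟨hX, ?_⟩
      have := Y.mul_mem (Y.inv_mem (hX h2' a.2)) (hyz ▸ hy)
      simpa using this
    have hzY2 : z ∈ Y := by
      by_cases ha : a.2 = 0
      · rw [hyz, ha, G.xg_zero, one_mul] at hy
        exact hy
      · exact (hzY ha).2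
    rcases List.mem_cons.1 he with rfl | he
    · exact (hzY he0).1
    · exact ih (a.1 + 1) (fun b hb => hL b (List.mem_cons_of_mem _ hb)) (by omega) h3 z hzY2 hzm e he he0

/-- The commutator word of a leading term with an element commuting with the tail. -/
theorem comm_word_mem {Y : Subgroup (GL D.Idx F)} (hY : WHyp D F Y) {k b : ℕ} (hk : k < D.nroots) (hb : b < D.nroots)
    (hkN : NN D ≤ k) (hbN : NN D ≤ b) (hne : b ≠ k) {t u : F} {z : GL D.Idx F} (hz : z ∈ D.posUnipotent F)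
    (hzc : z * G.xg hb u = G.xg hb u * z) (hy : G.xg hk t * z ∈ Y) :
    ∃ w ∈ Y, (w : Matrix D.Idx D.Idx F) = D.wordMat F (D.commWord F k b t u) := by
  have hBU : G.xg hb u ∈ D.posUnipotent F := G.xg_mem hb ((G.pos_iff hb).2 hbN) u
  have hPhi : D.x F b u * D.x F k t = D.x F k t * D.x F b u * D.wordMat F (D.commWord F k b t u) :=
    G.Phi_all hk hb hne (by have := (G.neg_pos hk).1 hkN; omega) t u
  set B := G.xg hb u with hB
  set A := G.xg hk t with hA
  refine ⟨z * (B⁻¹ * (A * z)⁻¹ * B * (A * z)) * z⁻¹, ?_, ?_⟩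
  · apply hY.nU z hz
    apply Y.mul_mem _ hy
    have := hY.nU B⁻¹ ((D.posUnipotent F).inv_mem hBU) _ (Y.inv_mem hy)
    simpa using this
  · have e : z * (B⁻¹ * (A * z)⁻¹ * B * (A * z)) * z⁻¹ = (A * B)⁻¹ * (B * A) := by
      have hC : Commute z B := hzc
      have e2 : z * B⁻¹ * z⁻¹ = B⁻¹ := by
        rw [hC.inv_right.eq, mul_assoc, mul_inv_cancel, mul_one]
      calc z * (B⁻¹ * (A * z)⁻¹ * B * (A * z)) * z⁻¹
          = (z * B⁻¹ * z⁻¹) * A⁻¹ * B * A := by group
        _ = B⁻¹ * A⁻¹ * B * A := by rw [e2]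
        _ = _ := by group
    rw [e]
    have h1 : ((A * B : GL D.Idx F) : Matrix D.Idx D.Idx F) * D.wordMat F (D.commWord F k b t u) =
        ((B * A : GL D.Idx F) : Matrix D.Idx D.Idx F) := by
      rw [Units.val_mul, Units.val_mul]
      exact hPhi.symm
    rw [Units.val_mul, ← h1, ← mul_assoc, ← Units.val_mul, inv_mul_cancel, Units.val_one, one_mul]

/-- The climbing table. -/
def ClimbT (D : ChevalleyDatum) (F : Type*) [Field F] : Prop :=
  ∀ r s, NN D ≤ r → r < D.nroots → s < D.rank → cor D r s ≠ 0 → r = D.simple s ∨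
    ∃ b, b < D.rank ∧ ∃ r₀, NN D ≤ r₀ ∧ r₀ < r ∧ r₀ ≠ D.simple b ∧ cor D r₀ s ≠ 0 ∧
      ascB D.nroots (NN D) ((D.commTerms r₀ (D.simple b)).map Prod.fst) = true ∧
      ∃ e ∈ D.commTerms r₀ (D.simple b), e.1 = r ∧ ((e.2.1 : ℤ) : F) ≠ 0

/-- The descent table. -/
def DescT (G : Good2 D) : Prop :=
  ∀ r, NN D ≤ r → r < D.nroots → (∃ i, i < D.rank ∧ r = D.simple i) ∨
    ∃ i, i < D.rank ∧ cor D r i ≠ 0 ∧ NN D ≤ G.W i r ∧ G.W i r < r ∧
      ∀ j, j < D.rank → cor D r j = 0 → cor D (G.W i r) j = 0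

omit G in
theorem map_fst_commWord (r s : ℕ) (t u : F) :
    (D.commWord F r s t u).map Prod.fst = (D.commTerms r s).map Prod.fst := by
  simp [ChevalleyDatum.commWord, List.map_map, Function.comp_def]

theorem climb_X {Y : Subgroup (GL D.Idx F)} (hY : WHyp D F Y) (hL : ∀ k, NN D ≤ k → k < D.nroots → G.LeadP Y k)
    (hcl : ClimbT D F) {s : ℕ} (hs : s < D.rank) (hsX : XIn D G Y (D.simple s)) :
    ∀ r, NN D ≤ r → r < D.nroots → cor D r s ≠ 0 → XIn D G Y r := by
  intro r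
  induction r using Nat.strong_induction_on with
  | _ r ih =>
    intro hrN hr hcor
    rcases hcl r s hrN hr hs hcor with rfl | ⟨b, hb, r₀, h1, h2, h3, h4, h5, e, he, he1, he2⟩
    · exact hsX
    · have hr0 : r₀ < D.nroots := by omega
      have hX0 := ih r₀ h2 h1 hr0 h4
      have hbb := G.simple_lt hb
      obtain ⟨w, hw, hwm⟩ := G.comm_word_mem hY hr0 hbb h1 (G.simple_pos hb) (Ne.symm h3) (t := 1) (u := 1)
        (Subgroup.one_mem _) (by simp) (by simpa using hX0 hr0 1)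
      have hasc := h5
      rw [← map_fst_commWord _ _ (1 : F) 1] at hasc
      have := G.word_terms _ (NN D) (fun a ha => hL a.1 (ascB_mem _ _ hasc a.1 (List.mem_map_of_mem ha)).1
          (ascB_mem _ _ hasc a.1 (List.mem_map_of_mem ha)).2) le_rfl hasc w hw hwm
        (e.1, (e.2.1 : F) * (-1) ^ e.2.2.1 * 1 ^ e.2.2.2)
        (List.mem_map.2 ⟨e, he, rfl⟩)
        (by
          simp only [one_pow, mul_one]
          exact mul_ne_zero he2 (pow_ne_zero _ (neg_ne_zero.2 one_ne_zero)))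
      simpa [he1] using this

/-- The main reduction. -/
theorem weak_main (hcl : ClimbT D F) (hdesc : G.DescT)
    (hlead : ∀ Y : Subgroup (GL D.Idx F), WHyp D F Y → ∀ k, NN D ≤ k → k < D.nroots → G.LeadP Y k)
    (X : Subgroup (GL D.Idx F)) (hXU : X ≤ D.posUnipotent F)
    (hwc : ∀ g ∈ D.group F, X.map (MulAut.conj g).toMonoidHom ≤ D.posUnipotent F →
      X.map (MulAut.conj g).toMonoidHom = X) :
    ∃ J : Set ℕ, (∀ j ∈ J, j < D.rank) ∧ X = D.unipotentRadical F J := by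
  have hUG : D.posUnipotent F ≤ D.group F := (G.U_le_B (F := F)).trans G.B_le_group
  have hY : WHyp D F X := by
    refine ⟨hXU, ?_, ?_⟩
    · intro u hu y hy
      have h1 : X.map (MulAut.conj u).toMonoidHom ≤ D.posUnipotent F := by
        rintro _ ⟨y', hy', rfl⟩
        exact (D.posUnipotent F).mul_mem ((D.posUnipotent F).mul_mem hu (hXU hy')) ((D.posUnipotent F).inv_mem hu)
      rw [← hwc u (hUG hu) h1]
      exact ⟨y, hy, rfl⟩
    · intro h hh y hy
      have h1 : X.map (MulAut.conj h).toMonoidHom ≤ D.posUnipotent F := by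
        rintro _ ⟨y', hy', rfl⟩
        exact G.U_pos_conj hh (hXU hy')
      rw [← hwc h (G.H_le_group hh) h1]
      exact ⟨y, hy, rfl⟩
  have hL := hlead X hY
  -- the set of roots
  set Ψ : ℕ → Prop := fun r => NN D ≤ r ∧ r < D.nroots ∧ XIn D G X r with hΨ
  have hspl : ∀ y ∈ X, y ∈ rG D F Ψ := by
    intro y hy
    have h1 : y ∈ Ut D F (NN D) := by
      rw [← G.pos_eq_Ut]
      exact hXU hy
    exact G.split_Ut hL (NN D) (NN D) G.NN_add le_rfl y hy h1
  have hsub : rG D F Ψ ≤ X := by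
    apply G.rG_le (fun r hr => hr.2.1)
    intro r hr t hP
    exact hP.2.2 hr t
  -- reflections outside `Ψ`
  have hconj : ∀ j, j < D.rank → ¬ XIn D G X (D.simple j) → ∀ r, NN D ≤ r → r < D.nroots → XIn D G X r →
      XIn D G X (G.W j r) := by
    intro j hj hnj r hrN hr hXr
    set n : GL D.Idx F := G.nG ⟨j, hj⟩ with hn
    have hmap : X.map (MulAut.conj n).toMonoidHom ≤ D.posUnipotent F := by
      rintro _ ⟨y, hy, rfl⟩
      show n * y * n⁻¹ ∈ D.posUnipotent F
      refine G.rG_induction (P := Ψ) (fun r hr => hr.2.1)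
        (Q := fun y => n * y * n⁻¹ ∈ D.posUnipotent F) ?_ ?_ ?_ y (hspl y hy)
      · simp
      · intro a b ha hb
        have := (D.posUnipotent F).mul_mem ha hb
        simpa [mul_assoc] using this
      · intro r hr t hP
        rw [hn, G.nG_conj_x ⟨j, hj⟩ hr t]
        apply G.xg_mem
        rw [G.pos_iff (G.W_lt hj hr)]
        apply G.W_pos hj hr hP.1
        rintro rfl
        exact hnj hP.2.2
    have hmapX := hwc n (G.nG_mem_group _) hmap
    intro hW t
    have hS := G.S_cases hj hr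
    have hSS : ((G.S j r : ℤ) : F) * ((G.S j r : ℤ) : F) = 1 := sign_sq hS
    have e : G.xg hW t = n * G.xg hr (((G.S j r : ℤ) : F) * t) * n⁻¹ := by
      rw [hn, G.nG_conj_x ⟨j, hj⟩ hr]
      congr 1
      rw [← mul_assoc, hSS, one_mul]
    rw [e, ← hmapX]
    exact ⟨_, hXr hr _, rfl⟩
  refine ⟨{j | j < D.rank ∧ ¬ XIn D G X (D.simple j)}, fun j hj => hj.1, le_antisymm ?_ ?_⟩
  · -- `X ≤ U_J`
    have hle : rG D F Ψ ≤ D.unipotentRadical F {j | j < D.rank ∧ ¬ XIn D G X (D.simple j)} := by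
      have key : ∀ r, Ψ r → ¬ D.InRootSub {j | j < D.rank ∧ ¬ XIn D G X (D.simple j)} r := by
        intro r
        induction r using Nat.strong_induction_on with
        | _ r ih =>
          rintro ⟨hrN, hr, hXr⟩ ⟨_, hsub2⟩
          have hcor : ∀ i, i < D.rank → cor D r i ≠ 0 → i < D.rank ∧ ¬ XIn D G X (D.simple i) := by
            intro i hi hne
            by_contra hcon
            exact hne (hsub2 i hi hcon)
          rcases hdesc r hrN hr with ⟨i, hi, rfl⟩ | ⟨i, hi, h1, h2, h3, h4⟩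
          · have := hcor i hi (by rw [G.cor_simple hi hi]; simp)
            exact this.2 hXr
          · have hJ := hcor i hi h1
            have hWlt := G.W_lt hi hr
            refine ih (G.W i r) h3 ⟨h2, hWlt, hconj i hi hJ.2 r hrN hr hXr⟩ ⟨hWlt, ?_⟩
            intro j hj hnj
            exact h4 j hj (hsub2 j hj hnj)
      apply Subgroup.closure_le _ |>.2
      rintro g ⟨r, t, hP, hg⟩
      exact Subgroup.subset_closure ⟨r, t, (G.pos_iff hP.2.1).2 hP.1, key r hP, hg⟩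
    exact fun y hy => hle (hspl y hy)
  · -- `U_J ≤ X`
    apply (Subgroup.closure_le _).2
    rintro g ⟨r, t, hP, hns, hg⟩
    have hr : r < D.nroots := hP.1
    have hrN : NN D ≤ r := (G.pos_iff hr).1 hP
    have : ∃ s, s < D.rank ∧ cor D r s ≠ 0 ∧ XIn D G X (D.simple s) := by
      by_contra hcon
      push Not at hcon
      apply hns
      refine ⟨hr, ?_⟩
      intro i hi hni
      by_contra hne
      have hX := hcon i hi hne
      exact hni ⟨hi, hX⟩
    obtain ⟨s, hs, hc, hsX⟩ := this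
    have h3 := G.climb_X hY hL hcl hs hsX r hrN hr hc hr t
    have h4 := G.gen_eq hr hg
    rw [h4]
    exact h3

end Good2

/-! Torus elements. -/

namespace Good2

variable (G : Good2 D)
include G

theorem hG_conj {r s : ℕ} (hr : r < D.nroots) (hs : s < D.nroots) {a : F} (ha : a ≠ 0) (t : F) :
    G.hG hr ha * G.xg hs t * (G.hG hr ha)⁻¹ = G.xg hs (chiP D r a s * t) := by
  rw [mul_inv_eq_iff_eq_mul]
  apply Units.ext
  simp only [Units.val_mul, Good0.xg_val]
  rw [G.hG_val, G.h_eq hr ha]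
  exact G.toGood0.dgM_mul_x (G.chiP_isChi r ha) hs t

theorem H2_conj {i j : ℕ} (hi : i < D.rank) (hj : j < D.rank) (a b : ℤ) {c : F} (hc : c ≠ 0) :
    ∃ h ∈ D.diagonalSubgroup F, ∀ (s : ℕ) (hs : s < D.nroots) (t : F),
      h * G.xg hs t * h⁻¹ = G.xg hs (c ^ (a * D.cartan i s + b * D.cartan j s) * t) := by
  have ha : c ^ a ≠ 0 := zpow_ne_zero a hc
  have hb : c ^ b ≠ 0 := zpow_ne_zero b hc
  refine ⟨G.hG (G.simple_lt hi) ha * G.hG (G.simple_lt hj) hb,
    (D.diagonalSubgroup F).mul_mem (G.hG_mem _ _) (G.hG_mem _ _), ?_⟩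
  intro s hs t
  have e : ∀ {x y h k : GL D.Idx F}, (h * k) * x * (h * k)⁻¹ = h * (k * x * k⁻¹) * h⁻¹ := by
    intro x y h k
    group
  rw [e (y := 1), G.hG_conj, G.hG_conj, ← mul_assoc]
  congr 2
  simp only [chiP, G.pairing_simple hi, G.pairing_simple hj]
  rw [← _root_.zpow_mul, ← _root_.zpow_mul, zpow_add₀ hc]

theorem sep_of_minor {k m i j : ℕ} (hi : i < D.rank) (hj : j < D.rank) {c : F} (hc : c ≠ 0)
    (hne : c ^ (D.cartan i k * D.cartan j m - D.cartan j k * D.cartan i m) ≠ 1) : G.Sep F k m := by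
  obtain ⟨h, hh, h1⟩ := G.H2_conj hi hj (D.cartan j m) (-D.cartan i m) hc
  refine ⟨h, hh, _, hne, ?_, ?_⟩
  · intro hk t
    rw [h1 k hk t]
    congr 2
    ring_nf
  · intro hm t
    rw [h1 m hm t]
    have : D.cartan j m * D.cartan i m + -D.cartan i m * D.cartan j m = 0 := by ring
    rw [this, zpow_zero, one_mul]

/-- Every element of a finite field is a sum of two squares. -/
theorem sum_two_sq_aux [Fintype F] (d : F) : ∃ a b : F, d = a ^ 2 + b ^ 2 := by
  by_cases h2 : Fintype.card F % 2 = 1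
  · obtain ⟨a, b, hab⟩ := FiniteField.exists_root_sum_quadratic (R := F)
      (f := Polynomial.X ^ 2) (g := Polynomial.X ^ 2 - Polynomial.C d)
      (by simp) (by simpa using Polynomial.degree_X_pow_sub_C (by norm_num : 0 < 2) d) h2
    refine ⟨a, b, ?_⟩
    simp at hab
    linear_combination -hab
  · have h3 : ringChar F = 2 := FiniteField.even_card_iff_char_two.2 (by omega)
    obtain ⟨a, ha⟩ := FiniteField.isSquare_of_char_two h3 d
    exact ⟨a, 0, by rw [ha]; ring⟩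

/-- Scaling. -/
theorem scale_of {Y : Subgroup (GL D.Idx F)} [Fintype F] (hY : WHyp D F Y)
    (hT : ∀ r, NN D ≤ r → r < D.nroots → ∃ i j : ℕ, i < D.rank ∧ j < D.rank ∧ ∃ a b : ℤ,
      a * D.cartan i r + b * D.cartan j r = 1 ∨ a * D.cartan i r + b * D.cartan j r = 2) :
    G.ScaleP Y := by
  intro r hr hrN t ht hx hr' d
  obtain ⟨i, j, hi, hj, a, b, hab⟩ := hT r hrN hr
  have hsc : ∀ c : F, c ≠ 0 → ∃ h ∈ D.diagonalSubgroup F, ∀ t : F,
      h * G.xg hr t * h⁻¹ = G.xg hr (c ^ (a * D.cartan i r + b * D.cartan j r) * t) := by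
    intro c hc
    obtain ⟨h, hh, h1⟩ := G.H2_conj hi hj a b hc
    exact ⟨h, hh, fun t => h1 r hr t⟩
  rcases hab with hab | hab
  · by_cases hd : d = 0
    · subst hd
      rw [G.xg_zero]
      exact Y.one_mem
    · obtain ⟨h, hh, h1⟩ := hsc (d / t) (div_ne_zero hd ht)
      have := hY.nH h hh _ hx
      rw [h1, hab, zpow_one, div_mul_cancel₀ _ ht] at this
      exact this
  · obtain ⟨u, v, huv⟩ := sum_two_sq_aux (F := F) G (d / t)
    have hs : ∀ u : F, G.xg hr (u ^ 2 * t) ∈ Y := by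
      intro u
      by_cases hu : u = 0
      · subst hu
        simp [G.xg_zero, Y.one_mem]
      · obtain ⟨h, hh, h1⟩ := hsc u hu
        have := hY.nH h hh _ hx
        rw [h1, hab] at this
        exact_mod_cast this
    have h3 := Y.mul_mem (hs u) (hs v)
    rw [G.xg_mul] at h3
    have e : u ^ 2 * t + v ^ 2 * t = d := by
      have : d = (u ^ 2 + v ^ 2) * t := by
        rw [← huv, div_mul_cancel₀ _ ht]
      rw [this]
      ring
    rwa [e] at h3

end Good2

namespace Good2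

variable (G : Good2 D)
include G

/-- A generator of the multiplicative group has non-trivial powers. -/
theorem exists_pow_ne_one_aux [Fintype F] {g : ℕ} (h : ¬ (Fintype.card F - 1) ∣ g) :
    ∃ c : F, c ≠ 0 ∧ c ^ g ≠ 1 := by
  classical
  obtain ⟨ζ, hζ⟩ := IsCyclic.exists_generator (α := Fˣ)
  have hord : orderOf ζ = Fintype.card F - 1 := by
    rw [orderOf_eq_card_of_forall_mem_zpowers hζ, Nat.card_eq_fintype_card, Fintype.card_units]
  refine ⟨(ζ : F), ζ.ne_zero, ?_⟩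
  intro hc
  apply h
  rw [← hord]
  apply orderOf_dvd_of_pow_eq_one
  apply Units.ext
  simpa using hc

/-- If `c ^ |m| ≠ 1`, then `c ^ m ≠ 1`. -/
theorem zpow_ne_one_aux {c : F} (hc : c ≠ 0) {m : ℤ} (h : c ^ m.natAbs ≠ 1) : c ^ m ≠ 1 := by
  rcases Int.natAbs_eq m with e | e
  · rw [e, zpow_natCast]
    simpa using h
  · rw [e, _root_.zpow_neg, zpow_natCast]
    intro hc2
    apply h
    have := inv_eq_one.1 hc2
    simpa using this

end Good2

/-! Boolean checks. -/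

/-- The separation check. -/
def chkSep (T : Tbl) (okg : ℕ → Bool) (excl : ℕ → ℕ → Bool) : Bool :=
  allLt T.n fun k => !(Nat.ble (T.n / 2) k) || allLt T.n fun m => !(Nat.blt k m) || excl k m ||
    (List.range T.l).any fun i => (List.range T.l).any fun j =>
      okg (T.car i k * T.car j m - T.car j k * T.car i m).natAbs

theorem chkSep_spec {okg : ℕ → Bool} {excl : ℕ → ℕ → Bool} (h : chkSep (tblOf D) okg excl = true)
    {k m : ℕ} (hk : Good2.NN D ≤ k) (hkm : k < m) (hm : m < D.nroots) :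
    excl k m = true ∨ ∃ i j, i < D.rank ∧ j < D.rank ∧
      okg (D.cartan i k * D.cartan j m - D.cartan j k * D.cartan i m).natAbs = true := by
  have hk' : k < D.nroots := by omega
  have h1 := (allLt_iff _ _).1 h k hk'
  have h2 : Nat.ble (D.nroots / 2) k = true := Nat.ble_eq_true_of_le hk
  dsimp only [tblOf] at h1
  simp only [h2, Bool.not_true, Bool.false_or] at h1
  have h3 := (allLt_iff _ _).1 h1 m hm
  have h4 : Nat.blt k m = true := Nat.ble_eq_true_of_le hkm
  simp only [h4, Bool.not_true, Bool.false_or, Bool.or_eq_true, List.any_eq_true, List.mem_range] at h3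
  rcases h3 with h3 | ⟨i, hi, j, hj, h3⟩
  · exact Or.inl h3
  · exact Or.inr ⟨i, j, hi, hj, h3⟩

theorem sep_of_chk (G : Good2 D) {okg : ℕ → Bool} {excl : ℕ → ℕ → Bool} (h : chkSep (tblOf D) okg excl = true)
    (hc : ∀ g, okg g = true → ∃ c : F, c ≠ 0 ∧ c ^ g ≠ 1)
    {k m : ℕ} (hk : Good2.NN D ≤ k) (hkm : k < m) (hm : m < D.nroots) (hex : excl k m = false) : G.Sep F k m := by
  rcases chkSep_spec h hk hkm hm with h1 | ⟨i, j, hi, hj, h1⟩
  · rw [hex] at h1
    exact absurd h1 (by simp)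
  · obtain ⟨c, hc0, hc1⟩ := hc _ h1
    exact G.sep_of_minor hi hj hc0 (G.zpow_ne_one_aux hc0 hc1)

/-- The scaling check. -/
def chkScale (T : Tbl) : Bool :=
  allLt T.n fun r => !(Nat.ble (T.n / 2) r) ||
    (List.range T.l).any fun i => (List.range T.l).any fun j =>
      [(-1 : ℤ), 0, 1].any fun a => [(-1 : ℤ), 0, 1].any fun b =>
        decide (a * T.car i r + b * T.car j r = 1) || decide (a * T.car i r + b * T.car j r = 2)

theorem chkScale_spec (h : chkScale (tblOf D) = true) {r : ℕ} (hr : Good2.NN D ≤ r) (hr' : r < D.nroots) :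
    ∃ i j : ℕ, i < D.rank ∧ j < D.rank ∧ ∃ a b : ℤ,
      a * D.cartan i r + b * D.cartan j r = 1 ∨ a * D.cartan i r + b * D.cartan j r = 2 := by
  have h1 := (allLt_iff _ _).1 h r hr'
  have h2 : Nat.ble (D.nroots / 2) r = true := Nat.ble_eq_true_of_le hr
  dsimp only [tblOf] at h1
  simp only [h2, Bool.not_true, Bool.false_or, List.any_eq_true, List.mem_range, Bool.or_eq_true,
    decide_eq_true_eq] at h1
  obtain ⟨i, hi, j, hj, a, _, b, _, h3⟩ := h1
  exact ⟨i, j, hi, hj, a, b, h3.imp of_decide_eq_true of_decide_eq_true⟩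

/-- Leading terms from the tables. -/
theorem lead_of_chk [Fintype F] (G : Good2 D) {okg : ℕ → Bool} (h : chkSep (tblOf D) okg (fun _ _ => false) = true)
    (hsc : chkScale (tblOf D) = true) (hc : ∀ g, okg g = true → ∃ c : F, c ≠ 0 ∧ c ^ g ≠ 1)
    (Y : Subgroup (GL D.Idx F)) (hY : WHyp D F Y) (k : ℕ) (hk : Good2.NN D ≤ k) (hk' : k < D.nroots) : G.LeadP Y k :=
  G.leadP_of_sep hY (G.scale_of hY (fun _ h1 h2 => chkScale_spec hsc h1 h2)) hk
    (fun _ h1 h2 => Or.inl (sep_of_chk G h hc hk h1 h2 rfl))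

/-- The climbing check. -/
def chkClimb (T : Tbl) (simple : ℕ → ℕ) (okc : ℤ → Bool) (cand : ℕ → ℕ → List ℕ) : Bool :=
  allLt T.n fun r => !(Nat.ble (T.n / 2) r) || allLt T.l fun s =>
    decide (T.cor r s = 0) || Nat.beq r (simple s) ||
      (List.range T.l).any fun b => (cand b r).any fun r₀ =>
        Nat.ble (T.n / 2) r₀ && Nat.blt r₀ r && !(Nat.beq r₀ (simple b)) && !(decide (T.cor r₀ s = 0)) &&
        ascB T.n (T.n / 2) ((commT T.ce r₀ (simple b)).map Prod.fst) &&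
        (commT T.ce r₀ (simple b)).any fun e => Nat.beq e.1 r && okc e.2.1

theorem chkClimb_spec {okc : ℤ → Bool} {cand : ℕ → ℕ → List ℕ}
    (h : chkClimb (tblOf D) D.simple okc cand = true) (hok : ∀ c, okc c = true → ((c : ℤ) : F) ≠ 0) :
    Good2.ClimbT D F := by
  intro r s hr hr' hs hc
  have h1 := (allLt_iff _ _).1 h r hr'
  have h2 : Nat.ble (D.nroots / 2) r = true := Nat.ble_eq_true_of_le hr
  dsimp only [tblOf] at h1
  simp only [h2, Bool.not_true, Bool.false_or] at h1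
  have h3 := (allLt_iff _ _).1 h1 s hs
  simp only [Bool.or_eq_true, decide_eq_true_eq, List.any_eq_true, List.mem_range, Bool.and_eq_true,
    Bool.not_eq_true', decide_eq_false_iff_not] at h3
  rcases h3 with (h3 | h3) | ⟨b, hb, r₀, _, ⟨⟨⟨⟨h4, h5⟩, h6⟩, h7⟩, h8⟩, e, he, h9, h10⟩
  · exact absurd (of_decide_eq_true h3) hc
  · exact Or.inl (Nat.eq_of_beq_eq_true h3)
  · refine Or.inr ⟨b, hb, r₀, Nat.le_of_ble_eq_true h4, Nat.le_of_ble_eq_true h5, ?_, of_decide_eq_false h7, h8, e, he,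
      Nat.eq_of_beq_eq_true h9, hok _ h10⟩
    intro hcon
    rw [hcon] at h6
    simp at h6

/-- The descent check. -/
def chkDesc (T : Tbl) (simple : ℕ → ℕ) (W : ℕ → ℕ → ℕ) : Bool :=
  allLt T.n fun r => !(Nat.ble (T.n / 2) r) ||
    (List.range T.l).any (fun i => Nat.beq r (simple i)) ||
    (List.range T.l).any fun i => !(decide (T.cor r i = 0)) && Nat.ble (T.n / 2) (W i r) && Nat.blt (W i r) r &&
      allLt T.l fun j => !(decide (T.cor r j = 0)) || decide (T.cor (W i r) j = 0)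

theorem chkDesc_spec (G : Good2 D) (h : chkDesc (tblOf D) D.simple G.W = true) : G.DescT := by
  intro r hr hr'
  have h1 := (allLt_iff _ _).1 h r hr'
  have h2 : Nat.ble (D.nroots / 2) r = true := Nat.ble_eq_true_of_le hr
  dsimp only [tblOf] at h1
  simp only [h2, Bool.not_true, Bool.false_or, Bool.or_eq_true, List.any_eq_true, List.mem_range,
    Bool.and_eq_true, Bool.not_eq_true', decide_eq_false_iff_not, allLt_iff, decide_eq_true_eq] at h1
  rcases h1 with ⟨i, hi, h3⟩ | ⟨i, hi, ⟨⟨h3, h4⟩, h5⟩, h6⟩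
  · exact Or.inl ⟨i, hi, Nat.eq_of_beq_eq_true h3⟩
  · refine Or.inr ⟨i, hi, of_decide_eq_false h3, Nat.le_of_ble_eq_true h4, Nat.le_of_ble_eq_true h5, ?_⟩
    intro j hj hc
    rcases h6 j hj with h7 | h7
    · exact absurd hc (of_decide_eq_false h7)
    · exact of_decide_eq_true h7

end Cfsg.Agent.Lib.Chev
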