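import Cfsg.Agent.Lib.Chev.Sub.WeakT

/-! Weakly closed subgroups: the small fields and the final statement. -/

set_option autoImplicit false
set_option linter.unusedSimpArgs false
set_option linter.unusedVariables false
set_option linter.unusedSectionVars false
set_option maxRecDepth 100000

namespace Cfsg.Agent.Lib.Chev

open Cfsg Cfsg.Lie Matrix

variable {D : ChevalleyDatum} {F : Type*} [Field F]

namespace Good2

variable (G : Good2 D)
include G

theorem Ut_comm {m₁ β : ℕ} (hβ : β < D.nroots) (hN : NN D ≤ m₁)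
    (hm : ∀ r, m₁ ≤ r → r < D.nroots → r ≠ β ∧ D.commTerms r β = []) (u : F) {z : GL D.Idx F} (hz : z ∈ Ut D F m₁)
    (hβN : NN D ≤ β) : z * G.xg hβ u = G.xg hβ u * z := by
  refine G.rG_induction (P := fun r => m₁ ≤ r ∧ r < D.nroots) (fun r h => h.2)
    (Q := fun z => z * G.xg hβ u = G.xg hβ u * z) (by simp) ?_ ?_ z hz
  · intro a b ha hb
    rw [mul_assoc, hb, ← mul_assoc, ha, mul_assoc]
  · intro r hr c hP
    have h1 := hm r hP.1 hP.2
    have hrN : NN D ≤ r := hN.trans hP.1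
    have h2 := (G.neg_pos hr).1 hrN
    have hPhi : D.x F β u * D.x F r c = D.x F r c * D.x F β u * D.wordMat F (D.commWord F r β c u) :=
      G.Phi_all hr hβ (Ne.symm h1.1) (by omega) c u
    have hnil : D.commWord F r β c u = [] := by simp [ChevalleyDatum.commWord, h1.2]
    rw [hnil] at hPhi
    apply Units.ext
    simp only [Units.val_mul, Good0.xg_val]
    rw [hPhi]
    simp [ChevalleyDatum.wordMat]

theorem lead_via_comm {Y : Subgroup (GL D.Idx F)} (hY : WHyp D F Y) (hsc : G.ScaleP Y) {k m₁ β : ℕ}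
    (hkN : NN D ≤ k) (hk1 : k < m₁) (hm1le : m₁ ≤ D.nroots) (hβ : β < D.nroots) (hβN : NN D ≤ β) (hβne : β ≠ k)
    (hs : ∀ m, k < m → m < m₁ → G.Sep F k m ∨ XIn D G Y m)
    (hs2 : ∀ m, m₁ ≤ m → m < D.nroots → G.Sep F k m ∨ XIn D G Y m ∨ True)
    (hcomm : ∀ r, m₁ ≤ r → r < D.nroots → r ≠ β ∧ D.commTerms r β = [])
    (hw : ∀ t : F, t ≠ 0 → ∀ w ∈ Y, (w : Matrix D.Idx D.Idx F) = D.wordMat F (D.commWord F k β t 1) →
      ∀ m, m₁ ≤ m → m < D.nroots → XIn D G Y m) : G.LeadP Y k := by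
  intro hk t ht z hz hy
  obtain ⟨t', ht', z', hz', hy'⟩ := G.lead_to hY hk hkN m₁ hm1le hs ⟨t, ht, z, hz, hy⟩ hk1
  have hz'U : z' ∈ D.posUnipotent F := G.Ut_le_pos m₁ (by omega) hz'
  obtain ⟨w, hw', hwm⟩ := G.comm_word_mem hY hk hβ hkN hβN hβne (u := 1) hz'U
    (G.Ut_comm hβ (by omega) hcomm 1 hz' hβN) hy'
  have hX := hw t' ht' w hw' hwm
  refine G.leadP_of_sep hY hsc hkN (fun m h1 h2 => ?_) hk t ht z hz hy
  by_cases h3 : m < m₁
  · exact hs m h1 h3
  · exact Or.inr (hX m (by omega) h2)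

end Good2

section small

variable [Fintype F]

open Good2

theorem nroots_G2 : chevG2.nroots = 12 := by decide +kernel
theorem nroots_B2 : chevB2.nroots = 8 := by decide +kernel
theorem NN_G2 : NN chevG2 = 6 := by decide +kernel
theorem NN_B2 : NN chevB2 = 4 := by decide +kernel
theorem cT_G2a : chevG2.commTerms 10 6 = [(11, -1, 1, 1)] := by decide +kernel
theorem cT_G2b : chevG2.commTerms 6 7 = [(8, 1, 1, 1), (9, 1, 1, 2), (10, -1, 1, 3), (11, -2, 2, 3)] := by decide +kernel
theorem cT_G2c : chevG2.commTerms 10 7 = [] := by decide +kernel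
theorem cT_G2d : chevG2.commTerms 11 7 = [] := by decide +kernel
theorem cT_G2e : chevG2.commTerms 11 6 = [] := by decide +kernel
theorem cT_B2a : chevB2.commTerms 4 5 = [(6, 1, 1, 1), (7, -1, 1, 2)] := by decide +kernel
theorem cT_B2b : chevB2.commTerms 7 5 = [] := by decide +kernel

theorem lead_G2 (hq : Fintype.card F = 4) (Y : Subgroup (GL chevG2.Idx F)) (hY : WHyp chevG2 F Y) (k : ℕ)
    (hk : NN chevG2 ≤ k) (hk' : k < chevG2.nroots) : TabG2.good2.LeadP Y k := by
  set G := TabG2.good2 with hG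
  have hc : ∀ g, (g == 1 || g == 2) = true → ∃ c : F, c ≠ 0 ∧ c ^ g ≠ 1 := by
    intro g hg
    apply G.exists_pow_ne_one_aux
    rw [hq]
    simp only [Bool.or_eq_true, beq_iff_eq] at hg
    rcases hg with rfl | rfl <;> decide
  have hsc : G.ScaleP Y := G.scale_of hY (fun _ h1 h2 => chkScale_spec (TabG2.tbl_eq ▸ TabG2.wT_scale) h1 h2)
  have hsep : ∀ k m, NN chevG2 ≤ k → k < m → m < chevG2.nroots →
      ((k == 6 && m == 10) || (k == 6 && m == 11) || (k == 10 && m == 11)) = false → G.Sep F k m :=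
    fun k m h1 h2 h3 h4 => sep_of_chk G (TabG2.tbl_eq ▸ TabG2.wT_sep4) hc h1 h2 h3 h4
  rw [NN_G2] at hk hsep
  rw [nroots_G2] at hk'
  rw [nroots_G2] at hsep
  have L11 : G.LeadP Y 11 := G.leadP_of_sep hY hsc (by rw [NN_G2]; norm_num) (fun m h1 h2 => by
    rw [nroots_G2] at h2
    omega)
  have h11 : ∀ (hk : 10 < chevG2.nroots) (t : F), t ≠ 0 → ∀ z ∈ Ut chevG2 F (10 + 1), G.xg hk t * z ∈ Y →
      XIn chevG2 G Y 11 := by
    intro hk t ht z hz hy
    have hz'U : z ∈ chevG2.posUnipotent F := G.Ut_le_pos _ (by rw [NN_G2]; norm_num) hz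
    have h6 : 6 < chevG2.nroots := by rw [nroots_G2]; norm_num
    obtain ⟨w, hw', hwm⟩ := G.comm_word_mem hY hk h6 (by rw [NN_G2]; norm_num) (by rw [NN_G2]) (by norm_num) (u := 1) hz'U
      (G.Ut_comm h6 (by rw [NN_G2]; norm_num) (fun r h1 h2 => by
        rw [nroots_G2] at h2
        have : r = 11 := by omega
        subst this
        exact ⟨by norm_num, cT_G2e⟩) 1 hz (by rw [NN_G2])) hy
    have := G.word_terms _ 6 (fun a ha => by
        simp only [ChevalleyDatum.commWord, cT_G2a, List.map_cons, List.map_nil, List.mem_singleton] at ha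
        subst ha
        exact L11) (by rw [NN_G2]) (by
        rw [map_fst_commWord, cT_G2a]
        decide +kernel) w hw' hwm (11, ((-1 : ℤ) : F) * (-t) ^ 1 * 1 ^ 1) (by simp [ChevalleyDatum.commWord, cT_G2a]) (by
        simp [ht])
    exact this
  have L10 : G.LeadP Y 10 := by
    intro hk t ht z hz hy
    refine G.leadP_of_sep hY hsc (by rw [NN_G2]; norm_num) (fun m h1 h2 => ?_) hk t ht z hz hy
    rw [nroots_G2] at h2
    have : m = 11 := by omega
    subst this
    exact Or.inr (h11 hk t ht z hz hy)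
  have Lk : ∀ k, (k = 7 ∨ k = 8 ∨ k = 9) → G.LeadP Y k := by
    intro k hk
    refine G.leadP_of_sep hY hsc (by rw [NN_G2]; omega) (fun m h1 h2 => Or.inl ?_)
    rw [nroots_G2] at h2
    apply hsep k m (by omega) h1 h2
    have e : ∀ a b : ℕ, (a == b) = decide (a = b) := fun _ _ => rfl
    simp only [e]
    rw [Bool.or_eq_false_iff, Bool.or_eq_false_iff]
    simp only [Bool.and_eq_false_iff, decide_eq_false_iff_not]
    omega
  have L6 : G.LeadP Y 6 := by
    intro hk t ht z hz hy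
    have h7 : 7 < chevG2.nroots := by rw [nroots_G2]; norm_num
    have hX : XIn chevG2 G Y 10 ∧ XIn chevG2 G Y 11 := by
      have h1 := G.lead_to hY hk (by rw [NN_G2]) 10 (by rw [nroots_G2]; norm_num) (fun m h1 h2 => Or.inl (hsep 6 m le_rfl h1 (by omega) (by
        have : m = 7 ∨ m = 8 ∨ m = 9 := by omega
        rcases this with rfl | rfl | rfl <;> rfl))) ⟨t, ht, z, hz, hy⟩ (by norm_num)
      obtain ⟨t', ht', z', hz', hy'⟩ := h1
      have hz'U : z' ∈ chevG2.posUnipotent F := G.Ut_le_pos _ (by rw [NN_G2]; norm_num) hz'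
      obtain ⟨w, hw', hwm⟩ := G.comm_word_mem hY hk h7 (by rw [NN_G2]) (by rw [NN_G2]; norm_num) (by norm_num) (u := 1) hz'U
        (G.Ut_comm h7 (by rw [NN_G2]; norm_num) (fun r h1 h2 => by
          rw [nroots_G2] at h2
          have : r = 10 ∨ r = 11 := by omega
          rcases this with rfl | rfl
          · exact ⟨by norm_num, cT_G2c⟩
          · exact ⟨by norm_num, cT_G2d⟩) 1 hz' (by rw [NN_G2]; norm_num)) hy'
      have h10 := G.word_terms _ 6 (fun a ha => by
          simp only [ChevalleyDatum.commWord, cT_G2b, List.map_cons, List.map_nil, List.mem_cons, List.not_mem_nil, or_false] at ha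
          rcases ha with rfl | rfl | rfl | rfl
          · exact Lk 8 (by simp)
          · exact Lk 9 (by simp)
          · exact L10
          · exact L11) (by rw [NN_G2]) (by
          rw [map_fst_commWord, cT_G2b]
          decide +kernel) w hw' hwm (10, ((-1 : ℤ) : F) * (-t') ^ 1 * 1 ^ 3) (by simp [ChevalleyDatum.commWord, cT_G2b]) (by
          simp [ht'])
      have h10' : XIn chevG2 G Y 10 := h10
      refine ⟨h10', ?_⟩
      have h10lt : 10 < chevG2.nroots := by rw [nroots_G2]; norm_num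
      exact h11 h10lt 1 one_ne_zero 1 (Subgroup.one_mem _) (by simpa using h10' h10lt 1)
    refine G.leadP_of_sep hY hsc (by rw [NN_G2]) (fun m h1 h2 => ?_) hk t ht z hz hy
    rw [nroots_G2] at h2
    have : m = 7 ∨ m = 8 ∨ m = 9 ∨ m = 10 ∨ m = 11 := by omega
    rcases this with rfl | rfl | rfl | rfl | rfl
    · exact Or.inl (hsep 6 7 le_rfl h1 h2 rfl)
    · exact Or.inl (hsep 6 8 le_rfl h1 h2 rfl)
    · exact Or.inl (hsep 6 9 le_rfl h1 h2 rfl)
    · exact Or.inr hX.1
    · exact Or.inr hX.2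
  have : k = 6 ∨ k = 7 ∨ k = 8 ∨ k = 9 ∨ k = 10 ∨ k = 11 := by omega
  rcases this with rfl | rfl | rfl | rfl | rfl | rfl
  · exact L6
  · exact Lk 7 (by simp)
  · exact Lk 8 (by simp)
  · exact Lk 9 (by simp)
  · exact L10
  · exact L11

theorem lead_B2 (hq : Fintype.card F = 5) (Y : Subgroup (GL chevB2.Idx F)) (hY : WHyp chevB2 F Y) (k : ℕ)
    (hk : NN chevB2 ≤ k) (hk' : k < chevB2.nroots) : TabB2.good2.LeadP Y k := by
  set G := TabB2.good2 with hG
  have hc : ∀ g, (g == 1 || g == 2) = true → ∃ c : F, c ≠ 0 ∧ c ^ g ≠ 1 := by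
    intro g hg
    apply G.exists_pow_ne_one_aux
    rw [hq]
    simp only [Bool.or_eq_true, beq_iff_eq] at hg
    rcases hg with rfl | rfl <;> decide
  have hsc : G.ScaleP Y := G.scale_of hY (fun _ h1 h2 => chkScale_spec (TabB2.tbl_eq ▸ TabB2.wT_scale) h1 h2)
  have hsep : ∀ k m, NN chevB2 ≤ k → k < m → m < chevB2.nroots →
      (k == 4 && m == 7) = false → G.Sep F k m :=
    fun k m h1 h2 h3 h4 => sep_of_chk G (TabB2.tbl_eq ▸ TabB2.wT_sep5) hc h1 h2 h3 h4
  rw [NN_B2] at hk hsep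
  rw [nroots_B2] at hk'
  rw [nroots_B2] at hsep
  have L7 : G.LeadP Y 7 := G.leadP_of_sep hY hsc (by rw [NN_B2]; norm_num) (fun m h1 h2 => by
    rw [nroots_B2] at h2
    omega)
  have Lk : ∀ k, (k = 5 ∨ k = 6) → G.LeadP Y k := by
    intro k hk
    refine G.leadP_of_sep hY hsc (by rw [NN_B2]; omega) (fun m h1 h2 => Or.inl ?_)
    rw [nroots_B2] at h2
    apply hsep k m (by omega) h1 h2
    have e : ∀ a b : ℕ, (a == b) = decide (a = b) := fun _ _ => rfl
    simp only [e]
    simp only [Bool.and_eq_false_iff, decide_eq_false_iff_not]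
    omega
  have L4 : G.LeadP Y 4 := by
    refine G.lead_via_comm (m₁ := 7) (β := 5) hY hsc (by rw [NN_B2]) (by norm_num) (by rw [nroots_B2]; norm_num) (by rw [nroots_B2]; norm_num)
      (by rw [NN_B2]; norm_num) (by norm_num) (fun m h1 h2 => Or.inl (hsep 4 m le_rfl h1 (by omega) (by
        have : m = 5 ∨ m = 6 := by omega
        rcases this with rfl | rfl <;> rfl))) (fun _ _ _ => Or.inr (Or.inr trivial)) (fun r h1 h2 => by
        rw [nroots_B2] at h2
        have : r = 7 := by omega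
        subst this
        exact ⟨by norm_num, cT_B2b⟩) ?_
    intro t ht w hw hwm m h1 h2
    rw [nroots_B2] at h2
    have : m = 7 := by omega
    subst this
    have := G.word_terms _ 4 (fun a ha => by
        simp only [ChevalleyDatum.commWord, cT_B2a, List.map_cons, List.map_nil, List.mem_cons, List.not_mem_nil, or_false] at ha
        rcases ha with rfl | rfl
        · exact Lk 6 (by simp)
        · exact L7) (by rw [NN_B2]) (by
        rw [map_fst_commWord, cT_B2a]
        decide +kernel) w hw hwm (7, ((-1 : ℤ) : F) * (-t) ^ 1 * 1 ^ 2) (by simp [ChevalleyDatum.commWord, cT_B2a]) (by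
        simp [ht])
    exact this
  have : k = 4 ∨ k = 5 ∨ k = 6 ∨ k = 7 := by omega
  rcases this with rfl | rfl | rfl | rfl
  · exact L4
  · exact Lk 5 (by simp)
  · exact Lk 6 (by simp)
  · exact L7


theorem climb_cases {cand2 cand3 candS : ℕ → ℕ → List ℕ} (h2 : chkClimb (tblOf D) D.simple (okP 2) cand2 = true)
    (h3 : chkClimb (tblOf D) D.simple (okP 3) cand3 = true) (hS : chkClimb (tblOf D) D.simple okS candS = true) :
    ClimbT D F := by
  obtain ⟨p, hp⟩ := CharP.exists F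
  have hpp := CharP.char_is_prime F p
  by_cases hp2 : p = 2
  · subst hp2
    refine chkClimb_spec h2 (fun c hc h0 => ?_)
    rw [CharP.intCast_eq_zero_iff F 2 c] at h0
    simp only [okP, decide_eq_true_eq] at hc
    exact hc (Int.emod_eq_zero_of_dvd h0)
  by_cases hp3 : p = 3
  · subst hp3
    refine chkClimb_spec h3 (fun c hc h0 => ?_)
    rw [CharP.intCast_eq_zero_iff F 3 c] at h0
    simp only [okP, decide_eq_true_eq] at hc
    exact hc (Int.emod_eq_zero_of_dvd h0)
  · refine chkClimb_spec hS (fun c hc h0 => ?_)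
    rw [CharP.intCast_eq_zero_iff F p c] at h0
    simp only [okS, Bool.and_eq_true, decide_eq_true_eq] at hc
    have h5 : p ∣ c.natAbs := by
      have := Int.natAbs_dvd_natAbs.2 h0
      simpa using this
    have h6 := Nat.le_of_dvd (Int.natAbs_pos.2 hc.1) h5
    have h7 := hpp.two_le
    have : p = 4 := by omega
    subst this
    exact absurd hpp (by decide)

theorem climb_unit {cand : ℕ → ℕ → List ℕ} (h : chkClimb (tblOf D) D.simple okU cand = true) : ClimbT D F := by
  refine chkClimb_spec h (fun c hc h0 => ?_)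
  simp only [okU, decide_eq_true_eq] at hc
  rcases Int.natAbs_eq c with e | e
  · rw [e, hc] at h0
    simp at h0
  · rw [e, hc] at h0
    simp at h0

/-- Weakly closed subgroups of `U` are unipotent radicals. -/
theorem weakly_closed_main {D : ChevalleyDatum}
    (hD : D ∈ [chevG2, chevB2, chevD4, chevF4, chevE6, chevE7, chevE8])
    (h2 : Fintype.card F ≠ 2) (h3 : D ∈ [chevG2, chevB2, chevD4, chevF4] → Fintype.card F ≠ 3)
    (X : Subgroup (GL D.Idx F)) (hXU : X ≤ D.posUnipotent F)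
    (hwc : ∀ g ∈ D.group F, X.map (MulAut.conj g).toMonoidHom ≤ D.posUnipotent F →
      X.map (MulAut.conj g).toMonoidHom = X) :
    ∃ J : Set ℕ, (∀ j ∈ J, j < D.rank) ∧ X = D.unipotentRadical F J := by
  have hq1 : 2 ≤ Fintype.card F := Fintype.one_lt_card
  have hdvd : ∀ g : ℕ, (∀ d, d ∣ g → d = 1 ∨ d = Fintype.card F - 1 → d ≠ Fintype.card F - 1) →
      ∃ c : F, c ≠ 0 ∧ c ^ g ≠ 1 := by
    intro g hg
    apply Good2.exists_pow_ne_one_aux (D := chevG2) TabG2.good2
    intro h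
    exact hg _ h (Or.inr rfl) rfl
  simp only [List.mem_cons, List.not_mem_nil, or_false] at hD h3
  rcases hD with rfl | rfl | rfl | rfl | rfl | rfl | rfl
  · have hq3 := h3 (Or.inl rfl)
    refine TabG2.good2.weak_main
      (climb_cases (TabG2.tbl_eq ▸ TabG2.wT_climb2) (TabG2.tbl_eq ▸ TabG2.wT_climb3) (TabG2.tbl_eq ▸ TabG2.wT_climbS))
      (chkDesc_spec _ (TabG2.tbl_eq ▸ TabG2.wT_desc)) ?_ X hXU hwc
    by_cases hq4 : Fintype.card F = 4
    · exact lead_G2 hq4
    · refine lead_of_chk _ (TabG2.tbl_eq ▸ TabG2.wT_sep3) (TabG2.tbl_eq ▸ TabG2.wT_scale) ?_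
      intro g hg
      apply hdvd
      simp only [Bool.or_eq_true, beq_iff_eq] at hg
      intro d hd _ hd2
      have h5 : d ∣ 1 ∨ d ∣ 2 ∨ d ∣ 3 := by
        rcases hg with (rfl | rfl) | rfl
        · exact Or.inl hd
        · exact Or.inr (Or.inl hd)
        · exact Or.inr (Or.inr hd)
      have h6 : d ≤ 3 := by
        rcases h5 with h | h | h <;> have := Nat.le_of_dvd (by norm_num) h <;> omega
      omega
  · have hq3 := h3 (Or.inr (Or.inl rfl))
    refine TabB2.good2.weak_main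
      (climb_cases (TabB2.tbl_eq ▸ TabB2.wT_climb2) (TabB2.tbl_eq ▸ TabB2.wT_climb3) (TabB2.tbl_eq ▸ TabB2.wT_climbS))
      (chkDesc_spec _ (TabB2.tbl_eq ▸ TabB2.wT_desc)) ?_ X hXU hwc
    by_cases hq4 : Fintype.card F = 5
    · exact lead_B2 hq4
    · refine lead_of_chk _ (TabB2.tbl_eq ▸ TabB2.wT_sep) (TabB2.tbl_eq ▸ TabB2.wT_scale) ?_
      intro g hg
      apply hdvd
      simp only [Bool.or_eq_true, beq_iff_eq] at hg
      intro d hd _ hd2
      have h5 : d = 1 ∨ d = 2 ∨ d = 4 := by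
        rcases hg with (rfl | rfl) | rfl
        · exact Or.inl (Nat.dvd_one.1 hd)
        · have := (Nat.dvd_prime Nat.prime_two).1 hd
          omega
        · have := Nat.le_of_dvd (by norm_num) hd
          interval_cases d <;> omega
      omega
  · have hq3 := h3 (Or.inr (Or.inr (Or.inl rfl)))
    refine TabD4.good2.weak_main (climb_unit (TabD4.tbl_eq ▸ TabD4.wT_climb))
      (chkDesc_spec _ (TabD4.tbl_eq ▸ TabD4.wT_desc)) ?_ X hXU hwc
    refine lead_of_chk _ (TabD4.tbl_eq ▸ TabD4.wT_sep) (TabD4.tbl_eq ▸ TabD4.wT_scale) ?_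
    intro g hg
    apply hdvd
    simp only [Bool.or_eq_true, beq_iff_eq] at hg
    intro d hd _ hd2
    have h6 : d ≤ 2 := by
      rcases hg with rfl | rfl <;> have := Nat.le_of_dvd (by norm_num) hd <;> omega
    omega
  · have hq3 := h3 (Or.inr (Or.inr (Or.inr rfl)))
    refine TabF4.good2.weak_main
      (climb_cases (TabF4.tbl_eq ▸ TabF4.wT_climb2) (TabF4.tbl_eq ▸ TabF4.wT_climb3) (TabF4.tbl_eq ▸ TabF4.wT_climbS))
      (chkDesc_spec _ (TabF4.tbl_eq ▸ TabF4.wT_desc)) ?_ X hXU hwc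
    refine lead_of_chk _ (TabF4.tbl_eq ▸ TabF4.wT_sep) (TabF4.tbl_eq ▸ TabF4.wT_scale) ?_
    intro g hg
    apply hdvd
    simp only [Bool.or_eq_true, beq_iff_eq] at hg
    intro d hd _ hd2
    have h6 : d ≤ 2 := by
      rcases hg with rfl | rfl <;> have := Nat.le_of_dvd (by norm_num) hd <;> omega
    omega
  · refine TabE6.good2.weak_main (climb_unit (TabE6.tbl_eq ▸ TabE6.wT_climb))
      (chkDesc_spec _ (TabE6.tbl_eq ▸ TabE6.wT_desc)) ?_ X hXU hwc
    refine lead_of_chk _ (TabE6.tbl_eq ▸ TabE6.wT_sep) (TabE6.tbl_eq ▸ TabE6.wT_scale) ?_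
    intro g hg
    apply hdvd
    simp only [beq_iff_eq] at hg
    subst hg
    intro d hd _ hd2
    have := Nat.dvd_one.1 hd
    omega
  · refine TabE7.good2.weak_main (climb_unit (TabE7.tbl_eq ▸ TabE7.wT_climb))
      (chkDesc_spec _ (TabE7.tbl_eq ▸ TabE7.wT_desc)) ?_ X hXU hwc
    refine lead_of_chk _ (TabE7.tbl_eq ▸ TabE7.wT_sep) (TabE7.tbl_eq ▸ TabE7.wT_scale) ?_
    intro g hg
    apply hdvd
    simp only [beq_iff_eq] at hg
    subst hg
    intro d hd _ hd2
    have := Nat.dvd_one.1 hd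
    omega
  · refine TabE8.good2.weak_main (climb_unit (TabE8.tbl_eq ▸ TabE8.wT_climb))
      (chkDesc_spec _ (TabE8.tbl_eq ▸ TabE8.wT_desc)) ?_ X hXU hwc
    refine lead_of_chk _ (TabE8.tbl_eq ▸ TabE8.wT_sep) (TabE8.tbl_eq ▸ TabE8.wT_scale) ?_
    intro g hg
    apply hdvd
    simp only [beq_iff_eq] at hg
    subst hg
    intro d hd _ hd2
    have := Nat.dvd_one.1 hd
    omega

end small

end Cfsg.Agent.Lib.Chev
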