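import Cfsg.Agent.Lib.Chev.Sub.Weak

/-! The table checks for weakly closed subgroups. -/

set_option autoImplicit false
set_option maxRecDepth 1000000

namespace Cfsg.Agent.Lib.Chev

open Cfsg Cfsg.Lie

/-- coefficient not divisible by `p` -/
def okP (p : ℤ) (c : ℤ) : Bool := decide (c % p ≠ 0)
/-- small non-zero coefficient -/
def okS (c : ℤ) : Bool := decide (c ≠ 0) && decide (c.natAbs < 5)
/-- unit coefficient -/
def okU (c : ℤ) : Bool := decide (c.natAbs = 1)

namespace TabG2
theorem wT_sep3 : chkSep fd.tbl (fun g => g == 1 || g == 2 || g == 3) (fun _ _ => false) = true := by decide +kernel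
theorem wT_sep4 : chkSep fd.tbl (fun g => g == 1 || g == 2)
    (fun k m => (k == 6 && m == 10) || (k == 6 && m == 11) || (k == 10 && m == 11)) = true := by decide +kernel
theorem wT_scale : chkScale fd.tbl = true := by decide +kernel
theorem wT_climb2 : chkClimb fd.tbl chevG2.simple (okP 2) (fun _ _ => List.range 12) = true := by decide +kernel
theorem wT_climb3 : chkClimb fd.tbl chevG2.simple (okP 3) (fun _ _ => List.range 12) = true := by decide +kernel
theorem wT_climbS : chkClimb fd.tbl chevG2.simple okS (fun _ _ => List.range 12) = true := by decide +kernel
theorem wT_desc : chkDesc fd.tbl chevG2.simple W = true := by decide +kernel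
end TabG2

namespace TabB2
theorem wT_sep : chkSep fd.tbl (fun g => g == 1 || g == 2 || g == 4) (fun _ _ => false) = true := by decide +kernel
theorem wT_sep5 : chkSep fd.tbl (fun g => g == 1 || g == 2) (fun k m => k == 4 && m == 7) = true := by decide +kernel
theorem wT_scale : chkScale fd.tbl = true := by decide +kernel
theorem wT_climb2 : chkClimb fd.tbl chevB2.simple (okP 2) (fun _ _ => List.range 8) = true := by decide +kernel
theorem wT_climb3 : chkClimb fd.tbl chevB2.simple (okP 3) (fun _ _ => List.range 8) = true := by decide +kernel
theorem wT_climbS : chkClimb fd.tbl chevB2.simple okS (fun _ _ => List.range 8) = true := by decide +kernel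
theorem wT_desc : chkDesc fd.tbl chevB2.simple W = true := by decide +kernel
end TabB2

namespace TabD4
theorem wT_sep : chkSep fd.tbl (fun g => g == 1 || g == 2) (fun _ _ => false) = true := by decide +kernel
theorem wT_scale : chkScale fd.tbl = true := by decide +kernel
theorem wT_climb : chkClimb fd.tbl chevD4.simple okU (fun b r => [W b r]) = true := by decide +kernel
theorem wT_desc : chkDesc fd.tbl chevD4.simple W = true := by decide +kernel
end TabD4

namespace TabF4
theorem wT_sep : chkSep fd.tbl (fun g => g == 1 || g == 2) (fun _ _ => false) = true := by decide +kernel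
theorem wT_scale : chkScale fd.tbl = true := by decide +kernel
theorem wT_climb2 : chkClimb fd.tbl chevF4.simple (okP 2) (fun _ _ => List.range 48) = true := by decide +kernel
theorem wT_climb3 : chkClimb fd.tbl chevF4.simple (okP 3) (fun _ _ => List.range 48) = true := by decide +kernel
theorem wT_climbS : chkClimb fd.tbl chevF4.simple okS (fun _ _ => List.range 48) = true := by decide +kernel
theorem wT_desc : chkDesc fd.tbl chevF4.simple W = true := by decide +kernel
end TabF4

namespace TabE6
theorem wT_sep : chkSep fd.tbl (fun g => g == 1) (fun _ _ => false) = true := by decide +kernel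
theorem wT_scale : chkScale fd.tbl = true := by decide +kernel
theorem wT_climb : chkClimb fd.tbl chevE6.simple okU (fun b r => [W b r]) = true := by decide +kernel
theorem wT_desc : chkDesc fd.tbl chevE6.simple W = true := by decide +kernel
end TabE6

namespace TabE7
theorem wT_sep : chkSep fd.tbl (fun g => g == 1) (fun _ _ => false) = true := by decide +kernel
theorem wT_scale : chkScale fd.tbl = true := by decide +kernel
theorem wT_climb : chkClimb fd.tbl chevE7.simple okU (fun b r => [W b r]) = true := by decide +kernel
theorem wT_desc : chkDesc fd.tbl chevE7.simple W = true := by decide +kernel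
end TabE7

namespace TabE8
theorem wT_sep : chkSep fd.tbl (fun g => g == 1) (fun _ _ => false) = true := by decide +kernel
theorem wT_scale : chkScale fd.tbl = true := by decide +kernel
theorem wT_climb : chkClimb fd.tbl chevE8.simple okU (fun b r => [W b r]) = true := by decide +kernel
theorem wT_desc : chkDesc fd.tbl chevE8.simple W = true := by decide +kernel
end TabE8

end Cfsg.Agent.Lib.Chev
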